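import Cfsg.Agent.H400.FprOneW
import Cfsg.Agent.H400.FprArith
import Cfsg.Agent.H400.TwoExcChev
import Cfsg.Agent.H86.SLtwo
import Cfsg.Agent.Nodes.RGDFoldSL

/-!
# Fixed point ratios of `p`-elements: the exceptional Chevalley groups, `e = 1` (helper400, TEAM FPR)
-/

set_option autoImplicit false
set_option linter.unusedSectionVars false
set_option linter.unusedVariables false

namespace Cfsg.Agent.H400.Fpr.Chev

open CoxeterSystem Cfsg.Agent.ChevalleyStructure.CoxeterGeom Cfsg.Agent.Tits.Roots Cfsg.Agent.Tits.Core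
  Cfsg.Agent.Nodes.Reps Cfsg.Agent.Nodes.BNOf Cfsg.Agent.KFacts.RgdSL Cfsg.Agent.Nodes.RGDChev
  Cfsg.Agent.ChevalleyStructure.CoxeterGeomTypes Cfsg.Agent.Nodes.KindChev Cfsg.Agent.Nodes.Coroot
  Cfsg.Agent.KFacts.RgdTI
open Cfsg.Lie Cfsg.Agent.ChevalleyStructure Cfsg.Agent.ChevalleyStructure.Elts
open Cfsg.Agent.H400.TwoExc Cfsg.Agent.H86.Par
open Cfsg.Agent.ChevalleyStructure.RootCombGood (car)
open Cfsg.Agent.H398.FPR (CommFull UGood Pair Good)
open Cfsg.Agent.Nodes.RGDFoldSL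
open scoped commutatorElement MatrixGroups

universe u

section Cpr

variable {l : ℕ} {W : Type*} [Group W] [Finite W] {M : CoxeterMatrix (Fin l)} {cs : CoxeterSystem M W}
  {A : Fin l → Fin l → ℤ} {h : IsCartan M A}

theorem cpr_coord {r : Fin l → ℤ} (hr : IsRoot cs h r) (i0 : Fin l)
    (hc : ∀ i, cpr cs h (sr i) r = if i = i0 then 1 else 0) (s : Fin l → ℤ) : cpr cs h s r = s i0 := by
  let f : (Fin l → ℤ) →+ ℤ := AddMonoidHom.mk' (fun x => cpr cs h x r) fun a b => cpr_add cs h a b hr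
  have h1 : s = ∑ i, s i • (sr i : Fin l → ℤ) := by
    funext j
    rw [Finset.sum_apply]
    simp only [Pi.smul_apply, smul_eq_mul, sr, Pi.single_apply]
    simp
  have h2 : f s = ∑ i, s i • f (sr i) := by
    conv_lhs => rw [h1]
    rw [map_sum]
    exact Finset.sum_congr rfl fun i _ => by rw [map_zsmul]
  have h3 : ∀ i, f (sr i) = if i = i0 then 1 else 0 := hc
  show f s = _
  rw [h2]
  simp only [h3, smul_eq_mul, mul_ite, mul_one, mul_zero]
  simp

end Cpr

section SL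

variable {F : Type*} [Field F]

theorem hS_mul {c d : F} (hc : c ≠ 0) (hd : d ≠ 0) :
    (hS c : Matrix.SpecialLinearGroup (Fin 2) F) * hS d = hS (c * d) := by
  apply Subtype.ext
  change (hS c : Matrix.SpecialLinearGroup (Fin 2) F).1 * (hS d).1 = (hS (c * d)).1
  have h1 : (hS c : Matrix.SpecialLinearGroup (Fin 2) F).1 = !![c, 0; 0, c⁻¹] := coe_hS hc
  have h2 : (hS d : Matrix.SpecialLinearGroup (Fin 2) F).1 = !![d, 0; 0, d⁻¹] := coe_hS hd
  have h3 : (hS (c * d) : Matrix.SpecialLinearGroup (Fin 2) F).1 = !![c * d, 0; 0, (c * d)⁻¹] :=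
    coe_hS (mul_ne_zero hc hd)
  rw [h1, h2, h3]
  ext i j
  fin_cases i <;> fin_cases j <;> simp [mul_comm]

theorem hS_one : (hS 1 : Matrix.SpecialLinearGroup (Fin 2) F) = 1 := by
  apply Subtype.ext
  have h1 : (hS 1 : Matrix.SpecialLinearGroup (Fin 2) F).1 = !![1, 0; 0, 1⁻¹] := coe_hS one_ne_zero
  rw [h1, inv_one]
  exact Matrix.one_fin_two.symm

theorem hS_pow {c : F} (hc : c ≠ 0) (i : ℕ) : (hS c : Matrix.SpecialLinearGroup (Fin 2) F) ^ i = hS (c ^ i) := by
  induction i with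
  | zero => rw [pow_zero, pow_zero, hS_one]
  | succ i ih => rw [pow_succ, pow_succ, ih, hS_mul (pow_ne_zero i hc) hc]

end SL

section Chev

variable {D : ChevalleyDatum} {l : ℕ} {M : CoxeterMatrix (Fin l)} (hp : IsType D l M) {K : Type u} [Field K]
  {W : Type*} [Group W] {cs : CoxeterSystem M W}

/-- the fixed points of a torus element on a root subgroup -/
theorem free_X [Finite K] {g : ↥(D.group K)} {c : K} {s : ℕ} (hs : s < D.nroots) {m : ℤ}
    (hg : ∀ t, (g : GL D.Idx K) * xG hp.inList s t * (g : GL D.Idx K)⁻¹ = xG hp.inList s (c ^ m * t))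
    (hc : c ^ m ≠ 1) : ∀ u ∈ (XV D l K (vec D l s)).subgroupOf (D.group K), g * u * g⁻¹ = u → u = 1 := by
  rintro ⟨u, hu'⟩ hu hgu
  rw [Subgroup.mem_subgroupOf, XV_vec hp K hs, mem_rootSubgroup_iff hp.inList] at hu
  obtain ⟨t, rfl⟩ := hu
  have h1 : (g : GL D.Idx K) * xG hp.inList s t * (g : GL D.Idx K)⁻¹ = xG hp.inList s t :=
    congrArg Subtype.val hgu
  rw [hg] at h1
  have h2 := xG_injective hp.inList hs h1
  have h3 : (c ^ m - 1) * t = 0 := by rw [sub_mul, one_mul, h2, sub_self]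
  rcases mul_eq_zero.1 h3 with h4 | h4
  · exact absurd (sub_eq_zero.1 h4) hc
  · apply Subtype.ext
    show xG hp.inList s t = 1
    rw [h4, xG_zero]

/-- **`e = 1` for an exceptional Chevalley group.** -/
theorem one_chev [Finite K] [Finite W] {p : ℕ} [Fact p.Prime] [CharP K p] (hs : IsSimpleGroup ↥(D.group K))
    (H : Hw (rgd (K := K) hp cs p) (vec D l (top D))) (i0 : Fin l)
    (hck : ∀ s < D.nroots, car D (top D) s = vec D l s i0) (hb : ∀ s < D.nroots, vec D l s i0 ≤ 2)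
    (hcr : ∀ i, cpr cs hp.isCartan (sr i) (vec D l (top D)) = if i = i0 then 1 else 0)
    {ℓ : ℕ} (hℓ : ℓ.Prime) (hℓ2 : ℓ ≠ 2) (hd : ℓ ∣ Nat.card K - 1) :
    ∃ x : ↥(D.group K), x ^ ℓ = 1 ∧ ∀ M' : ℕ, (∀ t : ℕ, t ≠ 0 → p ^ t ≡ 1 [MOD ℓ] → M' ≤ p ^ t) →
      M' ≤ Nat.card K → UGood 1 M' x := by
  have : Fact ℓ.Prime := ⟨hℓ⟩
  have hr := H.L.root
  obtain ⟨v, hv⟩ := exists_prime_orderOf_dvd_card' (G := Kˣ) ℓ (by rw [Nat.card_units]; exact hd)
  set c : K := (v : K) with hc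
  have hc0 : c ≠ 0 := v.ne_zero
  have hcℓ : c ^ ℓ = 1 := by rw [hc, ← Units.val_pow_eq_pow_val, ← hv, pow_orderOf_eq_one, Units.val_one]
  have hc1 : c ≠ 1 := by
    intro h1
    have h2 : v = 1 := Units.ext h1
    rw [h2, orderOf_one] at hv
    exact hℓ.one_lt.ne hv
  have hc2 : c ^ 2 ≠ 1 := by
    intro h1
    have h2 : v ^ 2 = 1 := Units.ext (by rw [Units.val_pow_eq_pow_val, Units.val_one]; exact h1)
    have h3 := orderOf_dvd_of_pow_eq_one h2
    rw [hv] at h3
    exact hℓ2 ((Nat.prime_dvd_prime_iff_eq hℓ Nat.prime_two).1 h3)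
  have hmem : hG hp.inList (top D) c ∈ D.group K := hG_mem_group hp.inList _ _
  have htop : top D < D.nroots := top_lt hp.inList
  let x : ↥(D.group K) := ⟨hG hp.inList (top D) c, hmem⟩
  have hxℓ : x ^ ℓ = 1 := by
    apply Subtype.ext
    rw [Subgroup.coe_pow]
    show (hG hp.inList (top D) c) ^ ℓ = 1
    rw [← psi_hS hp.inList htop, ← map_pow, hS_pow hc0, hcℓ, hS_one, map_one]
  refine ⟨x, hxℓ, fun M' hM hMr => ?_⟩
  have hcardX : Nat.card ((XV D l K (vec D l (top D))).subgroupOf (D.group K)) = Nat.card K := by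
    rw [Nat.card_congr (Subgroup.subgroupOfEquivOfLe (XV_le_group hp _)).toEquiv, XV_vec hp K htop]
    exact card_rootSubgroup hp htop
  have hQp : IsPGroup p (QQ cs hp.isCartan (fun x => (XV D l K x).subgroupOf (D.group K)) (vec D l (top D))) := by
    refine IsPGroup.to_le (rgd (K := K) hp cs p).isPGroup_Upos ?_
    refine RGD.Sup_mono (Gt_subset_pos hr fun i => ?_)
    rw [hcr]
    split_ifs <;> norm_num
  refine one_hw (k := 1) H hs (G1_eq_top hp cs) hℓ (x := x) ?_ (by rw [pow_one]; exact hxℓ) ?_ hQp hM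
    (by rw [hcardX]; exact hMr)
  · exact Subgroup.mem_subgroupOf.2 (hG_mem_diagonal hp.inList htop hc0)
  · intro s hs
    obtain ⟨r, hr', rfl⟩ := (isRoot_iff hp cs _).1 hs.1
    have h1 := hs.2
    rw [cpr_coord hr i0 hcr] at h1
    have h2 := hb r hr'
    refine free_X hp hr' (m := car D (top D) r) (fun t => hG_top_conj hp.inList hc0 hr' t) ?_
    rw [hck r hr']
    have h3 : vec D l r i0 = 1 ∨ vec D l r i0 = 2 := by omega
    rcases h3 with h3 | h3
    · rw [h3, zpow_one]; exact hc1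
    · rw [h3]
      intro h4
      apply hc2
      have h5 : (2 : ℤ) = ((2 : ℕ) : ℤ) := rfl
      rw [h5, zpow_natCast] at h4
      exact h4

end Chev

end Cfsg.Agent.H400.Fpr.Chev
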