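import Cfsg.Agent.H400.FprChevOne

/-!
# Fixed point ratios of `p`-elements: `G₂, F₄, E₆, E₇, E₈`, `e = 1` (helper400, TEAM FPR)
-/

set_option autoImplicit false
set_option linter.unusedSectionVars false
set_option linter.unusedVariables false

namespace Cfsg.Agent.H400.Fpr.Chev

open CoxeterSystem Cfsg.Agent.ChevalleyStructure.CoxeterGeom Cfsg.Agent.Tits.Roots Cfsg.Agent.Tits.Core
  Cfsg.Agent.Nodes.Reps Cfsg.Agent.Nodes.BNOf Cfsg.Agent.KFacts.RgdSL Cfsg.Agent.Nodes.RGDChev
  Cfsg.Agent.ChevalleyStructure.CoxeterGeomTypes Cfsg.Agent.Nodes.KindChev Cfsg.Agent.Nodes.Coroot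
  Cfsg.Agent.KFacts.RgdTI
open Cfsg.Lie Cfsg.Agent.ChevalleyStructure Cfsg.Agent.ChevalleyStructure.Elts
open Cfsg.Agent.H400.TwoExc Cfsg.Agent.H86.Par
open Cfsg.Agent.ChevalleyStructure.RootCombGood (car)
open Cfsg.Agent.H398.FPR (CommFull UGood Pair Good)
open Cfsg.Agent.H400.Fpr (cpr_val)
open scoped commutatorElement MatrixGroups

universe u

section Hw

variable {D : ChevalleyDatum} {l : ℕ} {M : CoxeterMatrix (Fin l)} (hp : IsType D l M) {K : Type u} [Field K]
  {W : Type*} [Group W] {cs : CoxeterSystem M W}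

/-- the weak Heisenberg structure from the tables -/
theorem hw_chev [Finite K] [Finite W] {R : ℕ} {m : ℤ} (hN : chkN D = true) (hS : chkS D l R m = true)
    (hR : R < D.nroots) {d : Fin l → ℤ} (H : GR cs hp.isCartan d (vec D l R)) (p : ℕ)
    [Fact p.Prime] [CharP K p] {a b : ℕ} (ha : a < D.nroots) (hb : b < D.nroots)
    (hab : vec D l a + vec D l b = vec D l R) (hab1 : a ≠ b) (hab2 : a ≠ D.neg b) {C : ℤ} (hC : C = 1 ∨ C = -1)
    (hcom : D.commTerms b a = [(R, C, 1, 1)])
    (ha' : 0 < qf (cartanOf D l) d (vec D l a) (vec D l R)) (hb' : 0 < qf (cartanOf D l) d (vec D l b) (vec D l R)) :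
    Hw (rgd (K := K) hp cs p) (vec D l R) := by
  have hnil : ∀ x y, IsRoot cs hp.isCartan x → IsRoot cs hp.isCartan y → x ≠ -y → ¬ IsRoot cs hp.isCartan (x + y) →
      ∀ u ∈ (XV D l K x).subgroupOf (D.group K), ∀ v ∈ (XV D l K y).subgroupOf (D.group K), u * v = v * u := by
    rintro x y hx hy hne hxy ⟨u, hu'⟩ hu ⟨v, hv'⟩ hv
    exact Subtype.ext (commX hp hN hx hy hne hxy hu hv)
  have hcp : ∀ s, (0 < cpr cs hp.isCartan s (vec D l R) ↔ 0 < qf (cartanOf D l) d s (vec D l R)) := fun s =>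
    (cpr_sign H.hd H.rr (H.qf_pos H.rr) s).2
  refine ⟨⟨H.rr, ?_⟩, ?_, ?_⟩
  · intro x hx h0 u hu v hv
    refine hnil x _ hx H.rr ?_ (H.add_not_root hx h0) u hu v hv
    rintro rfl
    rw [cpr_neg cs _ _ H.rr, cpr_self cs _ H.rr] at h0
    omega
  · intro s hs t ht u hu v hv
    have h1 : u * v = v * u → ⁅u, v⁆ ∈ (XV D l K (vec D l R)).subgroupOf (D.group K) := by
      intro h1
      rw [commutatorElement_eq_one_iff_mul_comm.2 h1]; exact one_mem _
    by_cases hst : s + t = vec D l R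
    · obtain ⟨u, hu'⟩ := u
      obtain ⟨v, hv'⟩ := v
      obtain ⟨a, ha, rfl⟩ := (isRoot_iff hp cs _).1 hs.1
      obtain ⟨b, hb, rfl⟩ := (isRoot_iff hp cs _).1 ht.1
      rw [Subgroup.mem_subgroupOf, XV_vec hp K ha, mem_rootSubgroup_iff hp.inList] at hu
      rw [Subgroup.mem_subgroupOf, XV_vec hp K hb, mem_rootSubgroup_iff hp.inList] at hv
      obtain ⟨t, rfl⟩ := hu
      obtain ⟨u, rfl⟩ := hv
      obtain ⟨C, -, h1⟩ := commS hp (K := K) hS ha hb hst
      rw [Subgroup.mem_subgroupOf, XV_vec hp K hR]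
      show ⁅xG hp.inList a t, xG hp.inList b u⁆ ∈ _
      rw [h1]
      exact xG_mem_rootSubgroup hp.inList _ _
    · apply h1
      have hne : s ≠ -t := by
        rintro rfl
        have h2 := hs.2
        have h3 := ht.2
        rw [cpr_neg cs _ _ H.rr] at h2
        omega
      by_cases hsr : s = vec D l R
      · subst hsr
        refine hnil _ _ hs.1 ht.1 hne ?_ u hu v hv
        rw [add_comm]
        exact H.add_not_root ht.1 ht.2.le
      by_cases htr : t = vec D l R
      · subst htr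
        exact hnil _ _ hs.1 ht.1 hne (H.add_not_root hs.1 hs.2.le) u hu v hv
      have h2 := H.cpr_one hs.1 hsr hs.2
      have h3 := H.cpr_one ht.1 htr ht.2
      have h4 : cpr cs hp.isCartan (s + t) (vec D l R) = 2 := by rw [cpr_add cs _ _ _ H.rr, h2, h3]; norm_num
      refine hnil _ _ hs.1 ht.1 hne (fun h5 => ?_) u hu v hv
      have h6 := H.cpr_one h5 hst (by omega)
      omega
  · refine ⟨_, ⟨isRoot_vec hp cs ha, (hcp _).2 ha'⟩, _, ⟨isRoot_vec hp cs hb, (hcp _).2 hb'⟩,
      ⟨xG hp.inList a 1, xG_mem_group hp.inList _ _⟩, ?_, ⟨xG hp.inList b 1, xG_mem_group hp.inList _ _⟩, ?_, ?_⟩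
    · rw [Subgroup.mem_subgroupOf, XV_vec hp K ha]
      exact xG_mem_rootSubgroup hp.inList _ _
    · rw [Subgroup.mem_subgroupOf, XV_vec hp K hb]
      exact xG_mem_rootSubgroup hp.inList _ _
    · intro h0
      have h1 : xG hp.inList a (1 : K) * xG hp.inList b 1 = xG hp.inList b 1 * xG hp.inList a 1 :=
        congrArg Subtype.val h0
      have h2 := comm_xG hp (K := K) hb ha hab1 hab2 (-1) (-1)
      have h3 : D.commWord K b a (-1) (-1) = [(R, -(C : K))] := by
        show (D.commTerms b a).map _ = _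
        rw [hcom]
        simp
      rw [h3, ← xG_inv, ← xG_inv, inv_inv, inv_inv, wordG_cons, wordG_nil, mul_one] at h2
      rw [commutatorElement_def] at h2
      have h4 : xG hp.inList R (-(C : K)) = 1 := by
        rw [← h2, h1]; group
      have h5 : xG hp.inList R (-(C : K)) = xG hp.inList R 0 := by rw [h4, xG_zero]
      have h6 := xG_injective hp.inList hR h5
      rcases hC with rfl | rfl
      · simp at h6
      · simp at h6

end Hw

section Rows

open CoxeterSystem

variable {K : Type u} [Field K]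

/-- **`G₂(q)`, `e = 1`.** -/
theorem one_G2 [Finite K] {p : ℕ} [Fact p.Prime] [CharP K p] (hs : IsSimpleGroup ↥(chevG2.group K)) {ℓ : ℕ}
    (hℓ : ℓ.Prime) (hℓ2 : ℓ ≠ 2) (hd : ℓ ∣ Nat.card K - 1) :
    ∃ x : ↥(chevG2.group K), x ^ ℓ = 1 ∧ ∀ M' : ℕ, (∀ t : ℕ, t ≠ 0 → p ^ t ≡ 1 [MOD ℓ] → M' ≤ p ^ t) →
      M' ≤ Nat.card K → UGood 1 M' x := by
  have hp : IsType chevG2 2 CoxeterMatrix.G₂ := by simp [IsType, typeList]
  let cs : CoxeterSystem CoxeterMatrix.G₂ CoxeterMatrix.G₂.Group := CoxeterMatrix.G₂.toCoxeterSystem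
  have hW : Finite CoxeterMatrix.G₂.Group := finite_W hp cs
  have hG := grG cs hp
  have hv : vec chevG2 2 11 = toV [3, 2] := by decide +kernel
  have ht : top chevG2 = 11 := by decide +kernel
  refine one_chev (cs := cs) hp hs ?_ 1 (by decide +kernel) (by decide +kernel) ?_ hℓ hℓ2 hd
  · rw [ht]
    exact hw_chev hp (m := 3) chkNG chkSG (by decide +kernel) (d := toV dlG2c) (by rw [hv]; exact hG) p
      (a := 10) (b := 6) (by decide +kernel) (by decide +kernel) (by decide +kernel) (by decide +kernel)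
      (by decide +kernel) (C := 1) (Or.inl rfl) (by decide +kernel) (by decide +kernel) (by decide +kernel)
  · intro i
    rw [ht, hv]
    fin_cases i
    · exact cpr_val hG.hd hG.rr (c := 0) (by decide +kernel) (by decide +kernel)
    · exact cpr_val hG.hd hG.rr (c := 1) (by decide +kernel) (by decide +kernel)

/-- **`F₄(q)`, `e = 1`.** -/
theorem one_F4 [Finite K] {p : ℕ} [Fact p.Prime] [CharP K p] (hs : IsSimpleGroup ↥(chevF4.group K)) {ℓ : ℕ}
    (hℓ : ℓ.Prime) (hℓ2 : ℓ ≠ 2) (hd : ℓ ∣ Nat.card K - 1) :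
    ∃ x : ↥(chevF4.group K), x ^ ℓ = 1 ∧ ∀ M' : ℕ, (∀ t : ℕ, t ≠ 0 → p ^ t ≡ 1 [MOD ℓ] → M' ≤ p ^ t) →
      M' ≤ Nat.card K → UGood 1 M' x := by
  have hp : IsType chevF4 4 CoxeterMatrix.F₄ := by simp [IsType, typeList]
  let cs : CoxeterSystem CoxeterMatrix.F₄ CoxeterMatrix.F₄.Group := CoxeterMatrix.F₄.toCoxeterSystem
  have hW : Finite CoxeterMatrix.F₄.Group := finite_W hp cs
  have hG := grF cs hp
  have hv : vec chevF4 4 47 = toV [2, 4, 3, 2] := by decide +kernel
  have ht : top chevF4 = 47 := by decide +kernel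
  refine one_chev (cs := cs) hp hs ?_ 3 (by decide +kernel) (by decide +kernel) ?_ hℓ hℓ2 hd
  · rw [ht]
    exact hw_chev hp (m := 2) chkNF chkSF (by decide +kernel) (d := toV dlF4c) (by rw [hv]; exact hG) p
      (a := 46) (b := 24) (by decide +kernel) (by decide +kernel) (by decide +kernel) (by decide +kernel)
      (by decide +kernel) (C := 1) (Or.inl rfl) (by decide +kernel) (by decide +kernel) (by decide +kernel)
  · intro i
    rw [ht, hv]
    fin_cases i
    · exact cpr_val hG.hd hG.rr (c := 0) (by decide +kernel) (by decide +kernel)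
    · exact cpr_val hG.hd hG.rr (c := 0) (by decide +kernel) (by decide +kernel)
    · exact cpr_val hG.hd hG.rr (c := 0) (by decide +kernel) (by decide +kernel)
    · exact cpr_val hG.hd hG.rr (c := 1) (by decide +kernel) (by decide +kernel)

end Rows

end Cfsg.Agent.H400.Fpr.Chev
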