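import Cfsg.Agent.H400.FprChevRows
import Cfsg.Agent.H400.TwoExcE

/-!
# Fixed point ratios of `p`-elements: `E₆, E₇, E₈`, `e = 1` (helper400, TEAM FPR)
-/

set_option autoImplicit false
set_option linter.unusedSectionVars false
set_option linter.unusedVariables false

namespace Cfsg.Agent.H400.Fpr.Chev

open CoxeterSystem Cfsg.Agent.ChevalleyStructure.CoxeterGeom Cfsg.Agent.Tits.Roots Cfsg.Agent.Tits.Core
  Cfsg.Agent.Nodes.Reps Cfsg.Agent.Nodes.BNOf Cfsg.Agent.KFacts.RgdSL Cfsg.Agent.Nodes.RGDChev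
  Cfsg.Agent.ChevalleyStructure.CoxeterGeomTypes Cfsg.Agent.Nodes.KindChev Cfsg.Agent.Nodes.Coroot
  Cfsg.Agent.KFacts.RgdTI
open Cfsg.Lie Cfsg.Agent.ChevalleyStructure Cfsg.Agent.ChevalleyStructure.Elts
open Cfsg.Agent.H400.TwoExc Cfsg.Agent.H86.Par
open Cfsg.Agent.ChevalleyStructure.RootCombGood (car)
open Cfsg.Agent.H398.FPR (CommFull UGood Pair Good)
open scoped commutatorElement MatrixGroups

universe u

theorem one_E {D : ChevalleyDatum} {l : ℕ} {M : CoxeterMatrix (Fin l)} (hp : IsType D l M) {K : Type u} [Field K]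
    [Finite K] {p : ℕ} [Fact p.Prime] [CharP K p] (h4 : ∀ i j, M i j ≠ 4) (h6 : ∀ i j, M i j ≠ 6) (i0 : Fin l)
    (hck : ∀ s < D.nroots, car D (top D) s = vec D l s i0) (hb : ∀ s < D.nroots, vec D l s i0 ≤ 2)
    (hcr : ∀ i, pairing (cartanOf D l) i (vec D l (top D)) = if i = i0 then 1 else 0)
    (hs : IsSimpleGroup ↥(D.group K)) {ℓ : ℕ} (hℓ : ℓ.Prime) (hℓ2 : ℓ ≠ 2) (hd : ℓ ∣ Nat.card K - 1) :
    ∃ x : ↥(D.group K), x ^ ℓ = 1 ∧ ∀ M' : ℕ, (∀ t : ℕ, t ≠ 0 → p ^ t ≡ 1 [MOD ℓ] → M' ≤ p ^ t) →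
      M' ≤ Nat.card K → UGood 1 M' x := by
  let cs : CoxeterSystem M M.Group := M.toCoxeterSystem
  have hW : Finite M.Group := finite_W hp cs
  have hSL : SL cs hp.isCartan := fun _ _ hx hy => Nodes.SimplyLaced.cpr_symm cs _ h4 h6 hx hy
  have hr : IsRoot cs hp.isCartan (vec D l (top D)) := isRoot_vec hp cs (top_lt hp.inList)
  have h1 : ∀ i, cpr cs hp.isCartan (sr i) (vec D l (top D)) = if i = i0 then 1 else 0 := by
    intro i
    rw [hSL _ _ (isRoot_sr cs _ i) hr, cpr_sr]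
    exact hcr i
  have H : Hs (rgd (K := K) hp cs p) (vec D l (top D)) := by
    refine Hs.of_SL _ hSL hr (isRoot_sr cs _ i0) ?_
    rw [cpr_sr, hcr, if_pos rfl]
  refine one_chev hp hs (Cfsg.Agent.H400.Fpr.Hs.hw H ⟨sr i0, ⟨isRoot_sr cs _ i0, ?_⟩, ?_⟩) i0 hck hb h1 hℓ hℓ2 hd
  · rw [h1, if_pos rfl]; norm_num
  · intro h2
    have h3 := h1 i0
    rw [if_pos rfl, h2, cpr_self cs _ hr] at h3
    norm_num at h3

/-- The pairings with the highest coroot are coefficients, from the fundamental roots alone. -/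
theorem hck_of {D : ChevalleyDatum} {l : ℕ} {M : CoxeterMatrix (Fin l)} (hp : IsType D l M) (r : ℕ) (i0 : Fin l)
    (h : ∀ j : Fin l, ∑ k : Fin l, Cfsg.Agent.ChevalleyStructure.RootCombGood.co D r k * cartanOf D l k j =
      if j = i0 then 1 else 0) :
    ∀ s < D.nroots, car D r s = vec D l s i0 := by
  intro s hs
  have h1 : car D r s = ∑ k : Fin l, Cfsg.Agent.ChevalleyStructure.RootCombGood.co D r k * D.cartan k s := by
    unfold car
    rw [hp.rank_eq, Finset.sum_range]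
  rw [h1]
  simp only [← pairing_vec hp _ hs, pairing, Finset.mul_sum]
  rw [Finset.sum_comm]
  have h2 : ∀ j : Fin l, (∑ k : Fin l, Cfsg.Agent.ChevalleyStructure.RootCombGood.co D r k *
      (cartanOf D l k j * vec D l s j)) = if j = i0 then vec D l s i0 else 0 := by
    intro j
    have h3 : (∑ k : Fin l, Cfsg.Agent.ChevalleyStructure.RootCombGood.co D r k *
      (cartanOf D l k j * vec D l s j)) = (∑ k : Fin l, Cfsg.Agent.ChevalleyStructure.RootCombGood.co D r k *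
      cartanOf D l k j) * vec D l s j := by
      rw [Finset.sum_mul]
      exact Finset.sum_congr rfl fun k _ => (mul_assoc _ _ _).symm
    rw [h3, h j]
    by_cases hj : j = i0
    · rw [if_pos hj, if_pos hj, hj, one_mul]
    · rw [if_neg hj, if_neg hj, zero_mul]
  simp only [h2, Finset.sum_ite_eq', Finset.mem_univ, if_true]

section Rows

variable {K : Type u} [Field K]

/-- **`E₆(q)`, `e = 1`.** -/
theorem one_E6 [Finite K] {p : ℕ} [Fact p.Prime] [CharP K p] (hs : IsSimpleGroup ↥(chevE6.group K)) {ℓ : ℕ}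
    (hℓ : ℓ.Prime) (hℓ2 : ℓ ≠ 2) (hd : ℓ ∣ Nat.card K - 1) :
    ∃ x : ↥(chevE6.group K), x ^ ℓ = 1 ∧ ∀ M' : ℕ, (∀ t : ℕ, t ≠ 0 → p ^ t ≡ 1 [MOD ℓ] → M' ≤ p ^ t) →
      M' ≤ Nat.card K → UGood 1 M' x :=
  one_E (l := 6) (M := CoxeterMatrix.E₆) (by simp [IsType, typeList]) ne_E6.1 ne_E6.2 1
    (hck_of (M := CoxeterMatrix.E₆) (by simp [IsType, typeList]) _ 1 (by decide +kernel))
    (by decide +kernel) (by decide +kernel) hs hℓ hℓ2 hd

/-- **`E₇(q)`, `e = 1`.** -/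
theorem one_E7 [Finite K] {p : ℕ} [Fact p.Prime] [CharP K p] (hs : IsSimpleGroup ↥(chevE7.group K)) {ℓ : ℕ}
    (hℓ : ℓ.Prime) (hℓ2 : ℓ ≠ 2) (hd : ℓ ∣ Nat.card K - 1) :
    ∃ x : ↥(chevE7.group K), x ^ ℓ = 1 ∧ ∀ M' : ℕ, (∀ t : ℕ, t ≠ 0 → p ^ t ≡ 1 [MOD ℓ] → M' ≤ p ^ t) →
      M' ≤ Nat.card K → UGood 1 M' x :=
  one_E (l := 7) (M := CoxeterMatrix.E₇) (by simp [IsType, typeList]) ne_E7.1 ne_E7.2 0
    (hck_of (M := CoxeterMatrix.E₇) (by simp [IsType, typeList]) _ 0 (by decide +kernel))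
    (by decide +kernel) (by decide +kernel) hs hℓ hℓ2 hd

/-- **`E₈(q)`, `e = 1`.** -/
theorem one_E8 [Finite K] {p : ℕ} [Fact p.Prime] [CharP K p] (hs : IsSimpleGroup ↥(chevE8.group K)) {ℓ : ℕ}
    (hℓ : ℓ.Prime) (hℓ2 : ℓ ≠ 2) (hd : ℓ ∣ Nat.card K - 1) :
    ∃ x : ↥(chevE8.group K), x ^ ℓ = 1 ∧ ∀ M' : ℕ, (∀ t : ℕ, t ≠ 0 → p ^ t ≡ 1 [MOD ℓ] → M' ≤ p ^ t) →
      M' ≤ Nat.card K → UGood 1 M' x :=
  one_E (l := 8) (M := CoxeterMatrix.E₈) (by simp [IsType, typeList]) ne_E8.1 ne_E8.2 7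
    (hck_of (M := CoxeterMatrix.E₈) (by simp [IsType, typeList]) _ 7 (by decide +kernel))
    (by decide +kernel) (by decide +kernel) hs hℓ hℓ2 hd

end Rows

end Cfsg.Agent.H400.Fpr.Chev
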