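import Cfsg.Agent.H400.FprPar
import Cfsg.Agent.H400.TwoExcTwD

/-!
# Fixed point ratios of `p`-elements: `³D₄(q)`, the radical of the long parabolic (helper400, TEAM FPR)
-/

set_option autoImplicit false
set_option linter.unusedSectionVars false
set_option linter.unusedVariables false

namespace Cfsg.Agent.H400.Fpr

open scoped commutatorElement

theorem commutator_iSup_le {Y : Type*} [Group Y] {ι : Type*} (V : ι → Subgroup Y) (Z : Subgroup Y)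
    (hn : ∀ i, V i ≤ Subgroup.normalizer (Z : Set Y)) (h : ∀ i j, ∀ a ∈ V i, ∀ b ∈ V j, ⁅a, b⁆ ∈ Z) :
    ⁅⨆ i, V i, ⨆ i, V i⁆ ≤ Z := by
  have hN : (⨆ i, V i) ≤ Subgroup.normalizer (Z : Set Y) := iSup_le hn
  have cj : ∀ a ∈ Subgroup.normalizer (Z : Set Y), ∀ z ∈ Z, a * z * a⁻¹ ∈ Z := fun a ha z hz =>
    (Subgroup.mem_normalizer_iff.1 ha z).1 hz
  -- first variable
  let S : Y → Subgroup Y := fun b =>
    { carrier := {a | a ∈ Subgroup.normalizer (Z : Set Y) ∧ ⁅a, b⁆ ∈ Z}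
      one_mem' := ⟨one_mem _, by rw [commutatorElement_one_left]; exact one_mem _⟩
      mul_mem' := by
        rintro a a' ⟨ha, ha'⟩ ⟨hb, hb'⟩
        refine ⟨mul_mem ha hb, ?_⟩
        have e : ⁅a * a', b⁆ = (a * ⁅a', b⁆ * a⁻¹) * ⁅a, b⁆ := by
          simp only [commutatorElement_def]; group
        rw [e]
        exact mul_mem (cj a ha _ hb') ha'
      inv_mem' := by
        rintro a ⟨ha, ha'⟩
        refine ⟨inv_mem ha, ?_⟩
        have e : ⁅a⁻¹, b⁆ = a⁻¹ * ⁅a, b⁆⁻¹ * a⁻¹⁻¹ := by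
          simp only [commutatorElement_def]; group
        rw [e]
        exact cj _ (inv_mem ha) _ (inv_mem ha') }
  have h1 : ∀ j, ∀ b ∈ V j, ∀ a ∈ (⨆ i, V i), ⁅a, b⁆ ∈ Z := by
    intro j b hb a ha
    have h2 : (⨆ i, V i) ≤ S b := iSup_le fun i a ha => ⟨hn i ha, h i j a ha b hb⟩
    exact (h2 ha).2
  rw [Subgroup.commutator_le]
  intro a ha b hb
  have haN := hN ha
  have h2 : (⨆ i, V i) ≤ S a := iSup_le fun j b hb => ⟨hn j hb, by
    rw [← commutatorElement_inv]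
    exact inv_mem (h1 j b hb a ha)⟩
  rw [← commutatorElement_inv]
  exact inv_mem (h2 hb).2

namespace D4

open CoxeterSystem Cfsg.Agent.ChevalleyStructure.CoxeterGeom Cfsg.Agent.Tits.Roots Cfsg.Agent.Tits.Core
  Cfsg.Agent.Nodes.Reps Cfsg.Agent.Nodes.BNOf Cfsg.Agent.Nodes.RGDTwGen Cfsg.Agent.Nodes.RGDChev Cfsg.Agent.Nodes.RGDFold
  Cfsg.Agent.Nodes.KindChev Cfsg.Agent.Nodes.Coroot Cfsg.Agent.Nodes.PosPair Cfsg.Agent.Nodes.LeviDec
  Cfsg.Agent.Nodes.StabComb Cfsg.Agent.Nodes.Bruhat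
open Cfsg.Lie Cfsg.Agent.ChevalleyStructure
open Cfsg.Agent.ChevalleyStructure.TwistedU Cfsg.Agent.ChevalleyStructure.D4U
  Cfsg.Agent.ChevalleyStructure.D4Comm Cfsg.Agent.ChevalleyStructure.D4RGD Cfsg.Agent.ChevalleyStructure.D4Twisted
open Cfsg.Agent.ChevalleyStructure.D4NConj (nR nR_def nG nG_def nG_conj)
open Cfsg.Agent.ChevalleyStructure.D4NCheck (rfl' eta)
open Cfsg.Agent.Nodes.RGDTwD4 (A isCartan foldData hp)
open Cfsg.Agent.Hexagon.TwD4Par Cfsg.Agent.Hexagon.TwD4Rel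
open Cfsg.Agent.SplitTwo
open Cfsg.Agent.Omega.EH3.Kf
open Cfsg.Agent.H400.TwoExc Cfsg.Agent.H400.TwoExc.TwD
open Cfsg.Agent.H398.FPR (CommFull UGood Pair)
open scoped commutatorElement

universe u

section Hex

variable {E : Type*} [Field E] {σ : E ≃+* E} {G : Type*} [Group G] {XX : ZMod (2 * 6) → Subgroup G}
  {x1 x2 x3 x4 x5 x6 : E → G} (P : HexPar σ XX x1 x2 x3 x4 x5 x6)

include P

/-- the centre of the radical -/
def Z0 (XX : ZMod (2 * 6) → Subgroup G) : Subgroup G := XX 2 ⊔ XX 3 ⊔ XX 4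

omit P in
theorem X2_le : XX 2 ≤ Z0 XX := le_sup_left.trans le_sup_left
omit P in
theorem X3_le : XX 3 ≤ Z0 XX := le_sup_right.trans le_sup_left
omit P in
theorem X4_le : XX 4 ≤ Z0 XX := le_sup_right

theorem com13 (a b : E) : ⁅x1 a, x3 b⁆ = x2 (trc σ a b) := by
  have hz : ∀ t, x1 (-t) = (x1 t)⁻¹ := by
    intro t
    have := P.rel.add1 (-t) t
    rw [neg_add_cancel, x1_zero P] at this
    exact eq_inv_of_mul_eq_one_left this.symm
  have h1 := P.rel.c13 (-a) (-b)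
  rw [FamD4.kk_eq, x3_neg P, hz, inv_inv, inv_inv] at h1
  rw [h1]
  unfold trc
  rw [neg_mul_neg]

theorem x1_neg (t : E) : x1 (-t) = (x1 t)⁻¹ := by
  have := P.rel.add1 (-t) t
  rw [neg_add_cancel, x1_zero P] at this
  exact eq_inv_of_mul_eq_one_left this.symm

omit P in
theorem map_nrm (hc : ∀ a, σ (σ (σ a)) = a) (a : E) : σ (nrm σ a) = nrm σ a := by
  simp only [nrm, map_mul, hc]; ring

theorem conj_x6 {t : E} (ht : σ t = t) (a : E) : ∃ z ∈ Z0 XX, x6 t * x1 a * (x6 t)⁻¹ = x1 a * z * x5 (t * a) := by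
  have h1 := P.rel.c16 a (-t) (by rw [map_neg, ht])
  unfold kk at h1
  rw [x6_neg P ht, inv_inv] at h1
  refine ⟨x2 (-(-t * nrm σ a)) * x3 (-t * shp σ a) * x4 ((-t) ^ 2 * nrm σ a), ?_, ?_⟩
  · have hc := P.rel.cube
    have hn := map_nrm hc a
    refine mul_mem (mul_mem (X2_le ((P.mem2 _).2 ⟨_, ?_, rfl⟩)) (X3_le ((P.mem3 _).2 ⟨_, rfl⟩)))
      (X4_le ((P.mem4 _).2 ⟨_, ?_, rfl⟩))
    · rw [map_neg, map_mul, map_neg, ht, hn]
    · rw [map_mul, map_pow, map_neg, ht, hn]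
  · have h2 : x6 t * x1 a * (x6 t)⁻¹ = x1 a * ((x1 a)⁻¹ * x6 t * x1 a * (x6 t)⁻¹) := by group
    have h3 : -(-t * a) = t * a := by ring
    rw [h2, h1, h3]
    simp only [mul_assoc]

/-- the radical -/
def Vr (XX : ZMod (2 * 6) → Subgroup G) : Subgroup G := ⨆ i : Fin 5, ![XX 1, XX 2, XX 3, XX 4, XX 5] i

omit P in
theorem V1 : XX 1 ≤ Vr XX := le_iSup (fun i : Fin 5 => ![XX 1, XX 2, XX 3, XX 4, XX 5] i) 0
omit P in
theorem V2 : XX 2 ≤ Vr XX := le_iSup (fun i : Fin 5 => ![XX 1, XX 2, XX 3, XX 4, XX 5] i) 1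
omit P in
theorem V3 : XX 3 ≤ Vr XX := le_iSup (fun i : Fin 5 => ![XX 1, XX 2, XX 3, XX 4, XX 5] i) 2
omit P in
theorem V4 : XX 4 ≤ Vr XX := le_iSup (fun i : Fin 5 => ![XX 1, XX 2, XX 3, XX 4, XX 5] i) 3
omit P in
theorem V5 : XX 5 ≤ Vr XX := le_iSup (fun i : Fin 5 => ![XX 1, XX 2, XX 3, XX 4, XX 5] i) 4

omit P in
theorem Z0_le_Vr : Z0 XX ≤ Vr XX := sup_le (sup_le V2 V3) V4

omit P in
theorem norm_of_comm [Finite G] {A B : Subgroup G} (h : ∀ a ∈ A, ∀ b ∈ B, a * b = b * a) :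
    ∀ a ∈ A, ∀ b ∈ B, a * b * a⁻¹ ∈ B := by
  intro a ha b hb
  rw [h a ha b hb, mul_inv_cancel_right]
  exact hb

omit P in
theorem norm_Z0 [Finite G] {A : Subgroup G} (h2 : ∀ a ∈ A, ∀ b ∈ XX 2, a * b * a⁻¹ ∈ Z0 XX)
    (h3 : ∀ a ∈ A, ∀ b ∈ XX 3, a * b * a⁻¹ ∈ Z0 XX) (h4 : ∀ a ∈ A, ∀ b ∈ XX 4, a * b * a⁻¹ ∈ Z0 XX) :
    A ≤ Subgroup.normalizer (Z0 XX : Set G) := by
  intro a ha
  refine norm_iff.2 ?_
  have h5 : Z0 XX ≤ (Z0 XX).comap (MulAut.conj a).toMonoidHom :=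
    sup_le (sup_le (fun b hb => h2 a ha b hb) (fun b hb => h3 a ha b hb)) (fun b hb => h4 a ha b hb)
  exact fun y hy => h5 hy

omit P in
theorem conj_of_comm {A B C : Subgroup G} {a b : G} (h : ⁅a, b⁆ ∈ C) (hb : b ∈ C) : a * b * a⁻¹ ∈ C := by
  have : a * b * a⁻¹ = ⁅a, b⁆ * b := by rw [commutatorElement_def]; group
  rw [this]
  exact mul_mem h hb

omit P in
theorem conj_of_eq {C : Subgroup G} {a b : G} (h : a * b = b * a) (hb : b ∈ C) : a * b * a⁻¹ ∈ C := by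
  rw [h, mul_inv_cancel_right]
  exact hb

omit P in
theorem comm_of_eq {C : Subgroup G} {a b : G} (h : a * b = b * a) : ⁅a, b⁆ ∈ C := by
  rw [commutatorElement_def, h]
  have : b * a * a⁻¹ * b⁻¹ = 1 := by group
  rw [this]
  exact one_mem _

omit P in
theorem comm_symm {C : Subgroup G} {a b : G} (h : ⁅a, b⁆ ∈ C) : ⁅b, a⁆ ∈ C := by
  rw [← commutatorElement_inv]
  exact inv_mem h

theorem Vr_norm_Z0 [Finite G] (i : Fin 5) : ![XX 1, XX 2, XX 3, XX 4, XX 5] i ≤ Subgroup.normalizer (Z0 XX : Set G) := by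
  fin_cases i
  · refine norm_Z0 (fun a ha b hb => conj_of_eq (nil12 P ha hb) (X2_le hb)) (fun a ha b hb => ?_)
      (fun a ha b hb => conj_of_eq (nil14 P ha hb) (X4_le hb))
    obtain ⟨s, rfl⟩ := (P.mem1 a).1 ha
    obtain ⟨t, rfl⟩ := (P.mem3 b).1 hb
    refine conj_of_comm (A := ⊥) (B := ⊥) ?_ (X3_le hb)
    rw [com13 P]
    exact X2_le ((P.mem2 _).2 ⟨_, map_trc P.rel.cube _ _, rfl⟩)
  · exact norm_Z0 (fun a ha b hb => conj_of_eq (nil22 P ha hb) (X2_le hb))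
      (fun a ha b hb => conj_of_eq (nil23 P ha hb) (X3_le hb))
      (fun a ha b hb => conj_of_eq (nil24 P ha hb) (X4_le hb))
  · exact norm_Z0 (fun a ha b hb => conj_of_eq (nil23 P hb ha).symm (X2_le hb))
      (fun a ha b hb => conj_of_eq (nil33 P ha hb) (X3_le hb))
      (fun a ha b hb => conj_of_eq (nil34 P ha hb) (X4_le hb))
  · exact norm_Z0 (fun a ha b hb => conj_of_eq (nil24 P hb ha).symm (X2_le hb))
      (fun a ha b hb => conj_of_eq (nil34 P hb ha).symm (X3_le hb))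
      (fun a ha b hb => conj_of_eq (nil44 P ha hb) (X4_le hb))
  · refine norm_Z0 (fun a ha b hb => conj_of_eq (nil25 P hb ha).symm (X2_le hb)) (fun a ha b hb => ?_)
      (fun a ha b hb => conj_of_eq (nil45 P hb ha).symm (X4_le hb))
    exact conj_of_comm (A := ⊥) (B := ⊥) (X4_le (cen_symm (fun u hu v hv => cen35 P hu hv) ha hb)) (X3_le hb)

theorem com15_mem {a b : E} : ⁅x1 a, x5 b⁆ ∈ Z0 XX := by
  have h1 := P.rel.c15 (-a) (-b)
  rw [FamD4.kk_eq, x1_neg P, x5_neg P, inv_inv, inv_inv] at h1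
  rw [h1]
  refine mul_mem (mul_mem (X2_le ((P.mem2 _).2 ⟨_, ?_, rfl⟩)) (X3_le ((P.mem3 _).2 ⟨_, rfl⟩)))
    (X4_le ((P.mem4 _).2 ⟨_, ?_, rfl⟩))
  · rw [map_neg, map_trc P.rel.cube]
  · rw [map_trc P.rel.cube]

theorem comm_Vr_le [Finite G] : ⁅Vr XX, Vr XX⁆ ≤ Z0 XX := by
  refine commutator_iSup_le _ _ (Vr_norm_Z0 P) ?_
  intro i j a ha b hb
  have h15 : ∀ a ∈ XX 1, ∀ b ∈ XX 5, ⁅a, b⁆ ∈ Z0 XX := by
    intro a ha b hb
    obtain ⟨s, rfl⟩ := (P.mem1 a).1 ha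
    obtain ⟨t, rfl⟩ := (P.mem5 b).1 hb
    exact com15_mem P
  have h13 : ∀ a ∈ XX 1, ∀ b ∈ XX 3, ⁅a, b⁆ ∈ Z0 XX := by
    intro a ha b hb
    obtain ⟨s, rfl⟩ := (P.mem1 a).1 ha
    obtain ⟨t, rfl⟩ := (P.mem3 b).1 hb
    rw [com13 P]
    exact X2_le ((P.mem2 _).2 ⟨_, map_trc P.rel.cube _ _, rfl⟩)
  have h35 : ∀ a ∈ XX 3, ∀ b ∈ XX 5, ⁅a, b⁆ ∈ Z0 XX := fun a ha b hb => X4_le (cen35 P ha hb)
  fin_cases i <;> fin_cases j
  · exact comm_of_eq (nil11 P ha hb)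
  · exact comm_of_eq (nil12 P ha hb)
  · exact h13 a ha b hb
  · exact comm_of_eq (nil14 P ha hb)
  · exact h15 a ha b hb
  · exact comm_of_eq (nil12 P hb ha).symm
  · exact comm_of_eq (nil22 P ha hb)
  · exact comm_of_eq (nil23 P ha hb)
  · exact comm_of_eq (nil24 P ha hb)
  · exact comm_of_eq (nil25 P ha hb)
  · exact comm_symm (h13 b hb a ha)
  · exact comm_of_eq (nil23 P hb ha).symm
  · exact comm_of_eq (nil33 P ha hb)
  · exact comm_of_eq (nil34 P ha hb)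
  · exact h35 a ha b hb
  · exact comm_of_eq (nil14 P hb ha).symm
  · exact comm_of_eq (nil24 P hb ha).symm
  · exact comm_of_eq (nil34 P hb ha).symm
  · exact comm_of_eq (nil44 P ha hb)
  · exact comm_of_eq (nil45 P ha hb)
  · exact comm_symm (h15 b hb a ha)
  · exact comm_of_eq (nil25 P hb ha).symm
  · exact comm_symm (h35 b hb a ha)
  · exact comm_of_eq (nil45 P hb ha).symm
  · exact comm_of_eq (nil55 P ha hb)

/-- `Z₀` is the derived subgroup of the radical. -/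
theorem Z0_le_comm (hB : ∃ B, σ B ≠ B) : Z0 XX ≤ ⁅Vr XX, Vr XX⁆ := by
  have hc := P.rel.cube
  have h2 : XX 2 ≤ ⁅Vr XX, Vr XX⁆ := by
    intro g hg
    obtain ⟨c, hc', rfl⟩ := (P.mem2 g).1 hg
    obtain ⟨b, hb⟩ := exists_tr hc hB (a := 1) (c := c) one_ne_zero hc'
    rw [← hb, ← com13 P]
    exact Subgroup.commutator_mem_commutator (V1 ((P.mem1 _).2 ⟨_, rfl⟩)) (V3 ((P.mem3 _).2 ⟨_, rfl⟩))
  have h4 : XX 4 ≤ ⁅Vr XX, Vr XX⁆ := by
    intro g hg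
    obtain ⟨c, hc', rfl⟩ := (P.mem4 g).1 hg
    obtain ⟨b, hb⟩ := exists_tr hc hB (a := 1) (c := c) one_ne_zero hc'
    rw [← hb, ← com35 P]
    exact Subgroup.commutator_mem_commutator (V3 ((P.mem3 _).2 ⟨_, rfl⟩)) (V5 ((P.mem5 _).2 ⟨_, rfl⟩))
  refine sup_le (sup_le h2 ?_) h4
  intro g hg
  obtain ⟨c, rfl⟩ := (P.mem3 g).1 hg
  by_cases hc0 : c = 0
  · rw [hc0, x3_zero P]
    exact one_mem _
  obtain ⟨B, hB⟩ := hB
  set a : E := c⁻¹ * (B - σ B) with ha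
  have ha0 : a ≠ 0 := mul_ne_zero (inv_ne_zero hc0) (sub_ne_zero.2 (Ne.symm hB))
  have hσa : σ a ≠ 0 := fun h => ha0 ((map_eq_zero σ).1 h)
  have hσσa : σ (σ a) ≠ 0 := fun h => hσa ((map_eq_zero σ).1 h)
  have hca : c * a = B - σ B := by rw [ha, mul_inv_cancel_left₀ hc0]
  have htr : c * a + σ c * σ a + σ (σ c) * σ (σ a) = 0 := by
    rw [← map_mul, ← map_mul, ← map_mul, hca, map_sub, map_sub, hc]
    ring
  set N := a * σ a * σ (σ a) with hN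
  have hN0 : N ≠ 0 := mul_ne_zero (mul_ne_zero ha0 hσa) hσσa
  have hσN : σ N = N := by rw [hN, map_mul, map_mul, hc]; ring
  set b : E := -(c * a ^ 2 / N) with hb
  have hσb : σ b = -(σ c * σ a ^ 2 / N) := by
    rw [hb, map_neg, map_div₀, map_mul, map_pow, hσN]
  have hσσb : σ (σ b) = -(σ (σ c) * σ (σ a) ^ 2 / N) := by
    rw [hσb, map_neg, map_div₀, map_mul, map_pow, hσN]
  have hcrs : crs σ a b = c := by
    unfold crs
    rw [hσσb, hσb]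
    have h5 : a * (σ a * -(σ (σ c) * σ (σ a) ^ 2 / N) + σ (σ a) * -(σ c * σ a ^ 2 / N)) = a * c := by
      have h6 : σ (σ c) * σ (σ a) = -(c * a) - σ c * σ a := by linear_combination htr
      have h7 : a * (σ a * -(σ (σ c) * σ (σ a) ^ 2 / N) + σ (σ a) * -(σ c * σ a ^ 2 / N)) =
          -(N * (σ (σ c) * σ (σ a)) + N * (σ c * σ a)) / N := by
        rw [hN]; field_simp; ring
      rw [h7, h6]
      field_simp
      ring
    exact mul_left_cancel₀ ha0 h5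
  have h5 := P.rel.c15 (-a) (-b)
  rw [FamD4.kk_eq, x1_neg P, x5_neg P, inv_inv, inv_inv] at h5
  have h6 : crs σ (-a) (-b) = c := by
    rw [← hcrs]
    unfold crs
    simp only [map_neg]
    ring
  rw [h6] at h5
  have h7 : ⁅x1 a, x5 b⁆ ∈ ⁅Vr XX, Vr XX⁆ :=
    Subgroup.commutator_mem_commutator (V1 ((P.mem1 _).2 ⟨_, rfl⟩)) (V5 ((P.mem5 _).2 ⟨_, rfl⟩))
  rw [h5] at h7
  have h8 : x2 (-trc σ (shp σ (-a)) (-b)) ∈ ⁅Vr XX, Vr XX⁆ := h2 ((P.mem2 _).2 ⟨_, by rw [map_neg, map_trc hc], rfl⟩)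
  have h9 : x4 (trc σ (-a) (shp σ (-b))) ∈ ⁅Vr XX, Vr XX⁆ := h4 ((P.mem4 _).2 ⟨_, by rw [map_trc hc], rfl⟩)
  have h10 := mul_mem (mul_mem (inv_mem h8) h7) (inv_mem h9)
  have h11 : (x2 (-trc σ (shp σ (-a)) (-b)))⁻¹ * (x2 (-trc σ (shp σ (-a)) (-b)) * x3 c * x4 (trc σ (-a) (shp σ (-b)))) *
      (x4 (trc σ (-a) (shp σ (-b))))⁻¹ = x3 c := by group
  rwa [h11] at h10

theorem comm_Vr [Finite G] (hB : ∃ B, σ B ≠ B) : ⁅Vr XX, Vr XX⁆ = Z0 XX :=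
  le_antisymm (comm_Vr_le P) (Z0_le_comm P hB)

end Hex

end D4

end Cfsg.Agent.H400.Fpr
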