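import Cfsg.Agent.H400.FprD4A

/-!
# Fixed point ratios of `p`-elements: `³D₄(q)`, primes dividing `q² - 1` (helper400, TEAM FPR)
-/

set_option autoImplicit false
set_option linter.unusedSectionVars false
set_option linter.unusedVariables false

namespace Cfsg.Agent.H400.Fpr.D4

open CoxeterSystem Cfsg.Agent.ChevalleyStructure.CoxeterGeom Cfsg.Agent.Tits.Roots Cfsg.Agent.Tits.Core
  Cfsg.Agent.Nodes.Reps Cfsg.Agent.Nodes.BNOf Cfsg.Agent.Nodes.RGDTwGen Cfsg.Agent.Nodes.RGDChev Cfsg.Agent.Nodes.RGDFold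
  Cfsg.Agent.Nodes.KindChev Cfsg.Agent.Nodes.Coroot Cfsg.Agent.Nodes.PosPair Cfsg.Agent.Nodes.LeviDec
  Cfsg.Agent.Nodes.StabComb Cfsg.Agent.Nodes.Bruhat Cfsg.Agent.Nodes.Unique
open Cfsg.Lie Cfsg.Agent.ChevalleyStructure
open Cfsg.Agent.ChevalleyStructure.TwistedU Cfsg.Agent.ChevalleyStructure.D4U
  Cfsg.Agent.ChevalleyStructure.D4Comm Cfsg.Agent.ChevalleyStructure.D4RGD Cfsg.Agent.ChevalleyStructure.D4Twisted
open Cfsg.Agent.ChevalleyStructure.D4NConj (nR nR_def nG nG_def nG_conj)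
open Cfsg.Agent.ChevalleyStructure.D4NCheck (rfl' eta)
open Cfsg.Agent.Nodes.RGDTwD4 (A isCartan foldData hp)
open Cfsg.Agent.Hexagon.TwD4Par Cfsg.Agent.Hexagon.TwD4Rel
open Cfsg.Agent.SplitTwo
open Cfsg.Agent.Omega.EH3.Kf
open Cfsg.Agent.H400.TwoExc Cfsg.Agent.H400.TwoExc.TwD
open Cfsg.Agent.H398.FPR (CommFull UGood Pair)
open scoped commutatorElement

universe u

variable {W : Type*} [Group W] [Finite W] {cs : CoxeterSystem CoxeterMatrix.G₂ W}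

section Roots

theorem r01 : IsRoot cs isCartan (toV [0, 1]) :=
  (pr cs).1.isRoot (List.mem_map.2 ⟨([0, 1], [-3, 2], 3), by decide +kernel, rfl⟩)
theorem r13 : IsRoot cs isCartan (toV [1, 3]) :=
  (pr cs).1.isRoot (List.mem_map.2 ⟨([1, 3], [-3, 3], 1), by decide +kernel, rfl⟩)
theorem r12 : IsRoot cs isCartan (toV [1, 2]) :=
  (pr cs).1.isRoot (List.mem_map.2 ⟨([1, 2], [0, 1], 3), by decide +kernel, rfl⟩)
theorem r11 : IsRoot cs isCartan (toV [1, 1]) :=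
  (pr cs).1.isRoot (List.mem_map.2 ⟨([1, 1], [3, -1], 3), by decide +kernel, rfl⟩)
theorem r23 : IsRoot cs isCartan (toV [2, 3]) :=
  (pr cs).1.isRoot (List.mem_map.2 ⟨([2, 3], [3, 0], 1), by decide +kernel, rfl⟩)
theorem r10 : IsRoot cs isCartan (toV [1, 0]) :=
  (pr cs).1.isRoot (List.mem_map.2 ⟨([1, 0], [6, -3], 1), by decide +kernel, rfl⟩)

/-- the roots of the radical -/
def s5 : Finset (Fin 2 → ℤ) := {toV [0, 1], toV [1, 3], toV [1, 2], toV [2, 3], toV [1, 1]}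
/-- the roots of its derived subgroup -/
def s3 : Finset (Fin 2 → ℤ) := {toV [1, 3], toV [1, 2], toV [2, 3]}

theorem mem_s5 {z : Fin 2 → ℤ} : z ∈ s5 ↔ z = toV [0, 1] ∨ z = toV [1, 3] ∨ z = toV [1, 2] ∨ z = toV [2, 3] ∨
    z = toV [1, 1] := by
  simp [s5]

theorem mem_s3 {z : Fin 2 → ℤ} : z ∈ s3 ↔ z = toV [1, 3] ∨ z = toV [1, 2] ∨ z = toV [2, 3] := by
  simp [s3]

theorem s5_pos : ∀ z ∈ s5, 0 ≤ z ∧ 0 < z 1 := by
  have h : ∀ z ∈ s5, (∀ i, 0 ≤ z i) ∧ 0 < z 1 := by decide +kernel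
  exact fun z hz => ⟨fun i => (h z hz).1 i, (h z hz).2⟩
theorem s3_pos : ∀ z ∈ s3, 0 ≤ z ∧ 3 * z 0 ≤ 2 * z 1 ∧ z 1 ≤ 3 * z 0 := by
  have h : ∀ z ∈ s3, (∀ i, 0 ≤ z i) ∧ 3 * z 0 ≤ 2 * z 1 ∧ z 1 ≤ 3 * z 0 := by decide +kernel
  exact fun z hz => ⟨fun i => (h z hz).1 i, (h z hz).2⟩

theorem s5_root {z : Fin 2 → ℤ} (hz : z ∈ s5) : IsRoot cs isCartan z := by
  rcases mem_s5.1 hz with rfl | rfl | rfl | rfl | rfl
  · exact r01
  · exact r13
  · exact r12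
  · exact r23
  · exact r11

theorem s3_sub {z : Fin 2 → ℤ} (hz : z ∈ s3) : z ∈ s5 := by revert z; decide +kernel

theorem s5_iff {z : Fin 2 → ℤ} (hz : IsRoot cs isCartan z) : z ∈ s5 ↔ 0 ≤ z ∧ 0 < z 1 := by
  refine ⟨s5_pos z, fun h0 => mem_s5.2 ?_⟩
  rcases six hz h0.1 with h1 | h1 | h1 | h1 | h1 | h1
  · exact Or.inl h1
  · exact Or.inr (Or.inl h1)
  · exact Or.inr (Or.inr (Or.inl h1))
  · exact Or.inr (Or.inr (Or.inr (Or.inl h1)))
  · exact Or.inr (Or.inr (Or.inr (Or.inr h1)))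
  · exfalso
    have h2 : ¬ 0 < (toV [1, 0] : Fin 2 → ℤ) 1 := by decide +kernel
    rw [h1] at h0
    exact h2 h0.2

theorem s3_iff {z : Fin 2 → ℤ} (hz : IsRoot cs isCartan z) :
    z ∈ s3 ↔ 0 ≤ z ∧ 3 * z 0 ≤ 2 * z 1 ∧ z 1 ≤ 3 * z 0 := by
  refine ⟨s3_pos z, fun h0 => mem_s3.2 ?_⟩
  rcases six hz h0.1 with h1 | h1 | h1 | h1 | h1 | h1
  · exfalso
    have h2 : ¬ (toV [0, 1] : Fin 2 → ℤ) 1 ≤ 3 * (toV [0, 1] : Fin 2 → ℤ) 0 := by decide +kernel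
    rw [h1] at h0
    exact h2 h0.2.2
  · exact Or.inl h1
  · exact Or.inr (Or.inl h1)
  · exact Or.inr (Or.inr h1)
  · exfalso
    have h2 : ¬ 3 * (toV [1, 1] : Fin 2 → ℤ) 0 ≤ 2 * (toV [1, 1] : Fin 2 → ℤ) 1 := by decide +kernel
    rw [h1] at h0
    exact h2 h0.2.1
  · exfalso
    have h2 : ¬ 3 * (toV [1, 0] : Fin 2 → ℤ) 0 ≤ 2 * (toV [1, 0] : Fin 2 → ℤ) 1 := by decide +kernel
    rw [h1] at h0
    exact h2 h0.2.1

theorem notJ_eq : NotJ cs isCartan {(0 : Fin 2)} = (s5 : Set (Fin 2 → ℤ)) := by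
  ext z
  constructor
  · rintro ⟨hz, h0, k, hk, hk'⟩
    refine (s5_iff hz).2 ⟨h0, ?_⟩
    have h1 : k ≠ 0 := fun h => hk (by rw [h]; rfl)
    have h2 : k = 1 := by omega
    rwa [h2] at hk'
  · intro hz
    have h1 := s5_root (cs := cs) (Finset.mem_coe.1 hz)
    obtain ⟨h2, h3⟩ := (s5_iff h1).1 (Finset.mem_coe.1 hz)
    exact ⟨h1, h2, 1, by simp, h3⟩

theorem pos_of_btwn {x y z : Fin 2 → ℤ} (hz : Btwn cs isCartan x y z) (hx : 0 ≤ x) (hy : 0 ≤ y) : 0 ≤ z := by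
  obtain ⟨-, m, a, b, hm, ha, hb, e⟩ := hz
  intro i
  have h1 := congrFun e i
  simp only [Pi.smul_apply, Pi.add_apply, smul_eq_mul] at h1
  have h2 : 0 ≤ a * x i := mul_nonneg ha.le (hx i)
  have h3 : 0 ≤ b * y i := mul_nonneg hb.le (hy i)
  rw [Pi.zero_apply]
  by_contra h4
  push Not at h4
  have := mul_neg_of_pos_of_neg hm h4
  omega

theorem s5_closed : Closed cs isCartan (s5 : Set (Fin 2 → ℤ)) := by
  intro x hx y hy z hz
  obtain ⟨hx0, hx1⟩ := s5_pos x hx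
  obtain ⟨hy0, hy1⟩ := s5_pos y hy
  refine (s5_iff hz.1).2 ⟨pos_of_btwn hz hx0 hy0, ?_⟩
  obtain ⟨-, m, a, b, hm, ha, hb, e⟩ := hz
  have h1 := congrFun e 1
  simp only [Pi.smul_apply, Pi.add_apply, smul_eq_mul] at h1
  have h2 : 0 < a * x 1 := mul_pos ha hx1
  have h3 : 0 < b * y 1 := mul_pos hb hy1
  by_contra h4
  push Not at h4
  have := mul_nonpos_of_nonneg_of_nonpos hm.le h4
  omega

theorem s3_closed : Closed cs isCartan (s3 : Set (Fin 2 → ℤ)) := by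
  intro x hx y hy z hz
  obtain ⟨hx0, hx1, hx2⟩ := s3_pos x hx
  obtain ⟨hy0, hy1, hy2⟩ := s3_pos y hy
  refine (s3_iff hz.1).2 ⟨pos_of_btwn hz hx0 hy0, ?_⟩
  obtain ⟨-, m, a, b, hm, ha, hb, e⟩ := hz
  have h0 := congrFun e 0
  have h1 := congrFun e 1
  simp only [Pi.smul_apply, Pi.add_apply, smul_eq_mul] at h0 h1
  constructor
  · by_contra h4
    push Not at h4
    have h5 : 0 ≤ a * (2 * x 1 - 3 * x 0) := mul_nonneg ha.le (by linarith)
    have h6 : 0 ≤ b * (2 * y 1 - 3 * y 0) := mul_nonneg hb.le (by linarith)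
    have h7 := mul_neg_of_pos_of_neg hm (show 2 * z 1 - 3 * z 0 < 0 by linarith)
    nlinarith
  · by_contra h4
    push Not at h4
    have h5 : 0 ≤ a * (3 * x 0 - x 1) := mul_nonneg ha.le (by linarith)
    have h6 : 0 ≤ b * (3 * y 0 - y 1) := mul_nonneg hb.le (by linarith)
    have h7 := mul_neg_of_pos_of_neg hm (show 3 * z 0 - z 1 < 0 by linarith)
    nlinarith

end Roots

section Group

variable {K : Type u} [Field K] [Fintype K] {q p : ℕ} {φ : K →+* K} [Fact p.Prime] [CharP K p]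
  (hK : Fintype.card K = q ^ 3) (hφ : ∀ x, φ x = x ^ q)

include hK hφ

theorem Vr_eq : Vr (Hexagon.TwD4RGD.X K q) = VJ cs isCartan (Nodes.RGDTwD4.X φ q) {(0 : Fin 2)} := by
  have hle := D4Fixed.twisted_le_fix hK hφ
  unfold VJ
  rw [notJ_eq]
  apply le_antisymm
  · refine iSup_le fun i => ?_
    fin_cases i
    · show Hexagon.TwD4RGD.X K q 1 ≤ _
      rw [← X1' hle]; exact RGD.le_Sup (Finset.mem_coe.2 (by decide +kernel))
    · show Hexagon.TwD4RGD.X K q 2 ≤ _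
      rw [← X2' hle]; exact RGD.le_Sup (Finset.mem_coe.2 (by decide +kernel))
    · show Hexagon.TwD4RGD.X K q 3 ≤ _
      rw [← X3' hle]; exact RGD.le_Sup (Finset.mem_coe.2 (by decide +kernel))
    · show Hexagon.TwD4RGD.X K q 4 ≤ _
      rw [← X4' hle]; exact RGD.le_Sup (Finset.mem_coe.2 (by decide +kernel))
    · show Hexagon.TwD4RGD.X K q 5 ≤ _
      rw [← X5' hle]; exact RGD.le_Sup (Finset.mem_coe.2 (by decide +kernel))
  · refine RGD.Sup_le fun z hz => ?_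
    rcases mem_s5.1 (Finset.mem_coe.1 hz) with rfl | rfl | rfl | rfl | rfl
    · rw [X1' hle]; exact V1
    · rw [X2' hle]; exact V2
    · rw [X3' hle]; exact V3
    · rw [X4' hle]; exact V4
    · rw [X5' hle]; exact V5

theorem Z0_eq : Z0 (Hexagon.TwD4RGD.X K q) = RGD.Sup (Nodes.RGDTwD4.X φ q) (s3 : Set (Fin 2 → ℤ)) := by
  have hle := D4Fixed.twisted_le_fix hK hφ
  apply le_antisymm
  · refine sup_le (sup_le ?_ ?_) ?_
    · rw [← X2' hle]; exact RGD.le_Sup (Finset.mem_coe.2 (by decide +kernel))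
    · rw [← X3' hle]; exact RGD.le_Sup (Finset.mem_coe.2 (by decide +kernel))
    · rw [← X4' hle]; exact RGD.le_Sup (Finset.mem_coe.2 (by decide +kernel))
  · refine RGD.Sup_le fun z hz => ?_
    rcases mem_s3.1 (Finset.mem_coe.1 hz) with rfl | rfl | rfl
    · rw [X2' hle]; exact X2_le
    · rw [X3' hle]; exact X3_le
    · rw [X4' hle]; exact X4_le

theorem card_Vr (hq1 : 1 < q) : Nat.card (Vr (Hexagon.TwD4RGD.X K q)) = q ^ 11 := by
  obtain ⟨p, hp'⟩ := CharP.exists K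
  have : Fact p.Prime := ⟨CharP.char_is_prime K p⟩
  have hW : Finite CoxeterMatrix.G₂.Group := Nodes.RGDFold.finite_W (hp := Nodes.RGDTwD4.hp)
    CoxeterMatrix.G₂.toCoxeterSystem isCartan foldData
  have h1 := Nodes.CardSup.card_sup (Nodes.RGDTwD4.rgd CoxeterMatrix.G₂.toCoxeterSystem hK hφ p) (s := s5)
    (fun z hz => ⟨s5_root (Finset.mem_coe.1 hz), (s5_pos z (Finset.mem_coe.1 hz)).1⟩)
    (s5_closed (cs := CoxeterMatrix.G₂.toCoxeterSystem))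
  rw [Vr_eq (cs := CoxeterMatrix.G₂.toCoxeterSystem) hK hφ]
  unfold VJ
  rw [notJ_eq, h1,
    Finset.prod_congr rfl (fun z hz => card_X p hK hφ hq1 (s5_root (cs := CoxeterMatrix.G₂.toCoxeterSystem) hz)),
    Finset.prod_pow_eq_pow_sum]
  congr 1

theorem card_Z0 (hq1 : 1 < q) : Nat.card (Z0 (Hexagon.TwD4RGD.X K q)) = q ^ 5 := by
  obtain ⟨p, hp'⟩ := CharP.exists K
  have : Fact p.Prime := ⟨CharP.char_is_prime K p⟩
  have hW : Finite CoxeterMatrix.G₂.Group := Nodes.RGDFold.finite_W (hp := Nodes.RGDTwD4.hp)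
    CoxeterMatrix.G₂.toCoxeterSystem isCartan foldData
  have h1 := Nodes.CardSup.card_sup (Nodes.RGDTwD4.rgd CoxeterMatrix.G₂.toCoxeterSystem hK hφ p) (s := s3)
    (fun z hz => ⟨s5_root (s3_sub (Finset.mem_coe.1 hz)), (s5_pos z (s3_sub (Finset.mem_coe.1 hz))).1⟩)
    (s3_closed (cs := CoxeterMatrix.G₂.toCoxeterSystem))
  rw [Z0_eq hK hφ, h1,
    Finset.prod_congr rfl (fun z hz => card_X p hK hφ hq1
      (s5_root (cs := CoxeterMatrix.G₂.toCoxeterSystem) (s3_sub hz))),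
    Finset.prod_pow_eq_pow_sum]
  congr 1

omit hK hφ in
theorem isPGroup_of_card {Y : Type*} [Group Y] {R : Subgroup Y} {p f m : ℕ} (hp : p.Prime)
    (h : Nat.card R = (p ^ f) ^ m) : IsPGroup p R := by
  rw [← pow_mul] at h
  exact IsPGroup.of_card h

end Group

end Cfsg.Agent.H400.Fpr.D4
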