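import Cfsg.Agent.H400.FprD4B

/-!
# Fixed point ratios of `p`-elements: `³D₄(q)`, primes dividing `q² - 1` (helper400, TEAM FPR)
-/

set_option autoImplicit false
set_option linter.unusedSectionVars false
set_option linter.unusedVariables false

namespace Cfsg.Agent.H400.Fpr.D4

open CoxeterSystem Cfsg.Agent.ChevalleyStructure.CoxeterGeom Cfsg.Agent.Tits.Roots Cfsg.Agent.Tits.Core
  Cfsg.Agent.Nodes.Reps Cfsg.Agent.Nodes.BNOf Cfsg.Agent.Nodes.RGDTwGen Cfsg.Agent.Nodes.RGDChev Cfsg.Agent.Nodes.RGDFold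
  Cfsg.Agent.Nodes.KindChev Cfsg.Agent.Nodes.Coroot Cfsg.Agent.Nodes.PosPair Cfsg.Agent.Nodes.LeviDec
  Cfsg.Agent.Nodes.StabComb Cfsg.Agent.Nodes.Bruhat Cfsg.Agent.Nodes.Unique
open Cfsg.Lie Cfsg.Agent.ChevalleyStructure
open Cfsg.Agent.ChevalleyStructure.TwistedU Cfsg.Agent.ChevalleyStructure.D4U
  Cfsg.Agent.ChevalleyStructure.D4Comm Cfsg.Agent.ChevalleyStructure.D4RGD Cfsg.Agent.ChevalleyStructure.D4Twisted
open Cfsg.Agent.ChevalleyStructure.D4NConj (nR nR_def nG nG_def nG_conj)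
open Cfsg.Agent.ChevalleyStructure.D4NCheck (rfl' eta)
open Cfsg.Agent.Nodes.RGDTwD4 (A isCartan foldData hp)
open Cfsg.Agent.Hexagon.TwD4Par Cfsg.Agent.Hexagon.TwD4Rel
open Cfsg.Agent.SplitTwo
open Cfsg.Agent.Omega.EH3.Kf
open Cfsg.Agent.H400.TwoExc Cfsg.Agent.H400.TwoExc.TwD
open Cfsg.Agent.H398.FPR (CommFull UGood Pair)
open Cfsg.Agent.TitsThree.RankTwoZ (Maps)
open scoped commutatorElement MatrixGroups

universe u

section Hex

variable {E : Type*} [Field E] {σ : E ≃+* E} {G : Type*} [Group G] {XX : ZMod (2 * 6) → Subgroup G}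
  {x1 x2 x3 x4 x5 x6 : E → G}

/-- coordinates of the radical modulo its derived subgroup -/
def Em (x1 x5 : E → G) (v : Fin 2 → E) : G := x1 (v 0) * x5 (v 1)

/-- the fixed field -/
def Fk (σ : E ≃+* E) : Subfield E := (σ.toRingHom).eqLocusField (RingHom.id E)

theorem mem_Fk {a : E} : a ∈ Fk σ ↔ σ a = a := Iff.rfl

variable (P : HexPar σ XX x1 x2 x3 x4 x5 x6)

include P

theorem isMod [Finite G] [Finite E]
    (hc : Nat.card (Vr XX) = Nat.card (Z0 XX) * Nat.card E ^ 2) : IsMod (Z0 XX) (Vr XX) (Em x1 x5) := by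
  have hN : Vr XX ≤ Subgroup.normalizer (Z0 XX : Set G) := iSup_le (Vr_norm_Z0 P)
  refine IsMod.of_card Z0_le_Vr (fun r hr z hz => (Subgroup.mem_normalizer_iff.1 (hN hr) z).1 hz) ?_ ?_ ?_ ?_ hc
  · intro v
    exact mul_mem (V1 ((P.mem1 _).2 ⟨_, rfl⟩)) (V5 ((P.mem5 _).2 ⟨_, rfl⟩))
  · show x1 0 * x5 0 ∈ _
    rw [x1_zero P, x5_zero P, one_mul]
    exact one_mem _
  · intro u v
    have h1 : ⁅x5 (u 1), x1 (v 0)⁆ ∈ Z0 XX := comm_symm (com15_mem P)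
    have hx1 : x1 (u 0) ∈ Vr XX := V1 ((P.mem1 _).2 ⟨_, rfl⟩)
    refine ⟨x1 (u 0) * ⁅x5 (u 1), x1 (v 0)⁆ * (x1 (u 0))⁻¹, (Subgroup.mem_normalizer_iff.1 (hN hx1) _).1 h1, ?_⟩
    show x1 (u 0) * x5 (u 1) * (x1 (v 0) * x5 (v 1)) = _ * (x1 ((u + v) 0) * x5 ((u + v) 1))
    rw [Pi.add_apply, Pi.add_apply, P.rel.add1, P.rel.add5, commutatorElement_def]
    group
  · refine iSup_le fun i => ?_
    fin_cases i
    · intro g hg
      obtain ⟨a, rfl⟩ := (P.mem1 g).1 hg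
      refine Subgroup.mem_sup_right (Subgroup.subset_closure ⟨![a, 0], ?_⟩)
      show x1 a * x5 0 = x1 a
      rw [x5_zero P, mul_one]
    · exact X2_le.trans le_sup_left
    · exact X3_le.trans le_sup_left
    · exact X4_le.trans le_sup_left
    · intro g hg
      obtain ⟨a, rfl⟩ := (P.mem5 g).1 hg
      refine Subgroup.mem_sup_right (Subgroup.subset_closure ⟨![0, a], ?_⟩)
      show x1 0 * x5 a = x5 a
      rw [x1_zero P, one_mul]

omit P in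
theorem iff_of_norm {Z : Subgroup G} {g : G} (h : g ∈ Subgroup.normalizer (Z : Set G)) :
    ∀ z, z ∈ Z ↔ g * z * g⁻¹ ∈ Z := Subgroup.mem_normalizer_iff.1 h

theorem x6_norm [Finite G] : XX 6 ≤ Subgroup.normalizer (Z0 XX : Set G) := by
  refine norm_Z0 (fun a ha b hb => ?_) (fun a ha b hb => conj_of_eq (nil36 P hb ha).symm (X3_le hb))
    (fun a ha b hb => conj_of_eq (nil46 P hb ha).symm (X4_le hb))
  exact conj_of_comm (A := ⊥) (B := ⊥) (X4_le (cen_symm (fun u hu v hv => cen26 P hu hv) ha hb)) (X2_le hb)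

/-- the action of `X₆` -/
theorem rel6 [Finite G] (t : Fk σ) :
    (x6 (t : E), Matrix.SpecialLinearGroup.map (Fk σ).subtype
      (Matrix.SpecialLinearGroup.transvection (show (1 : Fin 2) ≠ 0 by decide) t)) ∈ relSub (Z0 XX) (Em x1 x5) := by
  have ht : σ (t : E) = t := t.2
  have h6 : x6 (t : E) ∈ XX 6 := (P.mem6 _).2 ⟨_, ht, rfl⟩
  refine ⟨iff_of_norm (x6_norm P h6), fun v => ?_⟩
  obtain ⟨z, hz, e⟩ := conj_x6 P ht (v 0)
  have hN : Vr XX ≤ Subgroup.normalizer (Z0 XX : Set G) := iSup_le (Vr_norm_Z0 P)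
  have hx1 : x1 (v 0) ∈ Vr XX := V1 ((P.mem1 _).2 ⟨_, rfl⟩)
  refine ⟨x1 (v 0) * z * (x1 (v 0))⁻¹, (Subgroup.mem_normalizer_iff.1 (hN hx1) _).1 hz, ?_⟩
  have hM : (Matrix.SpecialLinearGroup.map (Fk σ).subtype
      (Matrix.SpecialLinearGroup.transvection (show (1 : Fin 2) ≠ 0 by decide) t)).1.mulVec v =
      ![v 0, t * v 0 + v 1] := by
    rw [map_tr, tr_mulVec]
    funext i
    fin_cases i
    · simp
    · simp [add_comm]
  show x6 (t : E) * (x1 (v 0) * x5 (v 1)) * (x6 (t : E))⁻¹ = _ * Em x1 x5 _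
  rw [hM]
  show _ = _ * (x1 (v 0) * x5 (t * v 0 + v 1))
  have h56 : x6 (t : E) * x5 (v 1) * (x6 (t : E))⁻¹ = x5 (v 1) := by
    rw [← nil56 P ((P.mem5 _).2 ⟨_, rfl⟩) h6, mul_inv_cancel_right]
  have h1 : x6 (t : E) * (x1 (v 0) * x5 (v 1)) * (x6 (t : E))⁻¹ =
      (x6 (t : E) * x1 (v 0) * (x6 (t : E))⁻¹) * (x6 (t : E) * x5 (v 1) * (x6 (t : E))⁻¹) := by group
  rw [h1, h56, e, P.rel.add5]
  group

end Hex

section Group

variable {K : Type u} [Field K] [Fintype K] {q : ℕ} {φ : K →+* K} (hφ : ∀ x, φ x = x ^ q)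
  (hle : twistedD4 K q ≤ D4Fixed.fix φ) {σ : K ≃+* K} (hσ : ∀ x, σ x = φ x)

/-- the element `n_α` -/
def nα : ↥(twistedD4 K q) := ⟨na K, na_mem hφ⟩

include hφ hσ

theorem nα_x1 (a : K) : nα hφ * ev (X1 σ) a * (nα hφ)⁻¹ = ev (X5 σ) a := by
  apply Subtype.ext
  show na K * _ * (na K)⁻¹ = _
  rw [c1 hφ hσ, c5 hφ hσ]
  exact na_X1 σ a

theorem nα_x5 (a : K) : nα hφ * ev (X5 σ) a * (nα hφ)⁻¹ = ev (X1 σ) (-a) := by
  apply Subtype.ext
  show na K * _ * (na K)⁻¹ = _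
  rw [c1 hφ hσ, c5 hφ hσ, X1, X5, w3_eq, w3_eq, conj3,
    na_c (s := 19) (s' := 18) (e := -1) (by norm_num) (by decide +kernel),
    na_c (s := 16) (s' := 13) (e := 1) (by norm_num) (by decide +kernel),
    na_c (s := 15) (s' := 12) (e := 1) (by norm_num) (by decide +kernel)]
  simp

omit hσ in
theorem nα_norm [Finite K] : nα hφ ∈ Subgroup.normalizer (Z0 (Hexagon.TwD4RGD.X K q) : Set ↥(twistedD4 K q)) := by
  have hm := maps_na (q := q) hφ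
  have h2 : ∀ k k' : ZMod (2 * 6), ((6 : ℕ) : ZMod (2 * 6)) - k = k' → ∀ y ∈ Hexagon.TwD4RGD.X K q k,
      nα hφ * y * (nα hφ)⁻¹ ∈ Hexagon.TwD4RGD.X K q k' := by
    intro k k' hk y hy
    have := (hm k y).2 hy
    simp only [hk] at this
    exact this
  refine norm_iff.2 ?_
  have h5 : Z0 (Hexagon.TwD4RGD.X K q) ≤ (Z0 (Hexagon.TwD4RGD.X K q)).comap (MulAut.conj (nα hφ)).toMonoidHom :=
    sup_le (sup_le (fun b hb => X4_le (h2 2 4 (by decide +kernel) b hb))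
      (fun b hb => X3_le (h2 3 3 (by decide +kernel) b hb))) (fun b hb => X2_le (h2 4 2 (by decide +kernel) b hb))
  exact fun y hy => h5 hy

omit hφ hσ in
/-- the Weyl element -/
def wm {k : Type*} [Field k] : Matrix.SpecialLinearGroup (Fin 2) k := ⟨!![0, -1; 1, 0], by
  rw [Matrix.det_fin_two_of]; simp⟩

omit hφ hσ in
theorem wm_tr {k : Type*} [Field k] (c : k) :
    wm * Matrix.SpecialLinearGroup.transvection (show (1 : Fin 2) ≠ 0 by decide) (-c) * wm⁻¹ =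
      Matrix.SpecialLinearGroup.transvection (show (0 : Fin 2) ≠ 1 by decide) c := by
  rw [mul_inv_eq_iff_eq_mul]
  apply Subtype.ext
  show !![0, -1; 1, 0] * (1 + Matrix.single 1 0 (-c)) = (1 + Matrix.single 0 1 c) * !![0, -1; 1, 0]
  ext i j
  fin_cases i <;> fin_cases j <;>
    simp [Matrix.mul_apply, Fin.sum_univ_two, Matrix.single, Matrix.one_apply]

theorem relα (hK : Fintype.card K = q ^ 3) (P : HexPar σ (Hexagon.TwD4RGD.X K q) (ev (X1 σ)) (ev X2) (ev (X3 σ))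
      (ev X4) (ev (X5 σ)) (ev X6)) :
    (nα hφ, Matrix.SpecialLinearGroup.map (Fk σ).subtype wm) ∈
      relSub (Z0 (Hexagon.TwD4RGD.X K q)) (Em (ev (X1 σ)) (ev (X5 σ))) := by
  refine ⟨iff_of_norm (nα_norm hφ), fun v => ?_⟩
  have hM : (Matrix.SpecialLinearGroup.map (Fk σ).subtype wm).1.mulVec v = ![-v 1, v 0] := by
    have h1 : (Matrix.SpecialLinearGroup.map (Fk σ).subtype wm).1 = !![0, -1; 1, 0] := by
      show (!![0, -1; 1, 0] : Matrix (Fin 2) (Fin 2) (Fk σ)).map (Fk σ).subtype = _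
      ext i j
      fin_cases i <;> fin_cases j <;> simp
    rw [h1]
    funext i
    fin_cases i <;> simp [Matrix.mulVec, dotProduct, Fin.sum_univ_two]
  refine ⟨⁅ev (X5 σ) (v 0), ev (X1 σ) (-v 1)⁆, comm_symm (com15_mem P), ?_⟩
  show nα hφ * (ev (X1 σ) (v 0) * ev (X5 σ) (v 1)) * (nα hφ)⁻¹ = _ * Em _ _ _
  rw [hM]
  show _ = _ * (ev (X1 σ) (-v 1) * ev (X5 σ) (v 0))
  have h1 : nα hφ * (ev (X1 σ) (v 0) * ev (X5 σ) (v 1)) * (nα hφ)⁻¹ =
      (nα hφ * ev (X1 σ) (v 0) * (nα hφ)⁻¹) * (nα hφ * ev (X5 σ) (v 1) * (nα hφ)⁻¹) := by group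
  rw [h1, nα_x1 hφ hσ, nα_x5 hφ hσ, commutatorElement_def]
  group

omit hσ in
include hle in
theorem nα_mem : nα hφ ∈ Nodes.RGDTwD4.X φ q (sr 0) ⊔ Nodes.RGDTwD4.X φ q (-sr 0) := by
  have h14 : xG 14 (1 : K) ∈ twistedD4 K q := xG14_mem hφ (map_one φ)
  have h9 : xG 9 (-1 : K) ∈ twistedD4 K q := by
    rw [← xU_eq]
    refine D4Fixed.x9_mem ?_
    have := map_neg φ (1 : K)
    rw [map_one, hφ] at this
    exact this
  have e : nα hφ = ⟨xG 14 1, h14⟩ * (⟨xG 9 (-1), h9⟩ * ⟨xG 14 1, h14⟩) := by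
    apply Subtype.ext
    show na K = xG 14 1 * (xG 9 (-1) * xG 14 1)
    rw [na, nG_def, nR_def, inv_one]
    rfl
  have m14 : (⟨xG 14 1, h14⟩ : ↥(twistedD4 K q)) ∈ Nodes.RGDTwD4.X φ q (sr 0) := by
    show xG 14 (1 : K) ∈ R chevD4 hp K Nodes.RGDTwD4.J (D4Fixed.sig φ) (sr 0)
    rw [Nodes.RGDTwD4.R0]
    exact ⟨mem_rspan xG (S := {k | k ∈ [14]}) (by simp) _, hle h14⟩
  have m9 : (⟨xG 9 (-1), h9⟩ : ↥(twistedD4 K q)) ∈ Nodes.RGDTwD4.X φ q (-sr 0) := by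
    show xG 9 (-1 : K) ∈ R chevD4 hp K Nodes.RGDTwD4.J (D4Fixed.sig φ) (-sr 0)
    rw [Nodes.RGDTwD4.R0']
    exact ⟨mem_rspan xG (S := {k | k ∈ [9]}) (by simp) _, hle h9⟩
  rw [e]
  exact mul_mem (Subgroup.mem_sup_left m14) (mul_mem (Subgroup.mem_sup_right m9) (Subgroup.mem_sup_left m14))

include hle in
theorem lift_top (hK : Fintype.card K = q ^ 3)
    (P : HexPar σ (Hexagon.TwD4RGD.X K q) (ev (X1 σ)) (ev X2) (ev (X3 σ)) (ev X4) (ev (X5 σ)) (ev X6)) :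
    liftSub (Nodes.RGDTwD4.X φ q (sr 0) ⊔ Nodes.RGDTwD4.X φ q (-sr 0))
      (fun _ : Unit => Matrix.SpecialLinearGroup.map (n := Fin 2) (Fk σ).subtype)
      (fun _ => Z0 (Hexagon.TwD4RGD.X K q)) (fun _ => Em (ev (X1 σ)) (ev (X5 σ))) = ⊤ := by
  have h10 : ∀ c : Fk σ, Matrix.SpecialLinearGroup.transvection (show (1 : Fin 2) ≠ 0 by decide) c ∈
      liftSub (Nodes.RGDTwD4.X φ q (sr 0) ⊔ Nodes.RGDTwD4.X φ q (-sr 0))
      (fun _ : Unit => Matrix.SpecialLinearGroup.map (n := Fin 2) (Fk σ).subtype)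
      (fun _ => Z0 (Hexagon.TwD4RGD.X K q)) (fun _ => Em (ev (X1 σ)) (ev (X5 σ))) := by
    intro c
    refine ⟨ev X6 (c : K), Subgroup.mem_sup_left ?_, fun _ => rel6 P c⟩
    rw [FamD4.X_sr0 hle]
    exact (P.mem6 _).2 ⟨_, c.2, rfl⟩
  have hw : wm ∈ liftSub (Nodes.RGDTwD4.X φ q (sr 0) ⊔ Nodes.RGDTwD4.X φ q (-sr 0))
      (fun _ : Unit => Matrix.SpecialLinearGroup.map (n := Fin 2) (Fk σ).subtype)
      (fun _ => Z0 (Hexagon.TwD4RGD.X K q)) (fun _ => Em (ev (X1 σ)) (ev (X5 σ))) :=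
    ⟨nα hφ, nα_mem hφ hle, fun _ => relα hφ hσ hK P⟩
  refine liftSub_eq_top le_rfl ?_
  intro i j hij c
  fin_cases i <;> fin_cases j
  · exact absurd rfl hij
  · show Matrix.SpecialLinearGroup.transvection (show (0 : Fin 2) ≠ 1 by decide) c ∈ _
    rw [← wm_tr]
    exact mul_mem (mul_mem hw (h10 _)) (inv_mem hw)
  · exact h10 c
  · exact absurd rfl hij

end Group

end Cfsg.Agent.H400.Fpr.D4
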