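import Cfsg.Agent.H400.FprD4C

/-!
# Fixed point ratios of `p`-elements: `³D₄(q)`, primes dividing `q² - 1` (helper400, TEAM FPR)
-/

set_option autoImplicit false
set_option linter.unusedSectionVars false
set_option linter.unusedVariables false

namespace Cfsg.Agent.H400.Fpr.D4

open CoxeterSystem Cfsg.Agent.ChevalleyStructure.CoxeterGeom Cfsg.Agent.Tits.Roots Cfsg.Agent.Tits.Core
  Cfsg.Agent.Nodes.Reps Cfsg.Agent.Nodes.BNOf Cfsg.Agent.Nodes.RGDTwGen Cfsg.Agent.Nodes.RGDChev Cfsg.Agent.Nodes.RGDFold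
  Cfsg.Agent.Nodes.KindChev Cfsg.Agent.Nodes.Coroot Cfsg.Agent.Nodes.PosPair Cfsg.Agent.Nodes.LeviDec
  Cfsg.Agent.Nodes.StabComb Cfsg.Agent.Nodes.Bruhat Cfsg.Agent.Nodes.Unique
open Cfsg.Lie Cfsg.Agent.ChevalleyStructure
open Cfsg.Agent.Nodes.RGDTwD4 (A isCartan foldData hp)
open Cfsg.Agent.Hexagon.TwD4Par Cfsg.Agent.Hexagon.TwD4Rel
open Cfsg.Agent.SplitTwo
open Cfsg.Agent.Omega.EH3.Kf
open Cfsg.Agent.H400.TwoExc Cfsg.Agent.H400.TwoExc.TwD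
open Cfsg.Agent.H398.FPR (CommFull UGood Pair)
open Cfsg.Agent.TitsThree.RankTwoZ (Maps)
open scoped commutatorElement MatrixGroups

universe u

variable {W : Type*} [Group W] [Finite W] {cs : CoxeterSystem CoxeterMatrix.G₂ W}

theorem not_root {z : Fin 2 → ℤ} (h : ∀ a ∈ PG2t, (toV a.1 : Fin 2 → ℤ) ≠ z ∧ (toV a.1 : Fin 2 → ℤ) ≠ -z) :
    ¬ IsRoot cs isCartan z := by
  intro hz
  rcases (pr cs).1.mem_of_root hz with h1 | h1
  · obtain ⟨a, ha, hae⟩ := List.mem_map.1 h1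
    exact (h a ha).1 hae
  · obtain ⟨a, ha, hae⟩ := List.mem_map.1 h1
    exact (h a ha).2 hae

theorem sup_comm {Y : Type*} [Group Y] {A B C D : Subgroup Y} (h1 : ∀ a ∈ A, ∀ b ∈ C, a * b = b * a)
    (h2 : ∀ a ∈ A, ∀ b ∈ D, a * b = b * a) (h3 : ∀ a ∈ B, ∀ b ∈ C, a * b = b * a)
    (h4 : ∀ a ∈ B, ∀ b ∈ D, a * b = b * a) {x y : Y} (hx : x ∈ A ⊔ B) (hy : y ∈ C ⊔ D) : x * y = y * x := by
  have h5 : A ⊔ B ≤ Subgroup.centralizer ((C ⊔ D : Subgroup Y) : Set Y) := by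
    have key : ∀ E : Subgroup Y, (∀ a ∈ E, ∀ b ∈ C, a * b = b * a) → (∀ a ∈ E, ∀ b ∈ D, a * b = b * a) →
        E ≤ Subgroup.centralizer ((C ⊔ D : Subgroup Y) : Set Y) := by
      intro E hC hD a ha
      rw [Subgroup.mem_centralizer_iff]
      intro b hb
      have h6 : C ⊔ D ≤ Subgroup.centralizer {a} :=
        sup_le (fun c hc => Subgroup.mem_centralizer_singleton_iff.2 (hC a ha c hc).symm)
          (fun c hc => Subgroup.mem_centralizer_singleton_iff.2 (hD a ha c hc).symm)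
      exact Subgroup.mem_centralizer_singleton_iff.1 (h6 hb)
    exact sup_le (key A h1 h2) (key B h3 h4)
  exact ((Subgroup.mem_centralizer_iff.1 (h5 hx)) y hy).symm

section

variable {K : Type u} [Field K] [Fintype K] {q p : ℕ} {φ : K →+* K} [Fact p.Prime] [CharP K p]
  (hK : Fintype.card K = q ^ 3) (hφ : ∀ x, φ x = x ^ q)

/-- orthogonal root groups commute -/
theorem root_comm (R : Nodes.RGDLib.G1 cs isCartan (Nodes.RGDTwD4.X φ q) = ⊤) (hK : Fintype.card K = q ^ 3)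
    (hφ : ∀ x, φ x = x ^ q) {u v : Fin 2 → ℤ} (hu : IsRoot cs isCartan u) (hv : IsRoot cs isCartan v)
    (h1 : ¬ IsRoot cs isCartan (u + v)) (h2 : ¬ IsRoot cs isCartan (u - v)) (h3 : u ≠ v) (h4 : u ≠ -v)
    {x y : ↥(twistedD4 K q)} (hx : x ∈ Nodes.RGDTwD4.X φ q u ⊔ Nodes.RGDTwD4.X φ q (-u))
    (hy : y ∈ Nodes.RGDTwD4.X φ q v ⊔ Nodes.RGDTwD4.X φ q (-v)) : x * y = y * x := by
  obtain ⟨p, hp'⟩ := CharP.exists K
  have : Fact p.Prime := ⟨CharP.char_is_prime K p⟩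
  have H := (gi (cs := cs) p hK hφ)
  refine sup_comm ?_ ?_ ?_ ?_ hx hy
  · exact H.nil u v hu hv h4 h1
  · refine H.nil u (-v) hu hv.neg (by rwa [neg_neg]) ?_
    rwa [← sub_eq_add_neg]
  · refine H.nil (-u) v hu.neg hv (fun h => h3 (neg_injective h)) ?_
    intro h
    have := h.neg
    rw [neg_add, neg_neg, ← sub_eq_add_neg] at this
    exact h2 this
  · refine H.nil (-u) (-v) hu.neg hv.neg (fun h => h4 (by rw [← neg_neg u, h, neg_neg])) ?_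
    intro h
    have := h.neg
    rw [neg_add, neg_neg, neg_neg] at this
    exact h1 this

end

section Group

variable {K : Type u} [Field K] [Fintype K] {q : ℕ} {φ : K →+* K} (hK : Fintype.card K = q ^ 3)
  (hφ : ∀ x, φ x = x ^ q) {σ : K ≃+* K} (hσ : ∀ x, σ x = φ x)

theorem exists_sigma (hK : Fintype.card K = q ^ 3) (hφ : ∀ x, φ x = x ^ q) :
    ∃ σ : K ≃+* K, (∀ x, σ x = φ x) ∧ (∃ B, σ B ≠ B) ∧
      HexPar σ (Hexagon.TwD4RGD.X K q) (ev (X1 σ)) (ev X2) (ev (X3 σ)) (ev X4) (ev (X5 σ)) (ev X6) := by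
  let σ : K ≃+* K := RingEquiv.ofBijective φ ((Finite.injective_iff_bijective).1 φ.injective)
  have hσ : ∀ x, σ x = φ x := fun x => rfl
  have h3 : ∀ a, σ (σ (σ a)) = a := by
    intro t
    rw [hσ, hσ, hσ, hφ, hφ, hφ, ← pow_mul, ← pow_mul]
    have : q * (q * q) = q ^ 3 := by ring
    rw [this, ← hK]
    exact FiniteField.pow_card t
  exact ⟨σ, hσ, FamD4.exists_moved hK hφ, hexPar hφ (D4Fixed.twisted_le_fix hK hφ) hσ h3⟩

theorem natCard_Fk (hK : Fintype.card K = q ^ 3) (hφ : ∀ x, φ x = x ^ q) (hσ : ∀ x, σ x = φ x) (hq1 : 1 < q) :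
    Nat.card (Fk σ) = q := by
  refine Eq.trans ?_ (ChevalleyStructure.FixedCard.card_fixed hq1 hK)
  refine Nat.card_congr (Equiv.subtypeEquivRight fun a => ?_)
  show σ a = a ↔ _
  rw [hσ, hφ]

include hK hφ hσ in
theorem isMod_Vr (hq1 : 1 < q)
    (P : HexPar σ (Hexagon.TwD4RGD.X K q) (ev (X1 σ)) (ev X2) (ev (X3 σ)) (ev X4) (ev (X5 σ)) (ev X6)) :
    IsMod (Z0 (Hexagon.TwD4RGD.X K q)) (Vr (Hexagon.TwD4RGD.X K q)) (Em (ev (X1 σ)) (ev (X5 σ))) := by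
  refine isMod P ?_
  rw [card_Vr hK hφ hq1, card_Z0 hK hφ hq1, Nat.card_eq_fintype_card (α := K), hK]
  ring

theorem isPGroup_Vr (hK : Fintype.card K = q ^ 3) (hφ : ∀ x, φ x = x ^ q) (hq1 : 1 < q) (p : ℕ) [Fact p.Prime]
    [CharP K p] : IsPGroup p (Vr (Hexagon.TwD4RGD.X K q)) := by
  have hp : p.Prime := Fact.out
  obtain ⟨n, -, hn⟩ := FiniteField.card K p
  have h1 : q ∣ p ^ (n : ℕ) := by
    rw [← hn, hK]; exact dvd_pow_self q (by norm_num)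
  obtain ⟨f, -, hf⟩ := (Nat.dvd_prime_pow hp).1 h1
  refine isPGroup_of_card (f := f) (m := 11) hp ?_
  rw [card_Vr hK hφ hq1, hf]

/-- reflecting the radical -/
theorem VNJ_le {m : ↥(twistedD4 K q)} {r : Fin 2 → ℤ} (hr : IsRoot cs isCartan r)
    (hm : ∀ z, IsRoot cs isCartan z → Cfsg.Agent.Nodes.Reps.cj m (Nodes.RGDTwD4.X φ q z) =
      Nodes.RGDTwD4.X φ q (z - cpr cs isCartan z r • r))
    (ht : ∀ y ∈ s5, ∃ z ∈ s5, (2 * qf AG2t (toV dlG2t) z r = (2 * qf AG2t (toV dlG2t) z r / qf AG2t (toV dlG2t) r r) *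
      qf AG2t (toV dlG2t) r r) ∧ z - (2 * qf AG2t (toV dlG2t) z r / qf AG2t (toV dlG2t) r r) • r = -y)
    (h0 : qf AG2t (toV dlG2t) r r ≠ 0) :
    VNJ cs isCartan (Nodes.RGDTwD4.X φ q) {(0 : Fin 2)} ≤
      cc m (VJ cs isCartan (Nodes.RGDTwD4.X φ q) {(0 : Fin 2)}) := by
  refine RGD.Sup_le fun y hy => ?_
  have hy' : -y ∈ s5 := by
    have h1 : -y ∈ NotJ cs isCartan {(0 : Fin 2)} := hy
    rw [notJ_eq] at h1
    exact Finset.mem_coe.1 h1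
  obtain ⟨z, hz, h1, h2⟩ := ht _ hy'
  have hzr : IsRoot cs isCartan z := s5_root hz
  have h3 : cpr cs isCartan z r = 2 * qf AG2t (toV dlG2t) z r / qf AG2t (toV dlG2t) r r :=
    cpr_val (gr (cs := cs)).hd hr h1 h0
  have h4 := hm z hzr
  rw [h3, h2, neg_neg] at h4
  rw [← h4]
  unfold VJ
  rw [notJ_eq]
  exact cc_mono (RGD.le_Sup (S := (s5 : Set (Fin 2 → ℤ))) (Finset.mem_coe.2 hz))

/-- **The primes dividing `q² - 1`.** -/
theorem twoPair_A (hs : IsSimpleGroup ↥(twistedD4 K q)) (hK : Fintype.card K = q ^ 3) (hφ : ∀ x, φ x = x ^ q)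
    (hq1 : 1 < q) (p : ℕ) [Fact p.Prime] [CharP K p] {ℓ j : ℕ} (hℓ : ℓ.Prime)
    (hM : ∃ (b : ℕ) (M : Matrix.SpecialLinearGroup (Fin 2) (Fk (σ := (exists_sigma hK hφ).choose))), M ^ ℓ ^ b = 1 ∧
      ∀ v : Fin 2 → (Fk (σ := (exists_sigma hK hφ).choose)), (M ^ ℓ ^ j).1.mulVec v = v → v = 0) :
    TwoPair ↥(twistedD4 K q) ℓ j p := by
  obtain ⟨hσ, hB, P⟩ := (exists_sigma hK hφ).choose_spec
  revert hM hσ hB P
  generalize (exists_sigma hK hφ).choose = σ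
  rintro ⟨b, M, hMb, hM⟩ hσ hB P
  let cs : CoxeterSystem CoxeterMatrix.G₂ _ := CoxeterMatrix.G₂.toCoxeterSystem
  have hW : Finite CoxeterMatrix.G₂.Group := Nodes.RGDFold.finite_W (hp := Nodes.RGDTwD4.hp) cs isCartan foldData
  have R := Nodes.RGDTwD4.rgd cs hK hφ p
  have hG1 := Nodes.RGDTwD4.G1_eq_top cs hK hφ
  have hle := D4Fixed.twisted_le_fix hK hφ
  obtain ⟨x, hxL, ⟨k, hxk⟩, hrel⟩ := exists_lift_sl (lift_top hφ hle hσ hK P) hℓ hMb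
  have hrel := hrel ()
  have hPG := isPGroup_Vr hK hφ hq1 p
  have hP1 : Pair ℓ j x (Vr (Hexagon.TwD4RGD.X K q)) := by
    refine (isMod_Vr hK hφ hσ hq1 P).pair hrel ?_ hPG.isNilpotent (comm_Vr P hB).ge
    rw [← map_pow]
    exact no_fixed_map _ hM
  obtain ⟨m, hm, hmX⟩ := exists_refl R (r12 (cs := cs))
  have hmx : m * x = x * m := by
    refine (root_comm (cs := cs) hG1 hK hφ (isRoot_sr cs isCartan 0) r12 ?_ ?_ ?_ ?_ hxL hm).symm
    · exact not_root (by decide +kernel)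
    · exact not_root (by decide +kernel)
    · decide +kernel
    · decide +kernel
  have hP2 := pair_cc hP1 hmx
  refine ⟨x, k, _, _, hxk, hP1, hP2, hPG, hPG.map _, ?_⟩
  rw [eq_top_iff, ← VJ_sup_VNJ R hs hG1 (show (1 : Fin 2) ∉ ({(0 : Fin 2)} : Set (Fin 2)) by simp),
    Vr_eq (cs := cs) hK hφ]
  exact sup_le_sup_left (VNJ_le (r12 (cs := cs)) hmX (by decide +kernel) (by decide +kernel)) _

/-- odd primes dividing `q² - 1` -/
theorem twoPair_odd (hs : IsSimpleGroup ↥(twistedD4 K q)) (hK : Fintype.card K = q ^ 3) (hφ : ∀ x, φ x = x ^ q)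
    (hq1 : 1 < q) (p : ℕ) [Fact p.Prime] [CharP K p] {ℓ : ℕ} (hℓ : ℓ.Prime) (hℓ2 : ℓ ≠ 2) (hd : ℓ ∣ q ^ 2 - 1) :
    TwoPair ↥(twistedD4 K q) ℓ 0 p := by
  refine twoPair_A hs hK hφ hq1 p hℓ ?_
  obtain ⟨hσ, hB, P⟩ := (exists_sigma hK hφ).choose_spec
  have hc := natCard_Fk hK hφ hσ hq1
  have hk : ¬ ℓ ∣ q := by
    intro h
    have h1 : ℓ ∣ q ^ 2 := h.trans (dvd_pow_self q two_ne_zero)
    have h2 : 1 ≤ q ^ 2 := Nat.one_le_pow _ _ (by omega)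
    have h3 := Nat.dvd_sub h1 hd
    rw [Nat.sub_sub_self h2] at h3
    exact hℓ.one_lt.ne' (Nat.dvd_one.1 h3)
  obtain ⟨M, h1, h2⟩ := exists_fpf_two (k := Fk (σ := (exists_sigma hK hφ).choose)) hℓ hℓ2 (by rw [hc]; exact hk)
    (by rw [hc]; exact hd)
  exact ⟨1, M, by rw [pow_one]; exact h1, by rw [pow_zero, pow_one]; exact h2⟩

/-- the prime `2` -/
theorem twoPair_two (hs : IsSimpleGroup ↥(twistedD4 K q)) (hK : Fintype.card K = q ^ 3) (hφ : ∀ x, φ x = x ^ q)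
    (hq1 : 1 < q) (p : ℕ) [Fact p.Prime] [CharP K p] (hp2 : p ≠ 2) : TwoPair ↥(twistedD4 K q) 2 1 p := by
  refine twoPair_A hs hK hφ hq1 p Nat.prime_two ?_
  have h2 : (2 : Fk (σ := (exists_sigma hK hφ).choose)) ≠ 0 := by
    have h3 : (2 : K) ≠ 0 := Ring.two_ne_zero (by rw [ringChar.eq K p]; exact hp2)
    intro h
    exact h3 (congrArg Subtype.val h)
  obtain ⟨M, h1, h3⟩ := exists_fpf_quat h2
  exact ⟨2, M, h1, by rw [pow_one]; exact h3⟩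

end Group

end Cfsg.Agent.H400.Fpr.D4
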