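import Cfsg.Agent.H400.FprHeis
import Cfsg.Agent.H400.TwoExcHeis

/-!
# Fixed point ratios of `p`-elements: the Heisenberg lemma for a long root of a root group datum (helper400, TEAM FPR)
-/

set_option autoImplicit false
set_option linter.unusedSectionVars false
set_option linter.unusedVariables false

namespace Cfsg.Agent.H400.Fpr

open CoxeterSystem Cfsg.Agent.ChevalleyStructure.CoxeterGeom Cfsg.Agent.Tits.Roots Cfsg.Agent.Tits.Core
  Cfsg.Agent.Tits.Exchange Cfsg.Agent.Nodes.Reps Cfsg.Agent.Nodes.BNOf Cfsg.Agent.Nodes.StabComb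
  Cfsg.Agent.Nodes.Bruhat Cfsg.Agent.Nodes.OppDec Cfsg.Agent.Nodes.PosPair Cfsg.Agent.Nodes.Coroot
  Cfsg.Agent.KFacts.RgdPar Cfsg.Agent.KFacts.RgdSL Cfsg.Agent.KFacts.RgdTI Cfsg.Agent.Nodes.LeviDec
open Cfsg.Agent.H400.TwoExc
open Cfsg.Agent.H398.FPR (CommFull UGood Pair)
open scoped commutatorElement

variable {I W Y : Type*} [Fintype I] [DecidableEq I] [Group W] [Group Y] {M : CoxeterMatrix I}
  {cs : CoxeterSystem M W} {A : I → I → ℤ} {h : IsCartan M A} {p : ℕ} {T : Subgroup Y} {n : I → Y}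
  {X : (I → ℤ) → Subgroup Y}

theorem cc_eq_cj (g : Y) (H : Subgroup Y) : cc g H = cj g H := rfl

/-- an element of `⟨X r, X (-r)⟩` inducing the reflection -/
theorem exists_refl (R : RGD cs h p T n X) [Finite W] {r : I → ℤ} (hr : IsRoot cs h r) :
    ∃ m ∈ X r ⊔ X (-r), ∀ z, IsRoot cs h z → cj m (X z) = X (z - cpr cs h z r • r) := by
  obtain ⟨w, i, rfl⟩ := hr
  obtain ⟨g, hg⟩ := exists_rp cs R.nsys w
  have hsr := isRoot_sr cs h i
  obtain ⟨⟨u, hu⟩, hu1⟩ := (Subgroup.ne_bot_iff_exists_ne_one).1 (X_ne_bot R hsr.neg)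
  obtain ⟨a, ha, t, ht, b, hb, e⟩ := R.rk1 i u hu (fun h0 => hu1 (Subtype.ext h0))
  have h1 : t * n i ∈ X (sr i) ⊔ X (-sr i) := by
    have : t * n i = a⁻¹ * u * b⁻¹ := by rw [e]; group
    rw [this]
    exact mul_mem (mul_mem (Subgroup.mem_sup_left (inv_mem ha)) (Subgroup.mem_sup_right hu))
      (Subgroup.mem_sup_left (inv_mem hb))
  refine ⟨g * (t * n i) * g⁻¹, ?_, ?_⟩
  · have h2 : cj g (X (sr i) ⊔ X (-sr i)) = X (rep cs h w (sr i)) ⊔ X (-rep cs h w (sr i)) := by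
      unfold cj
      rw [Subgroup.map_sup]
      congr 1
      · exact R.conj_rp hg hsr
      · have := R.conj_rp hg hsr.neg
        rw [map_neg] at this
        exact this
    rw [← h2]
    exact conj_mem_cj.2 h1
  · intro z hz
    have h2 : cj g⁻¹ (X z) = X (rep cs h w⁻¹ z) := R.conj_rp hg.inv hz
    rw [cj_mul, cj_mul, h2, cj_mul, R.conj i _ (hz.act _), R.tor _ ((hz.act _).act _) t ht,
      R.conj_rp hg ((hz.act _).act _)]
    congr 1
    have h3 := rep_rfl'_eq cs h w i z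
    rw [← h3]
    unfold Cfsg.Agent.Nodes.SubComb.rfl'
    rw [rep_mul_apply, rep_mul_apply]

/-- The root groups with `⟨s, r^∨⟩ ≥ 0` normalise `Q`. -/
theorem X_norm_QQ {R : RGD cs h p T n X} {r : I → ℤ} (H : Hs R r) [Finite W] {s : I → ℤ}
    (hs : IsRoot cs h s) (h0 : 0 ≤ cpr cs h s r) {a b : Y} (ha : a ∈ X s) (hb : b ∈ QQ cs h X r) :
    a * b * a⁻¹ ∈ QQ cs h X r := by
  have h1 : QQ cs h X r ≤ (QQ cs h X r).comap (MulAut.conj a).toMonoidHom := by
    refine RGD.Sup_le fun t ht v hv => ?_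
    show a * v * a⁻¹ ∈ QQ cs h X r
    by_cases hst : s = t
    · subst hst
      exact mul_mem (mul_mem (H.X_le ht ha) (H.X_le ht hv)) (inv_mem (H.X_le ht ha))
    by_cases hst' : s = -t
    · exfalso
      rw [hst', ← neg_one_smul ℤ t, cpr_smul cs h _ _ H.L.root] at h0
      have := ht.2
      omega
    have h2 : a * v * a⁻¹ = ⁅a, v⁆ * v := by rw [commutatorElement_def]; group
    rw [h2]
    refine mul_mem ?_ (H.X_le ht hv)
    refine (iSup_le ?_ : btw cs h X s t ≤ QQ cs h X r) (R.comm s t hs ht.1 hst hst' a ha v hv)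
    rintro ⟨z, hz⟩
    obtain ⟨hz1, m, u, v, hm, hu, hv, he⟩ := hz
    refine H.X_le ⟨hz1, ?_⟩
    have h3 := congrArg (fun y => cpr cs h y r) he
    simp only [cpr_smul cs h _ _ H.L.root, cpr_add cs h _ _ H.L.root] at h3
    have h4 : 0 < v * cpr cs h t r := mul_pos hv ht.2
    have h5 : 0 ≤ u * cpr cs h s r := mul_nonneg hu.le h0
    by_contra h6
    push Not at h6
    have h7 : m * cpr cs h z r ≤ 0 := mul_nonpos_of_nonneg_of_nonpos hm.le h6
    omega
  exact h1 hb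

/-- The image under the reflection. -/
theorem cj_QQ {R : RGD cs h p T n X} {r : I → ℤ} (hr : IsRoot cs h r) [Finite W] {m : Y}
    (hm : ∀ z, IsRoot cs h z → cj m (X z) = X (z - cpr cs h z r • r)) :
    cj m (QQ cs h X r) = QQ cs h X (-r) := by
  have hc : ∀ z, IsRoot cs h z → cpr cs h (z - cpr cs h z r • r) r = - cpr cs h z r := by
    intro z hz
    rw [sub_eq_add_neg, cpr_add cs h _ _ hr, ← neg_smul, cpr_smul cs h _ _ hr, cpr_self cs h hr]
    ring
  apply le_antisymm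
  · unfold cj QQ RGD.Sup
    rw [Subgroup.map_iSup]
    refine iSup_le fun z => ?_
    have h1 := hm z.1 z.2.1
    unfold cj at h1
    rw [h1]
    refine RGD.le_Sup (S := Gt cs h (-r)) ⟨isRoot_refl cs h z.2.1 hr, ?_⟩
    rw [cpr_neg_right cs h _ hr, hc z.1 z.2.1, neg_neg]
    exact z.2.2
  · refine RGD.Sup_le fun z hz => ?_
    have hz2 := hz.2
    rw [cpr_neg_right cs h _ hr] at hz2
    have h1 := isRoot_refl cs h hz.1 hr
    have h2 := hm _ h1
    have h3 : z - cpr cs h z r • r - cpr cs h (z - cpr cs h z r • r) r • r = z := by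
      rw [hc z hz.1, neg_smul]; abel
    rw [h3] at h2
    rw [← h2]
    refine Subgroup.map_mono (RGD.le_Sup (S := Gt cs h r) ⟨h1, ?_⟩)
    rw [hc z hz.1]
    exact hz2

/-- Surjectivity of `[g, ·]` on `Q/Z` from the root groups. -/
theorem free_of_surj [Finite Y] {Z Q : Subgroup Y} (hc : C2 Z Q) {g : Y} (hgQ : ∀ y ∈ Q, g * y * g⁻¹ ∈ Q)
    (hgZ : ∀ y ∈ Z, g * y * g⁻¹ ∈ Z) {ι : Type*} (V : ι → Subgroup Y) (hV : ∀ i, V i ≤ Q) (hQ : Q ≤ Z ⊔ ⨆ i, V i)
    (hs : ∀ i, ∀ u ∈ V i, ∃ u' ∈ Q, ⁅g, u'⁆ = u) : ∀ v ∈ Q, ⁅g, v⁆ ∈ Z → v ∈ Z := by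
  have hcomm : ∀ w ∈ Q, ⁅g, w⁆ ∈ Q := fun w hw => by
    rw [commutatorElement_def]
    exact mul_mem (hgQ w hw) (inv_mem hw)
  have hmul : ∀ a ∈ Q, ∀ b ∈ Q, ∃ z ∈ Z, ⁅g, a * b⁆ = z * (⁅g, a⁆ * ⁅g, b⁆) := by
    intro a ha b hb
    obtain ⟨z, hz, hz'⟩ := hc.mul_comm_mod ha (hcomm b hb)
    refine ⟨⁅g, a⁆ * z * ⁅g, a⁆⁻¹, ?_, ?_⟩
    · have h1 := hc.cen z hz _ (hcomm a ha)
      rw [← h1, mul_inv_cancel_right]
      exact hz
    · have h1 : ⁅g, a * b⁆ = ⁅g, a⁆ * (a * ⁅g, b⁆) * a⁻¹ := by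
        simp only [commutatorElement_def]; group
      rw [h1, hz']
      group
  -- the subgroup of images
  let K : Subgroup Y :=
    { carrier := {u | ∃ w ∈ Q, ∃ z ∈ Z, u = z * ⁅g, w⁆}
      one_mem' := ⟨1, one_mem _, 1, one_mem _, by simp⟩
      mul_mem' := by
        rintro _ _ ⟨w, hw, z, hz, rfl⟩ ⟨w', hw', z', hz', rfl⟩
        obtain ⟨y, hy, hy'⟩ := hmul w hw w' hw'
        refine ⟨w * w', mul_mem hw hw', z * z' * y⁻¹, mul_mem (mul_mem hz hz') (inv_mem hy), ?_⟩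
        have h1 := hc.cen z' hz' _ (hcomm w hw)
        rw [hy']
        calc z * ⁅g, w⁆ * (z' * ⁅g, w'⁆) = z * (⁅g, w⁆ * z') * ⁅g, w'⁆ := by group
          _ = z * (z' * ⁅g, w⁆) * ⁅g, w'⁆ := by rw [h1]
          _ = _ := by group
      inv_mem' := by
        rintro _ ⟨w, hw, z, hz, rfl⟩
        obtain ⟨y, hy, hy'⟩ := hmul w hw w⁻¹ (inv_mem hw)
        rw [mul_inv_cancel, commutatorElement_one_right] at hy'
        refine ⟨w⁻¹, inv_mem hw, z⁻¹ * y, mul_mem (inv_mem hz) hy, ?_⟩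
        have h2 : (⁅g, w⁆)⁻¹ = y * ⁅g, w⁻¹⁆ := by
          have h3 := hc.cen y hy _ (hcomm w hw)
          have h4 : ⁅g, w⁆ * (y * ⁅g, w⁻¹⁆) = 1 := by
            rw [← mul_assoc, ← h3, mul_assoc]
            exact hy'.symm
          exact inv_eq_of_mul_eq_one_right h4
        have h5 := hc.cen z⁻¹ (inv_mem hz) _ (inv_mem (hcomm w hw))
        rw [mul_inv_rev, ← h5, h2, mul_assoc] }
  have hK : Q ≤ K := by
    refine hQ.trans (sup_le ?_ (iSup_le ?_))
    · intro z hz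
      exact ⟨1, one_mem _, z, hz, by simp⟩
    · intro i u hu
      obtain ⟨u', hu', h1⟩ := hs i u hu
      exact ⟨u', hu', 1, one_mem _, by rw [one_mul, h1]⟩
  -- the induced map is surjective, hence injective
  let Z' : Subgroup Q := Z.subgroupOf Q
  have hmem : ∀ w : Q, w ∈ Z' ↔ (w : Y) ∈ Z := fun w => Subgroup.mem_subgroupOf
  let f : Q → Q ⧸ Z' := fun w => QuotientGroup.mk ⟨⁅g, (w : Y)⁆, hcomm w w.2⟩
  have hkey : ∀ a b : Q, (a : Y)⁻¹ * b ∈ Z → f a = f b := by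
    intro a b hab
    show QuotientGroup.mk _ = QuotientGroup.mk _
    rw [QuotientGroup.eq, hmem]
    show (⁅g, (a : Y)⁆)⁻¹ * ⁅g, (b : Y)⁆ ∈ Z
    obtain ⟨c, hc'⟩ : ∃ c : Q, b = a * c := ⟨a⁻¹ * b, by group⟩
    obtain ⟨z, hz, hz'⟩ := hmul a a.2 c c.2
    have h1 : (a : Y)⁻¹ * b = c := by rw [hc']; push_cast; group
    rw [h1] at hab
    have h2 : (⁅g, (a : Y)⁆)⁻¹ * ⁅g, (b : Y)⁆ = z * ⁅g, (c : Y)⁆ := by
      rw [hc']
      push_cast
      rw [hz']
      have h3 := hc.cen z hz _ (inv_mem (hcomm a a.2))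
      rw [← mul_assoc, ← h3]
      group
    rw [h2, commutatorElement_def]
    exact mul_mem hz (mul_mem (hgZ _ hab) (inv_mem hab))
  let F : Q ⧸ Z' → Q ⧸ Z' := Quotient.lift f (by
    intro a b hab
    apply hkey a b
    have h1 := QuotientGroup.leftRel_apply.1 hab
    exact (hmem _).1 h1)
  have hF : Function.Surjective F := by
    intro v
    obtain ⟨u, rfl⟩ := QuotientGroup.mk_surjective v
    obtain ⟨w, hw, z, hz, hu⟩ := hK u.2
    refine ⟨QuotientGroup.mk ⟨w, hw⟩, ?_⟩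
    show f ⟨w, hw⟩ = _
    show QuotientGroup.mk _ = QuotientGroup.mk _
    rw [QuotientGroup.eq, hmem]
    show (⁅g, w⁆)⁻¹ * (u : Y) ∈ Z
    rw [hu]
    have h3 := hc.cen z hz _ (inv_mem (hcomm w hw))
    rw [← mul_assoc, ← h3, mul_assoc, inv_mul_cancel, mul_one]
    exact hz
  have hFi : Function.Injective F := Finite.injective_iff_surjective.2 hF
  intro v hv hvZ
  have h1 : F (QuotientGroup.mk ⟨v, hv⟩) = F (QuotientGroup.mk 1) := by
    show f ⟨v, hv⟩ = f 1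
    show QuotientGroup.mk _ = QuotientGroup.mk _
    rw [QuotientGroup.eq, hmem]
    show (⁅g, v⁆)⁻¹ * ⁅g, ((1 : Q) : Y)⁆ ∈ Z
    rw [Subgroup.coe_one, commutatorElement_one_right, mul_one]
    exact inv_mem hvZ
  have h2 := QuotientGroup.eq.1 (hFi h1)
  rw [hmem] at h2
  have h3 : (v⁻¹ * ((1 : Q) : Y)) ∈ Z := h2
  rw [Subgroup.coe_one, mul_one] at h3
  have := inv_mem h3
  rwa [inv_inv] at this

/-- the element acting as a scalar of order `q - 1` -/
structure ScR (R : RGD cs h p T n X) (r : I → ℤ) (q : ℕ) (g : Y) : Prop where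
  two : 2 < q
  mem : g ∈ X r ⊔ X (-r)
  nor : ∀ s ∈ Gt cs h r, ∀ u ∈ X s, g * u * g⁻¹ ∈ X s
  sur : ∀ i : ℕ, 0 < i → i + 1 < q → ∀ s ∈ Gt cs h r, s ≠ r → ∀ u ∈ X s, ∃ u' ∈ X s, ⁅g ^ i, u'⁆ = u

theorem c2_of_hs {R : RGD cs h p T n X} {r : I → ℤ} [Finite W] (H : Hs R r) : C2 (X r) (QQ cs h X r) :=
  ⟨H.X_le_QQ, fun _ hz _ hg => H.central hz hg, fun _ ha _ hb => H.comm_mem ha hb⟩

theorem ScR.sc {R : RGD cs h p T n X} {r : I → ℤ} [Finite W] [Finite Y] (H : Hs R r) {q : ℕ} {g : Y}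
    (S : ScR R r q g) : Sc q (X r) (QQ cs h X r) g := by
  have hQ : ∀ y ∈ QQ cs h X r, g * y * g⁻¹ ∈ QQ cs h X r := by
    have h1 : QQ cs h X r ≤ (QQ cs h X r).comap (MulAut.conj g).toMonoidHom :=
      RGD.Sup_le fun t ht v hv => H.X_le ht (S.nor t ht v hv)
    exact fun y hy => h1 hy
  have hZ : ∀ y ∈ X r, g * y * g⁻¹ ∈ X r := S.nor r H.mem_Gt
  refine ⟨S.two, hQ, hZ, ?_⟩
  intro i hi hiq
  refine free_of_surj (c2_of_hs H) (pow_inv hQ i) (pow_inv hZ i) (fun s : {s // s ∈ Gt cs h r ∧ s ≠ r} => X s.1)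
    (fun s => H.X_le s.2.1) (RGD.Sup_le fun s hs => ?_) ?_
  · by_cases hsr : s = r
    · subst hsr
      exact le_sup_left
    · exact (le_iSup (fun s : {s // s ∈ Gt cs h r ∧ s ≠ r} => X s.1) ⟨s, hs, hsr⟩).trans le_sup_right
  · rintro ⟨s, hs, hsr⟩ u hu
    obtain ⟨u', hu', h1⟩ := S.sur i hi hiq s hs hsr u hu
    exact ⟨u', H.X_le hs hu', h1⟩

/-- the Levi subgroup centralising `⟨X r, X (-r)⟩` -/
def L0 (cs : CoxeterSystem M W) (h : IsCartan M A) (X : (I → ℤ) → Subgroup Y) (r : I → ℤ) : Subgroup Y :=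
  RGD.Sup X {s | IsRoot cs h s ∧ cpr cs h s r = 0}

theorem L0_comm {R : RGD cs h p T n X} {r : I → ℤ} [Finite W] (H : Hs R r) {x : Y} (hx : x ∈ L0 cs h X r) {z : Y}
    (hz : z ∈ X r ⊔ X (-r)) : x * z = z * x := by
  have hr := H.L.root
  obtain ⟨w, hw⟩ : ∃ w : W, rep cs h w r = -r := by
    obtain ⟨v, i, rfl⟩ := hr
    refine ⟨Cfsg.Agent.Nodes.SubComb.rfl' cs v i, ?_⟩
    rw [rep_rfl'_eq, cpr_self cs h ((isRoot_sr cs h i).act v)]
    rw [two_smul]; abel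
  have H' : LR R (-r) := by rw [← hw]; exact H.L.act w
  have h1 : X r ⊔ X (-r) ≤ Subgroup.centralizer (L0 cs h X r : Set Y) := by
    refine sup_le ?_ ?_
    · intro z hz
      rw [Subgroup.mem_centralizer_iff]
      intro y hy
      exact H.L.comm' (RGD.Sup_mono (S' := Ge cs h r) (fun s hs => ⟨hs.1, hs.2.ge⟩) hy) hz
    · intro z hz
      rw [Subgroup.mem_centralizer_iff]
      intro y hy
      refine H'.comm' (RGD.Sup_mono (S' := Ge cs h (-r)) (fun s hs => ⟨hs.1, ?_⟩) hy) hz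
      rw [cpr_neg_right cs h _ hr, hs.2, neg_zero]
  exact Subgroup.mem_centralizer_iff.1 (h1 hz) x hx

theorem L0_norm {R : RGD cs h p T n X} {r : I → ℤ} [Finite W] [Finite Y] (H : Hs R r) {x : Y} (hx : x ∈ L0 cs h X r) :
    ∀ y ∈ QQ cs h X r, x * y * x⁻¹ ∈ QQ cs h X r := by
  have h1 : L0 cs h X r ≤ Subgroup.normalizer (QQ cs h X r : Set Y) := by
    refine RGD.Sup_le fun s hs a ha => norm_iff.2 fun b hb => X_norm_QQ H hs.1 hs.2.ge ha hb
  exact fun y hy => norm_iff.1 (h1 hx) y hy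

/-- **The Heisenberg lemma** for a long root. `ℓ` is the prime, `D` with `|Q| < q^(D+1) |X r|`. -/
theorem heis_rgd {R : RGD cs h p T n X} {r : I → ℤ} [Finite W] [Finite Y] [Fact p.Prime] (H : Hs R r)
    (hs : IsSimpleGroup Y) (hcen : Subgroup.center Y = ⊥) (hG1 : Cfsg.Agent.Nodes.RGDLib.G1 cs h X = ⊤) {q D ℓ k M' : ℕ} {g : Y}
    (S : ScR R r q g) (hℓ : ℓ.Prime) (hℓp : ℓ ≠ p) {x : Y} (hx : x ∈ L0 cs h X r) (hxk : x ^ ℓ ^ k = 1) (hx1 : x ≠ 1)
    (hQp : IsPGroup p (QQ cs h X r))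
    (hcard : Nat.card (QQ cs h X r) < q ^ (D + 1) * Nat.card (X r))
    (hM : ∀ t : ℕ, t ≠ 0 → p ^ t ≡ 1 [MOD ℓ] → M' ≤ p ^ t) (hM1 : 1 ≤ M') :
    UGood (D + 2) (M' + D + 1) x := by
  have hp : p.Prime := Fact.out
  have hr := H.L.root
  obtain ⟨m, hm, hmX⟩ := exists_refl R hr
  have hcj : cj m (X r) = X (-r) := by
    rw [hmX r hr, cpr_self cs h hr]
    congr 1
    rw [two_smul]; abel
  have hcjQ := cj_QQ (R := R) hr hmX
  have HXx : HX p (ℓ ^ k) (X r) (QQ cs h X r) x := by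
    refine ⟨c2_of_hs H, fun a ha haz z hz => H.surj ha haz hz, hQp, hxk, ?_, ?_, L0_norm H hx⟩
    · intro s
      exact Nat.Coprime.pow _ _ ((Nat.coprime_primes hℓ hp).2 hℓp)
    · intro z hz
      exact L0_comm H hx (Subgroup.mem_sup_left hz)
  have hX2 : ∀ s, IsRoot cs h s → s ∈ Gt cs h r ∨ cpr cs h s r = 0 ∨ s ∈ Gt cs h (-r) := by
    intro s hs
    rcases lt_trichotomy (cpr cs h s r) 0 with h0 | h0 | h0
    · exact Or.inr (Or.inr ⟨hs, by rw [cpr_neg_right cs h _ hr]; omega⟩)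
    · exact Or.inr (Or.inl h0)
    · exact Or.inl ⟨hs, h0⟩
  -- generation
  have hgen : QQ cs h X r ⊔ cc m (QQ cs h X r) = ⊤ := by
    rw [cc_eq_cj]
    set K := QQ cs h X r ⊔ cj m (QQ cs h X r) with hK
    have hnorm : K.Normal := by
      have h1 : Cfsg.Agent.Nodes.RGDLib.G1 cs h X ≤ Subgroup.normalizer (K : Set Y) := by
        refine RGD.Sup_le fun s hs => ?_
        rcases hX2 s hs with h0 | h0 | h0
        · exact ((H.X_le h0).trans le_sup_left).trans Subgroup.le_normalizer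
        · intro a ha
          have haL : a ∈ L0 cs h X r := RGD.le_Sup (S := {s | IsRoot cs h s ∧ cpr cs h s r = 0}) ⟨hs, h0⟩ ha
          have ham : a * m = m * a := L0_comm H haL hm
          have h2 := L0_norm H haL
          refine norm_iff.2 ?_
          have h3 : K ≤ K.comap (MulAut.conj a).toMonoidHom := by
            refine sup_le (fun y hy => Subgroup.mem_sup_left (h2 y hy)) ?_
            rintro _ ⟨y, hy, rfl⟩
            show a * (m * y * m⁻¹) * a⁻¹ ∈ K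
            have h4 : a * (m * y * m⁻¹) * a⁻¹ = m * (a * y * a⁻¹) * m⁻¹ := by
              calc a * (m * y * m⁻¹) * a⁻¹ = (a * m) * y * (a * m)⁻¹ := by group
                _ = (m * a) * y * (m * a)⁻¹ := by rw [ham]
                _ = _ := by group
            rw [h4]
            exact Subgroup.mem_sup_right (conj_mem_cj.2 (h2 y hy))
          exact fun y hy => h3 hy
        · have h1 : X s ≤ cj m (QQ cs h X r) := by
            rw [hcjQ]
            exact RGD.le_Sup h0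
          exact (h1.trans le_sup_right).trans Subgroup.le_normalizer
      rw [hG1, top_le_iff] at h1
      exact Subgroup.normalizer_eq_top_iff.1 h1
    rcases hs.eq_bot_or_eq_top_of_normal K hnorm with h1 | h1
    · exfalso
      have h2 : X r ≤ K := H.X_le_QQ.trans le_sup_left
      rw [h1, le_bot_iff] at h2
      exact X_ne_bot R hr h2
    · exact h1
  have hmx : m * x = x * m := (L0_comm H hx hm).symm
  refine heis_uGood hp hℓ rfl HXx (S.sc H) ?_ ?_ hgen hmx (L0_comm H hx S.mem).symm ?_ hcard hM hM1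
  · rw [cc_eq_cj, hcj]; exact hm
  · rw [cc_eq_cj, hcj]; exact S.mem
  · by_contra hcon
    push Not at hcon
    apply hx1
    have h1 : (⊤ : Subgroup Y) ≤ Subgroup.centralizer {x} := by
      rw [← hgen]
      have h2 : QQ cs h X r ≤ Subgroup.centralizer {x} := fun w hw =>
        Subgroup.mem_centralizer_singleton_iff.2 (hcon w hw).symm
      exact sup_le h2 (cc_le (Subgroup.mem_centralizer_singleton_iff.2 hmx) h2)
    rw [← Subgroup.mem_bot, ← hcen, Subgroup.mem_center_iff]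
    intro y
    exact Subgroup.mem_centralizer_singleton_iff.1 (h1 (Subgroup.mem_top y))

end Cfsg.Agent.H400.Fpr
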