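import Cfsg.Agent.H400.FprSharp
import Cfsg.Agent.H400.FprRgd

/-!
# Fixed point ratios of `p`-elements: the sharp Heisenberg lemma for root data (helper400, TEAM FPR)

* `sharp_rgd` : `q > 2`, a lower bound of `|[Q, x] Z|` suffices;
* `sharp_root` : `C_Q(x)` generated by root elements (for `q = 2`).
-/

set_option autoImplicit false
set_option linter.unusedSectionVars false
set_option linter.unusedVariables false
open Subgroup MulAction
open scoped Pointwise commutatorElement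

namespace Cfsg.Agent.H400.Fpr

open Cfsg.Agent.H398.FPR (CommFull UGood Pair)

section Grp

variable {Y : Type*} [Group Y]

/-- `|C_Q(x)| |[Q, x] Z| ≤ |Q| |Z|` -/
theorem HX.card_mul [Finite Y] {r m : ℕ} {Z Q : Subgroup Y} {x : Y} (H : HX r m Z Q x) :
    Nat.card (Q ⊓ centralizer {x} : Subgroup Y) * Nat.card (RQ H) ≤ Nat.card Q * Nat.card Z := by
  classical
  set C : Subgroup Y := Q ⊓ centralizer {x} with hC
  have hCmem : ∀ y, y ∈ C ↔ y ∈ Q ∧ y * x = x * y := fun y => by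
    rw [hC, mem_inf, mem_centralizer_singleton_iff]
  have hZC : Z ≤ C := fun z hz => (hCmem z).2 ⟨H.c2.le hz, (H.xZ z hz).symm⟩
  let Z' : Subgroup C := Z.subgroupOf C
  let f : (C ⧸ Z') × RQ H → Q := fun a => ⟨(a.1.out : C) * (a.2 : Y),
    mul_mem ((hCmem _).1 (a.1.out : C).2).1 (H.RQ_le a.2.2)⟩
  have hinj : Function.Injective f := by
    rintro ⟨c, v⟩ ⟨d, w⟩ hvw
    have h1 : ((c.out : C) : Y) * v = ((d.out : C) : Y) * w := congrArg Subtype.val hvw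
    have h2 : ((d.out : C) : Y)⁻¹ * ((c.out : C) : Y) = (w : Y) * (v : Y)⁻¹ := by
      rw [inv_mul_eq_iff_eq_mul, ← mul_assoc, ← h1, mul_inv_cancel_right]
    have h3 : ((d.out : C) : Y)⁻¹ * ((c.out : C) : Y) ∈ Z := by
      have h4 : ((d.out : C) : Y)⁻¹ * ((c.out : C) : Y) ∈ C := mul_mem (inv_mem (d.out : C).2) (c.out : C).2
      have h5 := ((hCmem _).1 h4).2
      have h6 : ((d.out : C) : Y)⁻¹ * ((c.out : C) : Y) ∈ RQ H := by
        rw [h2]; exact mul_mem w.2 (inv_mem v.2)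
      apply H.free h6
      rw [commutatorElement_eq_one_iff_mul_comm.2 h5.symm]
      exact one_mem _
    have h4 : c = d := by
      rw [← QuotientGroup.out_eq' c, ← QuotientGroup.out_eq' d, eq_comm, QuotientGroup.eq]
      exact h3
    subst h4
    have h5 : (v : Y) = w := mul_left_cancel h1
    rw [Subtype.ext h5]
  have h1 := Nat.card_le_card_of_injective f hinj
  rw [Nat.card_prod] at h1
  have h2 : Nat.card C = Nat.card (C ⧸ Z') * Nat.card Z := by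
    rw [Subgroup.card_eq_card_quotient_mul_card_subgroup Z', Nat.card_congr (subgroupOfEquivOfLe hZC).toEquiv]
  calc Nat.card C * Nat.card (RQ H) = (Nat.card (C ⧸ Z') * Nat.card (RQ H)) * Nat.card Z := by rw [h2]; ring
    _ ≤ _ := Nat.mul_le_mul_right _ h1

/-- **The sharp Heisenberg lemma**, with a scalar. -/
theorem heis_sharp_sc [Finite Y] {r m p k q D M B : ℕ} (hr : r.Prime) (hp : p.Prime) (hm : m = p ^ k)
    {Z Q : Subgroup Y} {x n h : Y} (H : HX r m Z Q x) (S : Sc q Z Q h) (hn : n ∈ Z ⊔ cc n Z) (hh : h ∈ Z ⊔ cc n Z)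
    (hgen : Q ⊔ cc n Q = ⊤) (hxn : n * x = x * n) (hxh : h * x = x * h) (hx : ∃ w ∈ Q, x * w ≠ w * x)
    (hM : ∀ t : ℕ, t ≠ 0 → r ^ t ≡ 1 [MOD p] → M ≤ r ^ t) (hB : B ^ 2 * Nat.card Z ≤ Nat.card (RQ H))
    (hcard : Nat.card (Q ⊓ centralizer {x} : Subgroup Y) < q ^ (D + 1) * Nat.card Z)
    (hD : (D + 2) * M + 1 ≤ B + (D + 2)) : UGood 1 M x := by
  let C : Subgroup Y := Q ⊓ centralizer {x}
  have hCmem : ∀ y, y ∈ C ↔ y ∈ Q ∧ y * x = x * y := fun y => by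
    rw [mem_inf, mem_centralizer_singleton_iff]
  have hCC : ∀ y ∈ C, h * y * h⁻¹ ∈ C := by
    intro y hy
    rw [hCmem] at hy ⊢
    refine ⟨S.hQ y hy.1, ?_⟩
    have hxh' : Commute h x := hxh
    have hxy : Commute y x := hy.2
    exact ((hxh'.mul_left hxy).mul_left hxh'.inv_left)
  have hZC : Z ≤ C := fun z hz => (hCmem z).2 ⟨H.c2.le hz, (H.xZ z hz).symm⟩
  obtain ⟨e, he, hgenC⟩ := S.gens H.c2 (inf_le_left : C ≤ Q) hCC D Z le_rfl hZC S.hZ hcard
  refine heis_sharp hr hp hm H hxn hx hM hB hD e (fun i => ((hCmem _).1 (he i)).2) ?_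
  intro K hxK hZK hZK' hZe hR
  have hLK : Z ⊔ cc n Z ≤ K := sup_le hZK hZK'
  have hnK : n ∈ K := hLK hn
  have hhK : h ∈ K := hLK hh
  -- the conjugates of `h`
  have hhe : ∀ i, e i * h * (e i)⁻¹ ∈ K := by
    intro i
    have h4 : cc (e i) (Z ⊔ cc n Z) ≤ K := by
      have h5 : cc (e i) (Z ⊔ cc n Z) = cc (e i) Z ⊔ cc (e i) (cc n Z) := Subgroup.map_sup _ _ _
      rw [h5]
      refine sup_le ?_ (hZe i)
      rintro _ ⟨z, hz, rfl⟩
      have h5 := H.c2.cen z hz _ ((hCmem _).1 (he i)).1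
      show e i * z * (e i)⁻¹ ∈ K
      rw [← h5, mul_inv_cancel_right]
      exact hZK hz
    exact h4 (conj_mem_cc hh)
  -- `e i ∈ K`
  have heK : ∀ i, e i ∈ K := by
    intro i
    let V : Subgroup Y := K ⊓ Q
    have hV : ∀ y ∈ V, h * y * h⁻¹ ∈ V := fun y hy =>
      mem_inf.2 ⟨mul_mem (mul_mem hhK (mem_inf.1 hy).1) (inv_mem hhK), S.hQ y (mem_inf.1 hy).2⟩
    have hZV : Z ≤ V := le_inf hZK H.c2.le
    have heQ := ((hCmem _).1 (he i)).1
    have h4 : ⁅h, e i⁆ ∈ V := by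
      refine mem_inf.2 ⟨?_, ?_⟩
      · have h5 : ⁅h, e i⁆ = h * (e i * h * (e i)⁻¹)⁻¹ := by rw [commutatorElement_def]; group
        rw [h5]
        exact mul_mem hhK (inv_mem (hhe i))
      · rw [commutatorElement_def]
        exact mul_mem (S.hQ _ heQ) (inv_mem heQ)
    have hf : ∀ v ∈ Q, ⁅h, v⁆ ∈ Z → v ∈ Z := by
      intro v hv h5
      apply S.free 1 one_pos (by have := S.two; omega) v hv
      rwa [pow_one]
    exact (mem_inf.1 (H.c2.free_sub S.hZ hf hZV inf_le_right hV heQ h4)).1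
  have hCK : C ≤ K := hgenC K hZK (fun y hy => mul_mem (mul_mem hhK hy) (inv_mem hhK)) heK
  have hback : ∀ g ∈ K, ∀ V : Subgroup Y, cc g V ≤ K → V ≤ K := by
    intro g hg V hV
    have h1 := cc_le (inv_mem hg) hV
    rwa [cc_cc, inv_mul_cancel, cc_one] at h1
  have hRK : RQ H ≤ K := by
    rcases hR with h1 | h1 | ⟨i, h1⟩
    · exact h1
    · exact hback _ hnK _ h1
    · exact hback _ hnK _ (hback _ (heK i) _ h1)
  have hQK : Q ≤ K := by
    intro w hw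
    obtain ⟨c, hc, v, hv, hxc, rfl⟩ := H.decomp hw
    exact mul_mem (hCK ((hCmem c).2 ⟨hc, hxc.symm⟩)) (hRK hv)
  rw [eq_top_iff, ← hgen]
  exact sup_le hQK (cc_le hnK hQK)

end Grp

open CoxeterSystem Cfsg.Agent.ChevalleyStructure.CoxeterGeom Cfsg.Agent.Tits.Roots Cfsg.Agent.Tits.Core
  Cfsg.Agent.Tits.Exchange Cfsg.Agent.Nodes.Reps Cfsg.Agent.Nodes.BNOf Cfsg.Agent.Nodes.StabComb
  Cfsg.Agent.Nodes.Bruhat Cfsg.Agent.Nodes.OppDec Cfsg.Agent.Nodes.PosPair Cfsg.Agent.Nodes.Coroot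
  Cfsg.Agent.KFacts.RgdPar Cfsg.Agent.KFacts.RgdSL Cfsg.Agent.KFacts.RgdTI Cfsg.Agent.Nodes.LeviDec
  Cfsg.Agent.H400.TwoExc

variable {I W Y : Type*} [Fintype I] [DecidableEq I] [Group W] [Group Y] {M : CoxeterMatrix I}
  {cs : CoxeterSystem M W} {A : I → I → ℤ} {h : IsCartan M A} {p : ℕ} {T : Subgroup Y} {n : I → Y}
  {X : (I → ℤ) → Subgroup Y}

/-- generation by two opposite Heisenberg groups -/
theorem QQ_gen {R : RGD cs h p T n X} {r : I → ℤ} [Finite W] [Finite Y] (H : Hs R r) (hs : IsSimpleGroup Y)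
    (hG1 : Cfsg.Agent.Nodes.RGDLib.G1 cs h X = ⊤) {m : Y} (hm : m ∈ X r ⊔ X (-r))
    (hcjQ : cj m (QQ cs h X r) = QQ cs h X (-r)) :
    QQ cs h X r ⊔ cc m (QQ cs h X r) = ⊤ := by
  have hr := H.L.root
  have hX2 : ∀ s, IsRoot cs h s → s ∈ Gt cs h r ∨ cpr cs h s r = 0 ∨ s ∈ Gt cs h (-r) := by
    intro s hs
    rcases lt_trichotomy (cpr cs h s r) 0 with h0 | h0 | h0
    · exact Or.inr (Or.inr ⟨hs, by rw [cpr_neg_right cs h _ hr]; omega⟩)
    · exact Or.inr (Or.inl h0)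
    · exact Or.inl ⟨hs, h0⟩
  rw [cc_eq_cj]
  set K := QQ cs h X r ⊔ cj m (QQ cs h X r) with hK
  have hnorm : K.Normal := by
    have h1 : Cfsg.Agent.Nodes.RGDLib.G1 cs h X ≤ Subgroup.normalizer (K : Set Y) := by
      refine RGD.Sup_le fun s hs => ?_
      rcases hX2 s hs with h0 | h0 | h0
      · exact ((H.X_le h0).trans le_sup_left).trans Subgroup.le_normalizer
      · intro a ha
        have haL : a ∈ L0 cs h X r := RGD.le_Sup (S := {s | IsRoot cs h s ∧ cpr cs h s r = 0}) ⟨hs, h0⟩ ha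
        have ham : a * m = m * a := L0_comm H haL hm
        have h2 := L0_norm H haL
        refine norm_iff.2 ?_
        have h3 : K ≤ K.comap (MulAut.conj a).toMonoidHom := by
          refine sup_le (fun y hy => Subgroup.mem_sup_left (h2 y hy)) ?_
          rintro _ ⟨y, hy, rfl⟩
          show a * (m * y * m⁻¹) * a⁻¹ ∈ K
          have h4 : a * (m * y * m⁻¹) * a⁻¹ = m * (a * y * a⁻¹) * m⁻¹ := by
            calc a * (m * y * m⁻¹) * a⁻¹ = (a * m) * y * (a * m)⁻¹ := by group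
              _ = (m * a) * y * (m * a)⁻¹ := by rw [ham]
              _ = _ := by group
          rw [h4]
          exact Subgroup.mem_sup_right (conj_mem_cj.2 (h2 y hy))
        exact fun y hy => h3 hy
      · have h1 : X s ≤ cj m (QQ cs h X r) := by
          rw [hcjQ]
          exact RGD.le_Sup h0
        exact (h1.trans le_sup_right).trans Subgroup.le_normalizer
    rw [hG1, top_le_iff] at h1
    exact Subgroup.normalizer_eq_top_iff.1 h1
  rcases hs.eq_bot_or_eq_top_of_normal K hnorm with h1 | h1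
  · exfalso
    have h2 : X r ≤ K := H.X_le_QQ.trans le_sup_left
    rw [h1, le_bot_iff] at h2
    exact X_ne_bot R hr h2
  · exact h1

/-- the basic data for an element of the Levi subgroup -/
theorem hx_rgd {R : RGD cs h p T n X} {r : I → ℤ} [Finite W] [Finite Y] [Fact p.Prime] (H : Hs R r)
    {ℓ k : ℕ} (hℓ : ℓ.Prime) (hℓp : ℓ ≠ p) {x : Y} (hx : x ∈ L0 cs h X r) (hxk : x ^ ℓ ^ k = 1)
    (hQp : IsPGroup p (QQ cs h X r)) : HX p (ℓ ^ k) (X r) (QQ cs h X r) x := by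
  have hp : p.Prime := Fact.out
  refine ⟨c2_of_hs H, fun a ha haz z hz => H.surj ha haz hz, hQp, hxk, ?_, ?_, L0_norm H hx⟩
  · intro s
    exact Nat.Coprime.pow _ _ ((Nat.coprime_primes hℓ hp).2 hℓp)
  · intro z hz
    exact L0_comm H hx (Subgroup.mem_sup_left hz)

/-- an element of the Levi subgroup moves `Q` -/
theorem exists_moved {R : RGD cs h p T n X} {r : I → ℤ} [Finite W] [Finite Y] (H : Hs R r)
    (hcen : Subgroup.center Y = ⊥) {m : Y} (hgen : QQ cs h X r ⊔ cc m (QQ cs h X r) = ⊤) {x : Y} (hx1 : x ≠ 1)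
    (hmx : m * x = x * m) : ∃ w ∈ QQ cs h X r, x * w ≠ w * x := by
  by_contra hcon
  push Not at hcon
  apply hx1
  have h1 : (⊤ : Subgroup Y) ≤ Subgroup.centralizer {x} := by
    rw [← hgen]
    have h2 : QQ cs h X r ≤ Subgroup.centralizer {x} := fun w hw =>
      Subgroup.mem_centralizer_singleton_iff.2 (hcon w hw).symm
    exact sup_le h2 (cc_le (Subgroup.mem_centralizer_singleton_iff.2 hmx) h2)
  rw [← Subgroup.mem_bot, ← hcen, Subgroup.mem_center_iff]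
  intro y
  exact Subgroup.mem_centralizer_singleton_iff.1 (h1 (Subgroup.mem_top y))

/-- **The sharp Heisenberg lemma** for a long root, `q > 2`; `|[Q, x] Z / Z| ≥ q ^ c`, `|Q / Z| ≤ q ^ (c + D)`. -/
theorem sharp_rgd {R : RGD cs h p T n X} {r : I → ℤ} [Finite W] [Finite Y] [Fact p.Prime] (H : Hs R r)
    (hs : IsSimpleGroup Y) (hcen : Subgroup.center Y = ⊥) (hG1 : Cfsg.Agent.Nodes.RGDLib.G1 cs h X = ⊤)
    {q c D ℓ k M' : ℕ} {g : Y} (S : ScR R r q g) (hℓ : ℓ.Prime) (hℓp : ℓ ≠ p) {x : Y} (hx : x ∈ L0 cs h X r)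
    (hxk : x ^ ℓ ^ k = 1) (hx1 : x ≠ 1) (hQp : IsPGroup p (QQ cs h X r))
    (hV : ∀ V : Subgroup Y, X r ≤ V → V ≤ QQ cs h X r → (∀ w ∈ QQ cs h X r, ⁅x, w⁆ ∈ V) →
      q ^ (2 * c) * Nat.card (X r) ≤ Nat.card V)
    (hcard : Nat.card (QQ cs h X r) ≤ q ^ (2 * c + D) * Nat.card (X r))
    (hM : ∀ t : ℕ, t ≠ 0 → p ^ t ≡ 1 [MOD ℓ] → M' ≤ p ^ t) (hD : (D + 2) * M' + 1 ≤ q ^ c + (D + 2)) :
    UGood 1 M' x := by
  have hp : p.Prime := Fact.out
  have hr := H.L.root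
  obtain ⟨m, hm, hmX⟩ := exists_refl R hr
  have hcj : cj m (X r) = X (-r) := by
    rw [hmX r hr, cpr_self cs h hr]
    congr 1
    rw [two_smul]; abel
  have hcjQ := cj_QQ (R := R) hr hmX
  have HXx := hx_rgd H hℓ hℓp hx hxk hQp
  have hgen := QQ_gen H hs hG1 hm hcjQ
  have hmx : m * x = x * m := (L0_comm H hx hm).symm
  have hRc := hV (RQ HXx) HXx.Z_le_RQ HXx.RQ_le (fun w hw => HXx.comm_mem_RQ hw)
  have hZ0 : 0 < Nat.card (X r) := Nat.card_pos
  have hq0 : 0 < q := by have := S.two; omega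
  refine heis_sharp_sc hp hℓ rfl HXx (S.sc H) ?_ ?_ hgen hmx (L0_comm H hx S.mem).symm
    (exists_moved H hcen hgen hx1 hmx) hM (B := q ^ c) ?_ ?_ hD
  · rw [cc_eq_cj, hcj]; exact hm
  · rw [cc_eq_cj, hcj]; exact S.mem
  · rw [← pow_mul, mul_comm c 2]; exact hRc
  · have h1 := HXx.card_mul
    have h2 : Nat.card (QQ cs h X r ⊓ centralizer {x} : Subgroup Y) * (q ^ (2 * c) * Nat.card (X r)) ≤
        (q ^ D * Nat.card (X r)) * (q ^ (2 * c) * Nat.card (X r)) := by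
      calc _ ≤ Nat.card (QQ cs h X r ⊓ centralizer {x} : Subgroup Y) * Nat.card (RQ HXx) :=
            Nat.mul_le_mul_left _ hRc
        _ ≤ Nat.card (QQ cs h X r) * Nat.card (X r) := h1
        _ ≤ q ^ (2 * c + D) * Nat.card (X r) * Nat.card (X r) := Nat.mul_le_mul_right _ hcard
        _ = _ := by rw [pow_add]; ring
    have h3 := Nat.le_of_mul_le_mul_right h2 (Nat.mul_pos (pow_pos hq0 _) hZ0)
    refine h3.trans_lt ((Nat.mul_lt_mul_right hZ0).2 ?_)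
    exact Nat.pow_lt_pow_right (by have := S.two; omega) (Nat.lt_succ_self D)

/-- **The sharp Heisenberg lemma** for a long root; `[Q, x] Z` contains the root groups outside `S₀`, the root groups in
`S₀` have order `2` and commute with `x`. -/
theorem sharp_root {R : RGD cs h p T n X} {r : I → ℤ} [Finite W] [Finite Y] [Fact p.Prime] (H : Hs R r)
    (hs : IsSimpleGroup Y) (hcen : Subgroup.center Y = ⊥) (hG1 : Cfsg.Agent.Nodes.RGDLib.G1 cs h X = ⊤)
    {ℓ k M' B D : ℕ} (hℓ : ℓ.Prime) (hℓp : ℓ ≠ p) {x : Y} (hx : x ∈ L0 cs h X r)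
    (hxk : x ^ ℓ ^ k = 1) (hx1 : x ≠ 1) (hQp : IsPGroup p (QQ cs h X r)) (s0 : Fin D → I → ℤ)
    (h0 : ∀ i, s0 i ∈ Gt cs h r) (h0r : ∀ i, s0 i ≠ r) (h02 : ∀ i, Nat.card (X (s0 i)) = 2)
    (h0x : ∀ i, ∀ u ∈ X (s0 i), u * x = x * u)
    (h0c : ∀ i, ∃ z ∈ X (-r), ∀ u ∈ X (s0 i), u ≠ 1 → ⁅z, u⁆ ∈ X (s0 i - r) ∧ ⁅z, u⁆ ≠ 1)
    (h0s : ∀ i, cpr cs h (s0 i) r = 1)
    (h1 : ∀ s ∈ Gt cs h r, s ≠ r → (∃ i, s = s0 i) ∨ ∀ V : Subgroup Y, X r ≤ V → V ≤ QQ cs h X r →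
      (∀ w ∈ QQ cs h X r, ⁅x, w⁆ ∈ V) → X s ≤ V)
    (hV : ∀ V : Subgroup Y, X r ≤ V → V ≤ QQ cs h X r → (∀ w ∈ QQ cs h X r, ⁅x, w⁆ ∈ V) →
      B ^ 2 * Nat.card (X r) ≤ Nat.card V)
    (hM : ∀ t : ℕ, t ≠ 0 → p ^ t ≡ 1 [MOD ℓ] → M' ≤ p ^ t) (hD : (D + 2) * M' + 1 ≤ B + (D + 2)) :
    UGood 1 M' x := by
  have hp : p.Prime := Fact.out
  have hr := H.L.root
  obtain ⟨m, hm, hmX⟩ := exists_refl R hr
  have hcj : cj m (X r) = X (-r) := by
    rw [hmX r hr, cpr_self cs h hr]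
    congr 1
    rw [two_smul]; abel
  have hcjQ := cj_QQ (R := R) hr hmX
  have HXx := hx_rgd H hℓ hℓp hx hxk hQp
  have hgen := QQ_gen H hs hG1 hm hcjQ
  have hmx : m * x = x * m := (L0_comm H hx hm).symm
  -- the generators
  have he0 : ∀ i, ∃ u ∈ X (s0 i), u ≠ 1 := fun i =>
    (Subgroup.bot_or_exists_ne_one (X (s0 i))).resolve_left (X_ne_bot R (h0 i).1)
  choose e he he1 using he0
  have hX2 : ∀ i, ∀ u ∈ X (s0 i), u = 1 ∨ u = e i := by
    intro i u hu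
    have h3 := (Nat.card_eq_two_iff' (1 : X (s0 i))).1 (h02 i)
    obtain ⟨v, hv, huniq⟩ := h3
    by_cases hu1 : u = 1
    · exact Or.inl hu1
    · right
      have e1 := huniq ⟨u, hu⟩ (fun h => hu1 (congrArg Subtype.val h))
      have e2 := huniq ⟨e i, he i⟩ (fun h => he1 i (congrArg Subtype.val h))
      exact congrArg Subtype.val (e1.trans e2.symm)
  refine heis_sharp hp hℓ rfl HXx hmx (exists_moved H hcen hgen hx1 hmx) hM
    (hV (RQ HXx) HXx.Z_le_RQ HXx.RQ_le (fun w hw => HXx.comm_mem_RQ hw)) hD e (fun i => h0x i _ (he i)) ?_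
  intro K hxK hZK hZK' hZe hR
  rw [cc_eq_cj, hcj] at hZK'
  have hmK : m ∈ K := (sup_le hZK hZK' : X r ⊔ X (-r) ≤ K) hm
  have heK : ∀ i, e i ∈ K := by
    intro i
    obtain ⟨z, hz, hzu⟩ := h0c i
    obtain ⟨h2, h3⟩ := hzu _ (he i) (he1 i)
    have h4 : ⁅z, e i⁆ ∈ K := by
      have h5 : e i * z * (e i)⁻¹ ∈ K := by
        refine hZe i ?_
        rw [cc_eq_cj m, hcj]
        exact conj_mem_cc hz
      have h6 : ⁅z, e i⁆ = z * (e i * z * (e i)⁻¹)⁻¹ := by rw [commutatorElement_def]; group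
      rw [h6]
      exact mul_mem (hZK' hz) (inv_mem h5)
    have hroot : IsRoot cs h (s0 i - r) := by
      rcases eq_or_ne (s0 i) r with h7 | h7
      · exact absurd h7 (h0r i)
      · have h8 := (H.sub _ (h0 i) h7).1.neg
        rwa [neg_sub] at h8
    have h7 : cj m (X (s0 i - r)) = X (s0 i) := by
      have e1 : cpr cs h (s0 i - r) r = -1 := by
        rw [sub_eq_add_neg, cpr_add cs h _ _ hr, h0s i, cpr_neg cs h _ hr, cpr_self cs h hr]
        norm_num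
      rw [hmX _ hroot, e1]
      congr 1
      module
    have h8 : m * ⁅z, e i⁆ * m⁻¹ ∈ X (s0 i) := by
      rw [← h7]; exact conj_mem_cj.2 h2
    have h9 : m * ⁅z, e i⁆ * m⁻¹ ≠ 1 := by
      intro h10
      apply h3
      have h11 : ⁅z, e i⁆ = m⁻¹ * (m * ⁅z, e i⁆ * m⁻¹) * m := by group
      rw [h11, h10]; group
    rcases hX2 i _ h8 with h10 | h10
    · exact absurd h10 h9
    · rw [← h10]
      exact mul_mem (mul_mem hmK h4) (inv_mem hmK)
  have hback : ∀ g ∈ K, ∀ V : Subgroup Y, cc g V ≤ K → V ≤ K := by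
    intro g hg V hV
    have h1 := cc_le (inv_mem hg) hV
    rwa [cc_cc, inv_mul_cancel, cc_one] at h1
  have hRK : RQ HXx ≤ K := by
    rcases hR with h1 | h1 | ⟨i, h1⟩
    · exact h1
    · exact hback _ hmK _ h1
    · exact hback _ hmK _ (hback _ (heK i) _ h1)
  have hQK : QQ cs h X r ≤ K := by
    refine RGD.Sup_le fun s hs' => ?_
    rcases eq_or_ne s r with h2 | h2
    · rw [h2]; exact hZK
    · rcases h1 s hs' h2 with ⟨i, rfl⟩ | h3
      · intro u hu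
        rcases hX2 i u hu with h4 | h4
        · rw [h4]; exact one_mem _
        · rw [h4]; exact heK i
      · exact (h3 (RQ HXx) HXx.Z_le_RQ HXx.RQ_le (fun w hw => HXx.comm_mem_RQ hw)).trans hRK
  rw [eq_top_iff, ← hgen]
  exact sup_le hQK (cc_le hmK hQK)

end Cfsg.Agent.H400.Fpr
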