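import Cfsg.Agent.H400.FprClosed
import Cfsg.Agent.H400.FprSharpRgd

/-!
# Fixed point ratios of `p`-elements: duality in Heisenberg groups (helper400, TEAM FPR)
-/

set_option autoImplicit false
set_option linter.unusedSectionVars false
set_option linter.unusedVariables false
open Subgroup MulAction
open scoped Pointwise commutatorElement

namespace Cfsg.Agent.H400.Fpr

section Grp

variable {Y : Type*} [Group Y] {r m : ℕ} {Z Q : Subgroup Y} {x : Y}

/-- an element of `Q` centralised by `Q` -/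
theorem HX.mem_of_central (H : HX r m Z Q x) (hZ : Z ≠ ⊥) {w : Y} (hw : w ∈ Q) (hc : ∀ y ∈ Q, w * y = y * w) :
    w ∈ Z := by
  by_contra h
  obtain ⟨z, hz, hz1⟩ := (Subgroup.bot_or_exists_ne_one Z).resolve_left hZ
  obtain ⟨b, hb, hb'⟩ := H.sur w hw h z hz
  rw [commutatorElement_eq_one_iff_mul_comm.2 (hc b hb)] at hb'
  exact hz1 hb'.symm

/-- **Duality.** If `x` is free on `N`, then it is free on the dual `W`. -/
theorem HX.free_dual (H : HX r m Z Q x) (hZ : Z ≠ ⊥) {N : Set Y} (hNQ : ∀ n ∈ N, n ∈ Q)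
    (hN : ∀ V : Subgroup Y, (∀ n ∈ N, ⁅x, n⁆ ∈ V) → ∀ n ∈ N, n ∈ V) {w : Y} (hw : w ∈ Q)
    (hc : (∀ n ∈ N, w * n = n * w) → ∀ y ∈ Q, w * y = y * w) (h : ⁅x, w⁆ ∈ Z) : w ∈ Z := by
  have hxw := H.comm_of_mem hw h
  refine H.mem_of_central hZ hw (hc ?_)
  have h1 : ∀ n ∈ N, n ∈ Subgroup.centralizer {w} := by
    refine hN _ fun n hn => ?_
    rw [mem_centralizer_singleton_iff]
    have hn' := hNQ n hn
    have e1 : ⁅w, x * n * x⁻¹⁆ = ⁅w, n⁆ := by
      have e2 : ⁅w, x * n * x⁻¹⁆ = x * ⁅x⁻¹ * w * x, n⁆ * x⁻¹ := by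
        simp only [commutatorElement_def]; group
      have e3 : x⁻¹ * w * x = w := by rw [mul_assoc, ← hxw, inv_mul_cancel_left]
      rw [e2, e3, H.conjZ (H.c2.com w hw n hn')]
    have e4 : ⁅w, ⁅x, n⁆⁆ = 1 := by
      have e5 : ⁅x, n⁆ = (x * n * x⁻¹) * n⁻¹ := commutatorElement_def x n
      rw [e5, H.lin (H.xQ n hn') (inv_mem hn') hw, e1, H.lin_inv hn' hw, mul_inv_cancel]
    exact (commutatorElement_eq_one_iff_mul_comm.1 e4).symm
  intro n hn
  exact (mem_centralizer_singleton_iff.1 (h1 n hn)).symm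

/-- a subgroup on which `x` is free -/
theorem HX.le_of_free [Finite Y] (H : HX r m Z Q x) {U : Subgroup Y} (hZU : Z ≤ U) (hUQ : U ≤ Q)
    (hxU : ∀ y ∈ U, x * y * x⁻¹ ∈ U) (hf : ∀ w ∈ U, ⁅x, w⁆ ∈ Z → w ∈ Z) {V : Subgroup Y} (hZV : Z ≤ V)
    (hV : ∀ w ∈ Q, ⁅x, w⁆ ∈ V) : U ≤ V := by
  intro u hu
  obtain ⟨w, hw, z, hz, e⟩ := (H.c2.mono hZU hUQ).surj (g := x) hxU
    (fun y hy => by rw [H.conjZ hy]; exact hy) hf hu
  have h1 := hV w (hUQ hw)
  rw [e] at h1
  have h2 := mul_mem (inv_mem (hZV hz)) h1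
  rwa [inv_mul_cancel_left] at h2

/-- an element acting nontrivially on a small group acts freely -/
theorem HX.free_of_card [Finite Y] (H : HX r m Z Q x) (hr : r.Prime) {ℓ k : ℕ} (hℓ : ℓ.Prime) (hm : m = ℓ ^ k) {U : Subgroup Y}
    (hZU : Z ≤ U) (hUQ : U ≤ Q) (hxU : ∀ y ∈ U, x * y * x⁻¹ ∈ U) {a : ℕ} (hcard : Nat.card U = Nat.card Z * r ^ a)
    (ha : ∀ b : ℕ, 0 < b → b < a → ¬ ℓ ∣ r ^ b - 1) (hnt : ∃ w ∈ U, x * w ≠ w * x) :
    ∀ w ∈ U, ⁅x, w⁆ ∈ Z → w ∈ Z := by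
  classical
  have : Fact ℓ.Prime := ⟨hℓ⟩
  have : Fact r.Prime := ⟨hr⟩
  -- the centraliser
  let C : Subgroup Y := U ⊓ centralizer {x}
  have hC : ∀ y, y ∈ C ↔ y ∈ U ∧ y * x = x * y := fun y => by rw [mem_inf, mem_centralizer_singleton_iff]
  have hZC : Z ≤ C := fun z hz => (hC z).2 ⟨hZU hz, (H.xZ z hz).symm⟩
  have hCU : C ≤ U := inf_le_left
  have hCne : C ≠ U := by
    intro h
    obtain ⟨w, hw, hw'⟩ := hnt
    rw [← h] at hw
    exact hw' ((hC w).1 hw).2.symm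
  -- `|U : Z| = r ^ a`, `|C : Z| = r ^ b`
  have hU2 : Nat.card C ∣ Nat.card U := Subgroup.card_dvd_of_le hCU
  have hZ2 : Nat.card Z ∣ Nat.card C := Subgroup.card_dvd_of_le hZC
  obtain ⟨c, hc⟩ := hZ2
  have hZ0 : 0 < Nat.card Z := Nat.card_pos
  have hcr : c ∣ r ^ a := by
    rw [hc, hcard] at hU2
    exact Nat.dvd_of_mul_dvd_mul_left hZ0 hU2
  obtain ⟨b, hba, rfl⟩ := (Nat.dvd_prime_pow hr).1 hcr
  -- `x` acts on `U`, the fixed points are `C`
  let f : Function.End U := fun y => ⟨x * y * x⁻¹, hxU y y.2⟩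
  have hfi : ∀ (i : ℕ) (u : U), ((f ^ i : Function.End U) u : Y) = x ^ i * u * (x ^ i)⁻¹ := by
    intro i
    induction i with
    | zero => intro u; rw [pow_zero, pow_zero]; simp; rfl
    | succ i ih =>
      intro u
      rw [pow_succ]
      show ((f ^ i : Function.End U) (f u) : Y) = _
      rw [ih]
      show x ^ i * (x * u * x⁻¹) * (x ^ i)⁻¹ = _
      rw [pow_succ]; group
  have hf1 : f ^ ℓ ^ k = 1 := by
    funext u
    apply Subtype.ext
    rw [hfi, ← hm, H.xm, one_mul, inv_one, mul_one]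
    rfl
  have : Fintype U := Fintype.ofFinite U
  have h1 := Equiv.Perm.card_fixedPoints_modEq (α := U) (f := f) (p := ℓ) (n := k) hf1
  have h2 : Nat.card (Function.fixedPoints f) = Nat.card C := by
    refine Nat.card_congr ⟨fun u => ⟨u.1.1, ?_⟩, fun c => ⟨⟨c.1, hCU c.2⟩, ?_⟩, fun u => rfl, fun c => rfl⟩
    · have h3 : f u.1 = u.1 := u.2
      have h4 : x * (u.1 : Y) * x⁻¹ = u.1 := congrArg Subtype.val h3
      exact (hC _).2 ⟨u.1.2, (mul_inv_eq_iff_eq_mul.1 h4).symm⟩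
    · have h4 := ((hC c.1).1 c.2).2
      apply Subtype.ext
      show x * (c : Y) * x⁻¹ = c
      rw [← h4, mul_inv_cancel_right]
  have e1 : (Fintype.card (Function.fixedPoints f)) = Nat.card (Function.fixedPoints f) :=
    (Nat.card_eq_fintype_card).symm
  rw [← Nat.card_eq_fintype_card, e1, h2, hcard, hc] at h1
  have hb : b = 0 := by
    by_contra hb0
    rcases hba.lt_or_eq with hlt | heq
    · refine ha (a - b) (by omega) (by omega) ?_
      have h3 : Nat.card Z * r ^ b * r ^ (a - b) = Nat.card Z * r ^ a := by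
        rw [mul_assoc, ← pow_add]; congr 2; omega
      have hle : Nat.card Z * r ^ b ≤ Nat.card Z * r ^ a :=
        Nat.mul_le_mul_left _ (Nat.pow_le_pow_right hr.pos hba)
      have h4 : ℓ ∣ Nat.card Z * r ^ a - Nat.card Z * r ^ b := (Nat.modEq_iff_dvd' hle).1 h1.symm
      have h5 : Nat.card Z * r ^ a - Nat.card Z * r ^ b = Nat.card Z * r ^ b * (r ^ (a - b) - 1) := by
        rw [Nat.mul_sub, mul_one, h3]
      rw [h5] at h4
      rcases (Nat.Prime.dvd_mul hℓ).1 h4 with h6 | h6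
      · exfalso
        -- `ℓ` does not divide the order of the `r`-group `C`
        have h7 : ℓ ∣ Nat.card C := by rw [hc]; exact h6
        obtain ⟨y, hy⟩ := exists_prime_orderOf_dvd_card' ℓ h7
        obtain ⟨s, hs⟩ := H.exists_pow (hUQ (hCU y.2))
        have h8 : orderOf y ∣ r ^ s := by
          rw [orderOf_dvd_iff_pow_eq_one]
          exact Subtype.ext hs
        rw [hy] at h8
        have h9 : r = ℓ := ((Nat.prime_dvd_prime_iff_eq hℓ hr).1 (hℓ.dvd_of_dvd_pow h8)).symm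
        have h10 := H.cop 1
        rw [hm, h9, pow_one] at h10
        rcases Nat.eq_zero_or_pos k with hk | hk
        · -- `k = 0`: `x = 1`
          have hx1 : x = 1 := by
            have := H.xm
            rwa [hm, hk, pow_zero, pow_one] at this
          obtain ⟨w, hw, hw'⟩ := hnt
          rw [hx1, one_mul, mul_one] at hw'
          exact hw' rfl
        · have h11 : ℓ ∣ Nat.gcd (ℓ ^ k) ℓ := Nat.dvd_gcd (dvd_pow_self ℓ hk.ne') dvd_rfl
          rw [h10.gcd_eq_one] at h11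
          exact hℓ.one_lt.ne' (Nat.dvd_one.1 h11)
      · exact h6
    · apply hCne
      apply Subgroup.eq_of_le_of_card_ge hCU
      rw [hcard, hc, heq]
  have hCZ : C = Z := by
    refine (Subgroup.eq_of_le_of_card_ge hZC ?_).symm
    rw [hc, hb, pow_zero, mul_one]
  intro w hw h
  rw [← hCZ, hC]
  exact ⟨hw, (H.comm_of_mem (hUQ hw) h).symm⟩

end Grp

open CoxeterSystem Cfsg.Agent.ChevalleyStructure.CoxeterGeom Cfsg.Agent.Tits.Roots Cfsg.Agent.Tits.Core
  Cfsg.Agent.Tits.Exchange Cfsg.Agent.Nodes.Reps Cfsg.Agent.Nodes.BNOf Cfsg.Agent.Nodes.StabComb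
  Cfsg.Agent.Nodes.Bruhat Cfsg.Agent.Nodes.OppDec Cfsg.Agent.Nodes.PosPair Cfsg.Agent.Nodes.Coroot
  Cfsg.Agent.Nodes.Unique
open Cfsg.Agent.H400.TwoExc

variable {l : ℕ} {W Y : Type*} [Group W] [Group Y] {M : CoxeterMatrix (Fin l)}
  {cs : CoxeterSystem M W} {A : Fin l → Fin l → ℤ} {h : IsCartan M A} {p : ℕ} {T : Subgroup Y} {n : Fin l → Y}
  {X : (Fin l → ℤ) → Subgroup Y}

/-- a root group normalises a product of root groups: check on the table; `c` is a coordinate with `a c = 0`. -/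
theorem norm_check (R : RGD cs h p T n X) [Finite W] {L : List (Fin l → ℤ)} (H : PR A L) {S : Finset (Fin l → ℤ)}
    (hS : ∀ z ∈ S, z ∈ L) {a : Fin l → ℤ} (ha : IsRoot cs h a) (c : Fin l) (hac : a c = 0)
    (hzc : ∀ z ∈ S, 0 < z c) (hc : ∀ z ∈ S, ∀ z' ∈ L, btw a z z' → z' ∈ S) {g y : Y} (hg : g ∈ X a)
    (hy : y ∈ RGD.Sup X (S : Set (Fin l → ℤ))) : g * y * g⁻¹ ∈ RGD.Sup X (S : Set (Fin l → ℤ)) := by
  have h1 : RGD.Sup X (S : Set (Fin l → ℤ)) ≤ (RGD.Sup X (S : Set (Fin l → ℤ))).comap (MulAut.conj g).toMonoidHom := by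
    refine RGD.Sup_le fun z hz v hv => ?_
    have hz' := Finset.mem_coe.1 hz
    show g * v * g⁻¹ ∈ RGD.Sup X (S : Set (Fin l → ℤ))
    have h2 : g * v * g⁻¹ = ⁅g, v⁆ * v := by rw [commutatorElement_def]; group
    rw [h2]
    refine mul_mem ?_ (RGD.le_Sup hz hv)
    have hne : a ≠ z := fun e => by have := hzc z hz'; rw [← e] at this; omega
    have hne' : a ≠ -z := fun e => by
      have := hzc z hz'
      have h3 := congrFun e c
      rw [Pi.neg_apply, hac] at h3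
      omega
    have hzr : IsRoot cs h z := H.isRoot (hS z hz')
    refine (iSup_le ?_ : Nodes.Reps.btw cs h X a z ≤ RGD.Sup X (S : Set (Fin l → ℤ))) (R.comm a z ha hzr hne hne' g hg v hv)
    rintro ⟨z', hb⟩
    refine RGD.le_Sup (Finset.mem_coe.2 (hc z hz' z' ?_ (btw_of_btwn hb)))
    obtain ⟨hr, m, i, j, hm, hi, hj, he⟩ := hb
    rcases H.mem_of_root hr with h3 | h3
    · exact h3
    · exfalso
      have h4 := H.pos _ h3 c
      have h5 := congrFun he c
      simp only [Pi.zero_apply, Pi.neg_apply, Pi.add_apply, Pi.smul_apply, smul_eq_mul, hac, mul_zero, zero_add] at h4 h5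
      have h6 : 0 < j * z c := mul_pos hj (hzc z hz')
      have h7 : m * z' c ≤ 0 := by nlinarith
      omega
  exact h1 hy

end Cfsg.Agent.H400.Fpr
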