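import Mathlib
import Cfsg.Agent.H435.Fpr.Sharp

/-!
# Fixed point ratios of `p`-elements: coprime action on groups of class two (helper400, TEAM FPR)
-/

set_option autoImplicit false
set_option linter.unusedSectionVars false
open Subgroup MulAction
open scoped Pointwise commutatorElement

namespace Cfsg.Agent.H400.Fpr

open Cfsg.Agent.H398.FPR (CommFull UGood Pair)
open Cfsg.Agent.H435.Fpr (PairM T3M_uGood)

section Class2

variable {Y : Type*} [Group Y]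

/-- `W` is nilpotent of class at most two modulo the central subgroup `Z`. -/
structure C2 (Z W : Subgroup Y) : Prop where
  le : Z ≤ W
  cen : ∀ z ∈ Z, ∀ w ∈ W, z * w = w * z
  com : ∀ a ∈ W, ∀ b ∈ W, ⁅a, b⁆ ∈ Z

variable {Z W : Subgroup Y} {g : Y}

theorem C2.mono {W' : Subgroup Y} (h : C2 Z W) (h1 : Z ≤ W') (h2 : W' ≤ W) : C2 Z W' :=
  ⟨h1, fun z hz w hw => h.cen z hz w (h2 hw), fun a ha b hb => h.com a (h2 ha) b (h2 hb)⟩

theorem norm_iff {H : Subgroup Y} [Finite H] : g ∈ normalizer (H : Set Y) ↔ ∀ y ∈ H, g * y * g⁻¹ ∈ H := by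
  constructor
  · intro h y hy
    exact (mem_normalizer_iff.1 h y).1 hy
  · intro h
    rw [mem_normalizer_iff]
    intro y
    refine ⟨fun hy => h y hy, fun hy => ?_⟩
    let f : H → H := fun z => ⟨g * z * g⁻¹, h z z.2⟩
    have hf : Function.Injective f := by
      intro a b hab
      have h1 : g * (a : Y) * g⁻¹ = g * b * g⁻¹ := congrArg Subtype.val hab
      exact Subtype.ext (mul_left_cancel (mul_right_cancel h1))
    obtain ⟨z, hz⟩ := (Finite.injective_iff_surjective.1 hf) ⟨_, hy⟩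
    have h1 : g * (z : Y) * g⁻¹ = g * y * g⁻¹ := congrArg Subtype.val hz
    rw [← mul_left_cancel (mul_right_cancel h1)]
    exact z.2

theorem C2.mul_comm_mod (h : C2 Z W) {a b : Y} (ha : a ∈ W) (hb : b ∈ W) : ∃ z ∈ Z, a * b = z * (b * a) :=
  ⟨⁅a, b⁆, h.com a ha b hb, by rw [commutatorElement_def]; group⟩

/-- conjugation inside `W` does not change classes modulo `Z` -/
theorem C2.conj_mem (h : C2 Z W) {a w : Y} (ha : a ∈ W) (hw : w ∈ W) {V : Subgroup Y} (hV : Z ≤ V)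
    (haV : a ∈ V) : w * a * w⁻¹ ∈ V := by
  have h1 : w * a * w⁻¹ = ⁅w, a⁆ * a := by rw [commutatorElement_def]; group
  rw [h1]
  exact mul_mem (hV (h.com w hw a ha)) haV

/-- **Surjectivity.** A fixed point free element on `W/Z`. -/
theorem C2.surj [Finite Y] (h : C2 Z W) (hgW : ∀ y ∈ W, g * y * g⁻¹ ∈ W) (hgZ : ∀ y ∈ Z, g * y * g⁻¹ ∈ Z)
    (hf : ∀ w ∈ W, ⁅g, w⁆ ∈ Z → w ∈ Z) {u : Y} (hu : u ∈ W) : ∃ w ∈ W, ∃ z ∈ Z, ⁅g, w⁆ = z * u := by
  let Z' : Subgroup W := Z.subgroupOf W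
  have hmem : ∀ w : W, w ∈ Z' ↔ (w : Y) ∈ Z := fun w => mem_subgroupOf
  have hcomm : ∀ w ∈ W, ⁅g, w⁆ ∈ W := fun w hw => by
    rw [commutatorElement_def]
    exact mul_mem (hgW w hw) (inv_mem hw)
  have hmul : ∀ a ∈ W, ∀ b ∈ W, ∃ z ∈ Z, ⁅g, a * b⁆ = z * (⁅g, a⁆ * ⁅g, b⁆) := by
    intro a ha b hb
    obtain ⟨z, hz, hz'⟩ := h.mul_comm_mod ha (hcomm b hb)
    refine ⟨⁅g, a⁆ * z * ⁅g, a⁆⁻¹, ?_, ?_⟩
    · have h1 := h.cen z hz _ (hcomm a ha)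
      rw [← h1, mul_inv_cancel_right]
      exact hz
    · have h1 : ⁅g, a * b⁆ = ⁅g, a⁆ * (a * ⁅g, b⁆) * a⁻¹ := by
        simp only [commutatorElement_def]; group
      rw [h1, hz']
      group
  let f : W → W ⧸ Z' := fun w => QuotientGroup.mk ⟨⁅g, (w : Y)⁆, hcomm w w.2⟩
  have hfeq : ∀ a b : W, f a = f b ↔ (⁅g, (a : Y)⁆)⁻¹ * ⁅g, (b : Y)⁆ ∈ Z := by
    intro a b
    rw [QuotientGroup.eq, hmem]
    rfl
  have hkey : ∀ a b : W, (a : Y)⁻¹ * b ∈ Z ↔ f a = f b := by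
    intro a b
    rw [hfeq]
    obtain ⟨c, hc⟩ : ∃ c : W, b = a * c := ⟨a⁻¹ * b, by group⟩
    obtain ⟨z, hz, hz'⟩ := hmul a a.2 c c.2
    have h1 : (a : Y)⁻¹ * b = c := by rw [hc]; push_cast; group
    have h2 : (⁅g, (a : Y)⁆)⁻¹ * ⁅g, (b : Y)⁆ = z * ⁅g, (c : Y)⁆ := by
      rw [hc]
      push_cast
      rw [hz']
      have h3 := h.cen z hz _ (inv_mem (hcomm a a.2))
      rw [← mul_assoc, ← h3]
      group
    rw [h1, h2]
    constructor
    · intro h3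
      refine mul_mem hz ?_
      rw [commutatorElement_def]
      exact mul_mem (hgZ _ h3) (inv_mem h3)
    · intro h3
      apply hf c c.2
      have h4 := mul_mem (inv_mem hz) h3
      rwa [inv_mul_cancel_left] at h4
  let F : W ⧸ Z' → W ⧸ Z' := Quotient.lift f (by
    intro a b hab
    apply (hkey a b).1
    have h1 := QuotientGroup.leftRel_apply.1 hab
    exact (hmem _).1 h1)
  have hF : Function.Injective F := by
    intro a b
    refine QuotientGroup.induction_on a fun a => ?_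
    refine QuotientGroup.induction_on b fun b => ?_
    intro hab
    rw [QuotientGroup.eq, hmem]
    exact (hkey a b).2 hab
  obtain ⟨v, hv⟩ := (Finite.injective_iff_surjective.1 hF) (QuotientGroup.mk ⟨u, hu⟩)
  obtain ⟨w, rfl⟩ := QuotientGroup.mk_surjective v
  have h1 : f w = QuotientGroup.mk ⟨u, hu⟩ := hv
  have h2 := QuotientGroup.eq.1 h1.symm
  rw [hmem] at h2
  have h3 : u⁻¹ * ⁅g, (w : Y)⁆ ∈ Z := h2
  refine ⟨w, w.2, _, h3, ?_⟩
  have h4 := h.cen _ h3 u hu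
  rw [h4]
  group

/-- A fixed point free element is fixed point free modulo invariant subgroups. -/
theorem C2.free_sub [Finite Y] (h : C2 Z W) (hgZ : ∀ y ∈ Z, g * y * g⁻¹ ∈ Z)
    (hf : ∀ w ∈ W, ⁅g, w⁆ ∈ Z → w ∈ Z) {V : Subgroup Y} (hZV : Z ≤ V) (hVW : V ≤ W)
    (hgV : ∀ y ∈ V, g * y * g⁻¹ ∈ V) {w : Y} (hw : w ∈ W) (hwV : ⁅g, w⁆ ∈ V) : w ∈ V := by
  obtain ⟨v, hv, z, hz, hvz⟩ := (h.mono hZV hVW).surj hgV hgZ (fun y hy => hf y (hVW hy)) hwV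
  have h1 : w * v⁻¹ ∈ Z := by
    apply hf _ (mul_mem hw (inv_mem (hVW hv)))
    -- `⁅g, w v⁻¹⁆ = ⁅g, w⁆ w ⁅g, v⁻¹⁆ w⁻¹`
    have h2 : ⁅g, w * v⁻¹⁆ = ⁅g, w⁆ * ((w * v⁻¹) * (⁅g, v⁆)⁻¹ * (w * v⁻¹)⁻¹) := by
      simp only [commutatorElement_def]; group
    rw [h2, hvz]
    set c := ⁅g, w⁆
    set d := w * v⁻¹ with hd
    have hdW : d ∈ W := mul_mem hw (inv_mem (hVW hv))
    have hcW : c ∈ W := hVW hwV
    have h3 : c * (d * (z * c)⁻¹ * d⁻¹) = ⁅c, d⁆ * (d * z⁻¹ * d⁻¹) := by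
      have h4 : (z * c)⁻¹ = c⁻¹ * z⁻¹ := mul_inv_rev _ _
      rw [h4, commutatorElement_def]
      group
    rw [h3]
    refine mul_mem (h.com c hcW d hdW) ?_
    have h4 := h.cen z⁻¹ (inv_mem hz) d hdW
    rw [← h4, mul_inv_cancel_right]
    exact inv_mem hz
  have h2 := mul_mem (hZV h1) hv
  rwa [inv_mul_cancel_right] at h2

/-- `[R, g] = R`. -/
theorem C2.commFull [Finite Y] (h : C2 Z W) (hgW : ∀ y ∈ W, g * y * g⁻¹ ∈ W) (hgZ : ∀ y ∈ Z, g * y * g⁻¹ ∈ Z)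
    (hf : ∀ w ∈ W, ⁅g, w⁆ ∈ Z → w ∈ Z) (hZ : ∀ V : Subgroup Y, V ≤ W → (∀ w ∈ W, ∃ v ∈ V, ∃ z ∈ Z, v = z * w) →
      Z ≤ V) : CommFull W g := by
  intro V hV hc
  have h1 : ∀ w ∈ W, ∃ v ∈ V, ∃ z ∈ Z, v = z * w := by
    intro w hw
    obtain ⟨u, hu, z, hz, huz⟩ := h.surj hgW hgZ hf hw
    exact ⟨_, hc u hu, z, hz, by rw [← huz, commutatorElement_def]⟩
  have h2 := hZ V hV.le h1
  apply absurd hV
  rw [lt_iff_le_not_ge, not_and, not_not]
  intro _ w hw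
  obtain ⟨v, hv, z, hz, rfl⟩ := h1 w hw
  have h3 := mul_mem (inv_mem (h2 hz)) hv
  rwa [inv_mul_cancel_left] at h3

end Class2

end Cfsg.Agent.H400.Fpr
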