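import Cfsg.Agent.H400.FprNat
import Mathlib.LinearAlgebra.Matrix.Adjugate

/-!
# Fixed point ratios of `p`-elements: `A S Aᵀ = S` (helper400, TEAM FPR)
-/

set_option autoImplicit false
set_option linter.unusedSectionVars false
set_option linter.unusedVariables false
open scoped MatrixGroups

namespace Cfsg.Agent.H400.Fpr

variable {K : Type*} [Field K]

/-- the trace identity -/
theorem det_sub_one (A : Matrix (Fin 3) (Fin 3) K) (h : A.trace = A.adjugate.trace) (hd : A.det = 1) :
    (A - 1).det = 0 := by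
  have e1 : (A - 1).det = A.det - A.adjugate.trace + A.trace - 1 := by
    rw [Matrix.det_fin_three, Matrix.det_fin_three, Matrix.adjugate_fin_three, Matrix.trace_fin_three,
      Matrix.trace_fin_three]
    simp
    ring
  rw [e1, h, hd]
  ring

theorem no_bil_det {A : Matrix.SpecialLinearGroup (Fin 3) K} (hA : ∀ v : Fin 3 → K, A.1.mulVec v = v → v = 0)
    {S : Matrix (Fin 3) (Fin 3) K} (hS : A.1 * S * A.1.transpose = S) : S.det = 0 := by
  by_contra h0
  have hu : IsUnit S.det := isUnit_iff_ne_zero.2 h0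
  have h1 : (A.1 - 1).det = 0 := by
    apply det_sub_one _ _ A.2
    have e1 : A.1 = S * A.1.transpose.adjugate * S⁻¹ := by
      have e2 : A.1.transpose * A.1.transpose.adjugate = 1 := by
        rw [Matrix.mul_adjugate, Matrix.det_transpose, A.2, one_smul]
      calc A.1 = A.1 * (S * (A.1.transpose * A.1.transpose.adjugate)) * S⁻¹ := by
            rw [e2, mul_one, mul_assoc, Matrix.mul_nonsing_inv _ hu, mul_one]
        _ = (A.1 * S * A.1.transpose) * A.1.transpose.adjugate * S⁻¹ := by simp only [mul_assoc]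
        _ = _ := by rw [hS]
    conv_lhs => rw [e1]
    rw [Matrix.trace_mul_comm, ← mul_assoc, Matrix.nonsing_inv_mul _ hu, one_mul, ← Matrix.adjugate_transpose,
      Matrix.trace_transpose]
  obtain ⟨v, hv, hv'⟩ := Matrix.exists_mulVec_eq_zero_iff.2 h1
  apply hv
  apply hA
  rw [Matrix.sub_mulVec, Matrix.one_mulVec, sub_eq_zero] at hv'
  exact hv'

/-- invariant subspaces of elements of prime order -/
theorem no_inv [Finite K] {n : ℕ} {ℓ : ℕ} (hℓ : ℓ.Prime) {A : Matrix.SpecialLinearGroup (Fin n) K} (hAℓ : A ^ ℓ = 1)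
    (hA : ∀ v : Fin n → K, A.1.mulVec v = v → v = 0) (U : Submodule K (Fin n → K))
    (hU : ∀ u ∈ U, A.1.mulVec u ∈ U) : ℓ ∣ Nat.card K ^ (Module.finrank K U) - 1 := by
  classical
  have : Fact ℓ.Prime := ⟨hℓ⟩
  have hfin : Fintype U := Fintype.ofFinite U
  let f : Function.End U := fun u => ⟨A.1.mulVec u.1, hU _ u.2⟩
  have hfi : ∀ (i : ℕ) (u : U), ((f ^ i : Function.End U) u).1 = (A ^ i).1.mulVec u.1 := by
    intro i
    induction i with
    | zero => intro u; rw [pow_zero, pow_zero]; exact (Matrix.one_mulVec _).symm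
    | succ i ih =>
      intro u
      rw [pow_succ, pow_succ]
      show ((f ^ i : Function.End U) (f u)).1 = ((A ^ i).1 * A.1).mulVec u.1
      rw [ih, ← Matrix.mulVec_mulVec]
  have hf : f ^ ℓ ^ 1 = 1 := by
    funext u
    apply Subtype.ext
    rw [hfi, pow_one, hAℓ]
    exact Matrix.one_mulVec _
  have h1 := Equiv.Perm.card_fixedPoints_modEq (α := U) (f := f) (p := ℓ) (n := 1) hf
  have h2 : Fintype.card (Function.fixedPoints f) = 1 := by
    rw [Fintype.card_eq_one_iff]
    refine ⟨⟨0, ?_⟩, ?_⟩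
    · show f 0 = 0
      apply Subtype.ext
      exact (Matrix.mulVec_zero A.1 : A.1.mulVec (0 : Fin n → K) = 0)
    · rintro ⟨u, hu⟩
      apply Subtype.ext
      apply Subtype.ext
      exact hA _ (congrArg Subtype.val (show f u = u from hu))
  rw [← Nat.card_eq_fintype_card, ← Nat.card_eq_fintype_card, Module.natCard_eq_pow_finrank (K := K) (V := U)] at h1
  rw [← Nat.card_eq_fintype_card] at h2
  rw [h2] at h1
  have h3 : 1 ≤ Nat.card K ^ Module.finrank K U := Nat.one_le_pow _ _ Nat.card_pos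
  exact (Nat.modEq_iff_dvd' h3).1 h1.symm

/-- **`A S Aᵀ = S` implies `S = 0`.** -/
theorem no_bil [Finite K] {ℓ : ℕ} (hℓ : ℓ.Prime) {A : Matrix.SpecialLinearGroup (Fin 3) K} (hAℓ : A ^ ℓ = 1)
    (hA : ∀ v : Fin 3 → K, A.1.mulVec v = v → v = 0) (h1 : ¬ ℓ ∣ Nat.card K - 1) (h2 : ¬ ℓ ∣ Nat.card K ^ 2 - 1)
    {S : Matrix (Fin 3) (Fin 3) K} (hS : A.1 * S * A.1.transpose = S) : S = 0 := by
  classical
  have hdet := no_bil_det hA hS
  let U : Submodule K (Fin 3 → K) := LinearMap.range (Matrix.mulVecLin S)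
  have hmem : ∀ v, v ∈ U ↔ ∃ w, S.mulVec w = v := fun v => LinearMap.mem_range
  have hU : ∀ u ∈ U, A.1.mulVec u ∈ U := by
    intro u hu
    obtain ⟨w, rfl⟩ := (hmem u).1 hu
    refine (hmem _).2 ⟨(A.1.transpose.adjugate).mulVec w, ?_⟩
    rw [Matrix.mulVec_mulVec, Matrix.mulVec_mulVec]
    congr 1
    have e2 : A.1.transpose * A.1.transpose.adjugate = 1 := by
      rw [Matrix.mul_adjugate, Matrix.det_transpose, A.2, one_smul]
    conv_lhs => rw [← hS]
    rw [mul_assoc, e2, mul_one]
  have h3 := no_inv hℓ hAℓ hA U hU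
  have hle : Module.finrank K U ≤ 3 := by
    have := Submodule.finrank_le U
    rwa [Module.finrank_fin_fun] at this
  have hlt : Module.finrank K U ≠ 3 := by
    intro h
    have h4 : U = ⊤ := Submodule.eq_top_of_finrank_eq (by rw [h, Module.finrank_fin_fun])
    obtain ⟨v, hv, hv'⟩ := Matrix.exists_vecMul_eq_zero_iff.2 hdet
    apply hv
    funext i
    have h5 : Pi.single i (1 : K) ∈ U := by rw [h4]; trivial
    obtain ⟨w, hw⟩ := (hmem _).1 h5
    have h6 : dotProduct v (S.mulVec w) = 0 := by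
      rw [Matrix.dotProduct_mulVec, hv', zero_dotProduct]
    rw [hw, dotProduct_single, mul_one] at h6
    exact h6
  have h0 : Module.finrank K U = 0 := by
    have h4 : Module.finrank K U ≠ 1 := fun h => h1 (by rwa [h, pow_one] at h3)
    have h5 : Module.finrank K U ≠ 2 := fun h => h2 (by rwa [h] at h3)
    omega
  have h4 : U = ⊥ := Submodule.finrank_eq_zero.1 h0
  refine Matrix.ext_of_mulVec_single fun i => ?_
  have h5 : S.mulVec (Pi.single i 1) ∈ U := (hmem _).2 ⟨_, rfl⟩
  rw [h4, Submodule.mem_bot] at h5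
  rw [h5, Matrix.zero_mulVec]

end Cfsg.Agent.H400.Fpr
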