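import Cfsg.Agent.H400.FprCop
import Mathlib.GroupTheory.FiniteAbelian.Duality

/-!
# Fixed point ratios of `p`-elements: isotropic subgroups of Heisenberg groups (helper400, TEAM FPR)

`card_iso` : `Z ≤ A ≤ R`, `[A, A] ≤ S` and `Z ≰ S` imply `|A| ^ 2 ≤ |R| |Z|`.
-/

set_option autoImplicit false
set_option linter.unusedSectionVars false
open Subgroup MulAction
open scoped Pointwise commutatorElement

namespace Cfsg.Agent.H400.Fpr

variable {Y : Type*} [Group Y]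

/-- a character of `Z` trivial on `Z ∩ S` -/
theorem exists_char [Finite Y] {Z S : Subgroup Y} (hZ : ∀ a ∈ Z, ∀ b ∈ Z, a * b = b * a) (hS : ¬ Z ≤ S) :
    ∃ χ : Z →* ℂ, (∀ z : Z, (z : Y) ∈ S → χ z = 1) ∧ ∃ z : Z, χ z ≠ 1 := by
  classical
  let i1 : CommGroup Z := { (inferInstance : Group Z) with
    mul_comm := fun a b => Subtype.ext (hZ a a.2 b b.2) }
  let N : Subgroup Z := S.subgroupOf Z
  obtain ⟨z, hz, hzS⟩ := SetLike.not_le_iff_exists.1 hS
  have hne : ((⟨z, hz⟩ : Z) : Z ⧸ N) ≠ 1 := by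
    intro h
    rw [QuotientGroup.eq_one_iff] at h
    exact hzS h
  have : NeZero (Monoid.exponent (Z ⧸ N)) := ⟨Monoid.exponent_ne_zero_of_finite⟩
  obtain ⟨φ, hφ⟩ := CommGroup.exists_apply_ne_one_of_hasEnoughRootsOfUnity (Z ⧸ N) ℂ hne
  refine ⟨(Units.coeHom ℂ).comp (φ.comp (QuotientGroup.mk' N)), ?_, ⟨z, hz⟩, ?_⟩
  · intro w hw
    have h1 : QuotientGroup.mk' N w = 1 := by
      rw [QuotientGroup.mk'_apply, QuotientGroup.eq_one_iff]
      exact hw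
    show ((φ (QuotientGroup.mk' N w) : ℂˣ) : ℂ) = 1
    rw [h1, map_one, Units.val_one]
  · intro h
    apply hφ
    exact Units.ext h

theorem C2.lin {Z R : Subgroup Y} (H : C2 Z R) {a b c : Y} (ha : a ∈ R) (hb : b ∈ R) (hc : c ∈ R) :
    ⁅c, a * b⁆ = ⁅c, a⁆ * ⁅c, b⁆ := by
  have h1 : ⁅c, a * b⁆ = ⁅c, a⁆ * (a * ⁅c, b⁆ * a⁻¹) := by
    simp only [commutatorElement_def]; group
  have h2 := H.cen _ (H.com c hc b hb) a ha
  rw [h1, ← h2, mul_inv_cancel_right]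

theorem C2.lin' {Z R : Subgroup Y} (H : C2 Z R) {a b c : Y} (ha : a ∈ R) (hb : b ∈ R) (hc : c ∈ R) :
    ⁅a * b, c⁆ = ⁅a, c⁆ * ⁅b, c⁆ := by
  have h1 : ⁅a * b, c⁆ = a * ⁅b, c⁆ * a⁻¹ * ⁅a, c⁆ := by
    simp only [commutatorElement_def]; group
  have h2 := H.cen _ (H.com b hb c hc) a ha
  have h3 := H.cen _ (H.com b hb c hc) _ (H.le (H.com a ha c hc))
  rw [h1, ← h2, mul_inv_cancel_right, h3]

/-- **Isotropic subgroups.** -/
theorem card_iso [Finite Y] {Z R A S : Subgroup Y} (H : C2 Z R) (hZA : Z ≤ A) (hAR : A ≤ R)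
    (hA : ∀ a ∈ A, ∀ b ∈ A, ⁅a, b⁆ ∈ S) (hS : ¬ Z ≤ S)
    (sur : ∀ a ∈ R, a ∉ Z → ∀ z ∈ Z, ∃ b ∈ R, ⁅a, b⁆ = z) :
    Nat.card A * Nat.card A ≤ Nat.card R * Nat.card Z := by
  classical
  obtain ⟨χ, hχS, z0, hz0⟩ := exists_char (fun a ha b hb => H.cen a ha b (H.le hb)) hS
  let N : Subgroup R := A.subgroupOf R
  have hN : N.Normal := by
    constructor
    intro a ha g
    rw [mem_subgroupOf] at ha ⊢
    exact H.conj_mem (hAR ha) g.2 hZA ha
  let F : A → R →* ℂ := fun a =>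
    { toFun := fun b => χ ⟨⁅(a : Y), (b : Y)⁆, H.com a (hAR a.2) b b.2⟩
      map_one' := by
        have : (⟨⁅(a : Y), ((1 : R) : Y)⁆, H.com a (hAR a.2) _ (1 : R).2⟩ : Z) = 1 :=
          Subtype.ext (by simp)
        rw [this, map_one]
      map_mul' := fun b c => by
        rw [← map_mul]
        congr 1
        exact Subtype.ext (H.lin b.2 c.2 (hAR a.2)) }
  have hFN : ∀ a : A, N ≤ ((F a)).ker := by
    intro a b hb
    rw [MonoidHom.mem_ker]
    exact hχS _ (hA a a.2 b hb)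
  let G : A → (R ⧸ N) →* ℂ := fun a => QuotientGroup.lift N (F a) (hFN a)
  have hGinj : ∀ a b : A, G a = G b → (b : Y)⁻¹ * a ∈ Z := by
    intro a b hab
    by_contra hcon
    obtain ⟨c, hc, hcz⟩ := sur _ (mul_mem (inv_mem (hAR b.2)) (hAR a.2)) hcon z0 z0.2
    apply hz0
    have h1 : G a ((⟨c, hc⟩ : R) : R ⧸ N) = G b ((⟨c, hc⟩ : R) : R ⧸ N) := by rw [hab]
    have h2 : χ ⟨⁅(a : Y), c⁆, H.com a (hAR a.2) c hc⟩ = χ ⟨⁅(b : Y), c⁆, H.com b (hAR b.2) c hc⟩ := h1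
    have h3 : (⟨⁅(a : Y), c⁆, H.com a (hAR a.2) c hc⟩ : Z) =
        (⟨⁅(b : Y), c⁆, H.com b (hAR b.2) c hc⟩ : Z) * z0 := by
      apply Subtype.ext
      show ⁅(a : Y), c⁆ = ⁅(b : Y), c⁆ * (z0 : Y)
      rw [← hcz, ← H.lin' (hAR b.2) (mul_mem (inv_mem (hAR b.2)) (hAR a.2)) hc, mul_inv_cancel_left]
    rw [h3, map_mul] at h2
    have h4 : χ ⟨⁅(b : Y), c⁆, H.com b (hAR b.2) c hc⟩ ≠ 0 := by
      intro h5
      have h6 : χ ⟨⁅(b : Y), c⁆, H.com b (hAR b.2) c hc⟩ *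
          χ (⟨⁅(b : Y), c⁆, H.com b (hAR b.2) c hc⟩ : Z)⁻¹ = 1 := by
        rw [← map_mul, mul_inv_cancel, map_one]
      rw [h5, zero_mul] at h6
      exact zero_ne_one h6
    exact mul_left_cancel₀ h4 (h2.trans (mul_one _).symm)
  -- the count
  let Z' : Subgroup A := Z.subgroupOf A
  have hinj : Function.Injective fun t : A ⧸ Z' => G t.out := by
    intro s t hst
    have h1 := hGinj _ _ hst.symm
    rw [← QuotientGroup.out_eq' s, ← QuotientGroup.out_eq' t, QuotientGroup.eq]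
    exact h1
  have hli := (linearIndependent_monoidHom (R ⧸ N) ℂ).comp _ hinj
  have := Fintype.ofFinite (A ⧸ Z')
  have := Fintype.ofFinite (R ⧸ N)
  have h1 := hli.fintype_card_le_finrank
  rw [Module.finrank_fintype_fun_eq_card, ← Nat.card_eq_fintype_card, ← Nat.card_eq_fintype_card] at h1
  have h2 : Nat.card A = Nat.card (A ⧸ Z') * Nat.card Z := by
    rw [Subgroup.card_eq_card_quotient_mul_card_subgroup Z', Nat.card_congr (subgroupOfEquivOfLe hZA).toEquiv]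
  have h3 : Nat.card R = Nat.card (R ⧸ N) * Nat.card A := by
    rw [Subgroup.card_eq_card_quotient_mul_card_subgroup N, Nat.card_congr (subgroupOfEquivOfLe hAR).toEquiv]
  calc Nat.card A * Nat.card A = Nat.card (A ⧸ Z') * Nat.card Z * Nat.card A := by rw [← h2]
    _ ≤ Nat.card (R ⧸ N) * Nat.card Z * Nat.card A := by gcongr
    _ = Nat.card R * Nat.card Z := by rw [h3]; ring

end Cfsg.Agent.H400.Fpr
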