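import Cfsg.Agent.H400.FprRgd
import Cfsg.Agent.H398.FPR.HeisOne

/-!
# Fixed point ratios of `p`-elements: elements of the torus of a long root subgroup (helper400, TEAM FPR)

`x ∈ ⟨X r, X (-r)⟩` acting without fixed points on the Heisenberg groups `Q_{± r}` (`e = 1`).
-/

set_option autoImplicit false
set_option linter.unusedSectionVars false
set_option linter.unusedVariables false

namespace Cfsg.Agent.H400.Fpr

open CoxeterSystem Cfsg.Agent.ChevalleyStructure.CoxeterGeom Cfsg.Agent.Tits.Roots Cfsg.Agent.Tits.Core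
  Cfsg.Agent.Tits.Exchange Cfsg.Agent.Nodes.Reps Cfsg.Agent.Nodes.BNOf Cfsg.Agent.Nodes.StabComb
  Cfsg.Agent.Nodes.Bruhat Cfsg.Agent.Nodes.OppDec Cfsg.Agent.Nodes.PosPair Cfsg.Agent.Nodes.Coroot
  Cfsg.Agent.KFacts.RgdPar Cfsg.Agent.KFacts.RgdSL Cfsg.Agent.KFacts.RgdTI Cfsg.Agent.Nodes.LeviDec
open Cfsg.Agent.H400.TwoExc
open Cfsg.Agent.H398.FPR (CommFull UGood Pair FreeOn heis_uGood)
open Cfsg.Agent.H435.Fpr (PairM)
open scoped commutatorElement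

variable {I W Y : Type*} [Fintype I] [DecidableEq I] [Group W] [Group Y] {M : CoxeterMatrix I}
  {cs : CoxeterSystem M W} {A : I → I → ℤ} {h : IsCartan M A} {p : ℕ} {T : Subgroup Y} {n : I → Y}
  {X : (I → ℤ) → Subgroup Y}

/-- an element of `⟨X r, z⟩`, `1 ≠ z ∈ X (-r)`, inducing the reflection -/
theorem exists_refl_elt (R : RGD cs h p T n X) [Finite W] {r : I → ℤ} (hr : IsRoot cs h r) {z : Y}
    (hz : z ∈ X (-r)) (hz1 : z ≠ 1) :
    ∃ m ∈ X r ⊔ Subgroup.zpowers z, ∀ s, IsRoot cs h s → cj m (X s) = X (s - cpr cs h s r • r) := by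
  obtain ⟨w, i, rfl⟩ := hr
  obtain ⟨g, hg⟩ := exists_rp cs R.nsys w
  have hsr := isRoot_sr cs h i
  have hz' : g⁻¹ * z * g ∈ X (-sr i) := by
    have h1 : cj g (X (-sr i)) = X (-rep cs h w (sr i)) := by
      have := R.conj_rp hg hsr.neg
      rw [map_neg] at this
      exact this
    rw [← h1] at hz
    obtain ⟨y, hy, rfl⟩ := hz
    have h2 : g⁻¹ * (MulAut.conj g).toMonoidHom y * g = y := by
      show g⁻¹ * (g * y * g⁻¹) * g = y
      group
    rwa [h2]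
  obtain ⟨a, ha, t, ht, b, hb, e⟩ := R.rk1 i _ hz' (fun h0 => hz1 (by
    have h1 : z = g * (g⁻¹ * z * g) * g⁻¹ := by group
    rw [h1, h0]; group))
  have hX : cj g (X (sr i)) = X (rep cs h w (sr i)) := R.conj_rp hg hsr
  refine ⟨g * (t * n i) * g⁻¹, ?_, ?_⟩
  · have h1 : g * (t * n i) * g⁻¹ = (g * a⁻¹ * g⁻¹) * z * (g * b⁻¹ * g⁻¹) := by
      have h2 : t * n i = a⁻¹ * (g⁻¹ * z * g) * b⁻¹ := by rw [e]; group
      rw [h2]; group
    rw [h1]
    refine mul_mem (mul_mem (Subgroup.mem_sup_left ?_) (Subgroup.mem_sup_right (Subgroup.mem_zpowers z)))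
      (Subgroup.mem_sup_left ?_)
    · rw [← hX]; exact conj_mem_cj.2 (inv_mem ha)
    · rw [← hX]; exact conj_mem_cj.2 (inv_mem hb)
  · intro z hz
    have h2 : cj g⁻¹ (X z) = X (rep cs h w⁻¹ z) := R.conj_rp hg.inv hz
    rw [cj_mul, cj_mul, h2, cj_mul, R.conj i _ (hz.act _), R.tor _ ((hz.act _).act _) t ht,
      R.conj_rp hg ((hz.act _).act _)]
    congr 1
    have h3 := rep_rfl'_eq cs h w i z
    rw [← h3]
    unfold Cfsg.Agent.Nodes.SubComb.rfl'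
    rw [rep_mul_apply, rep_mul_apply]

theorem Hs.act {R : RGD cs h p T n X} {r : I → ℤ} [Finite W] (H : Hs R r) (w : W) : Hs R (rep cs h w r) := by
  have hr := H.L.root
  obtain ⟨g, hg⟩ := exists_rp cs R.nsys w
  have hback : ∀ s : I → ℤ, IsRoot cs h s → ∀ u ∈ X s, g⁻¹ * u * g ∈ X (rep cs h w⁻¹ s) := by
    intro s hs u hu
    have := R.conj_mem hg.inv hs hu
    rwa [inv_inv] at this
  have hrr : rep cs h w⁻¹ (rep cs h w r) = r := by
    rw [← rep_mul_apply, inv_mul_cancel, map_one, Module.End.one_apply]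
  have hww : ∀ s : I → ℤ, rep cs h w (rep cs h w⁻¹ s) = s := by
    intro s
    rw [← rep_mul_apply, mul_inv_cancel, map_one, Module.End.one_apply]
  have hGt : ∀ s, s ∈ Gt cs h (rep cs h w r) → rep cs h w⁻¹ s ∈ Gt cs h r := by
    intro s hs
    refine ⟨hs.1.act _, ?_⟩
    have h1 := hs.2
    rwa [← hww s, cpr_rep cs h w _ hr] at h1
  have hGt' : ∀ s, s ∈ Gt cs h r → rep cs h w s ∈ Gt cs h (rep cs h w r) := by
    intro s hs
    refine ⟨hs.1.act _, ?_⟩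
    rw [cpr_rep cs h w _ hr]
    exact hs.2
  have hne : ∀ s, s ≠ rep cs h w r → rep cs h w⁻¹ s ≠ r := by
    intro s hs h1
    apply hs
    rw [← h1, hww]
  have hsub : ∀ s, rep cs h w⁻¹ (rep cs h w r - s) = r - rep cs h w⁻¹ s := by
    intro s
    rw [map_sub, hrr]
  refine ⟨H.L.act w, ?_, ?_, ?_, ?_⟩
  · intro s hs hsr
    have h1 := hGt' _ (H.sub _ (hGt s hs) (hne s hsr))
    rwa [map_sub, hww] at h1
  · intro s hs t ht hsr htr hst u hu v hv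
    have h1 := H.com _ (hGt s hs) _ (hGt t ht) (hne s hsr) (hne t htr) (by
      rw [← map_add]
      exact hne _ hst) _ (hback s hs.1 u hu) _ (hback t ht.1 v hv)
    calc u * v = g * ((g⁻¹ * u * g) * (g⁻¹ * v * g)) * g⁻¹ := by group
      _ = g * ((g⁻¹ * v * g) * (g⁻¹ * u * g)) * g⁻¹ := by rw [h1]
      _ = v * u := by group
  · intro s hs hsr u hu v hv
    have hv' := hback _ ((by
      have h1 := hGt' _ (H.sub _ (hGt s hs) (hne s hsr))
      rw [map_sub, hww] at h1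
      exact h1.1 : IsRoot cs h (rep cs h w r - s))) v hv
    rw [hsub] at hv'
    have h1 := H.cen _ (hGt s hs) (hne s hsr) _ (hback s hs.1 u hu) _ hv'
    have h2 := R.conj_mem hg hr h1
    have h3 : g * ⁅g⁻¹ * u * g, g⁻¹ * v * g⁆ * g⁻¹ = ⁅u, v⁆ := by
      simp only [commutatorElement_def]; group
    rwa [h3] at h2
  · intro s hs hsr u hu hu1 x hx
    have hx' := hback _ (hr.act w) x hx
    rw [hrr] at hx'
    obtain ⟨v, hv, hvx⟩ := H.sur _ (hGt s hs) (hne s hsr) _ (hback s hs.1 u hu) (fun h0 => hu1 (by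
      have h1 : u = g * (g⁻¹ * u * g) * g⁻¹ := by group
      rw [h1, h0]; group)) _ hx'
    have h1 := H.sub _ (hGt s hs) (hne s hsr)
    have h2 := R.conj_mem hg h1.1 hv
    rw [map_sub, hww] at h2
    refine ⟨_, h2, ?_⟩
    have h3 : ⁅u, g * v * g⁻¹⁆ = g * ⁅g⁻¹ * u * g, v⁆ * g⁻¹ := by
      simp only [commutatorElement_def]; group
    rw [h3, hvx]
    group

theorem Hs.neg {R : RGD cs h p T n X} {r : I → ℤ} [Finite W] (H : Hs R r) : Hs R (-r) := by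
  have hr := H.L.root
  obtain ⟨w, hw⟩ : ∃ w : W, rep cs h w r = -r := by
    obtain ⟨v, i, rfl⟩ := hr
    refine ⟨Cfsg.Agent.Nodes.SubComb.rfl' cs v i, ?_⟩
    rw [rep_rfl'_eq, cpr_self cs h ((isRoot_sr cs h i).act v)]
    rw [two_smul]; abel
  rw [← hw]
  exact Hs.act H w

theorem C2.cc {Z Q : Subgroup Y} (H : C2 Z Q) (m : Y) : C2 (cc m Z) (Fpr.cc m Q) := by
  refine ⟨cc_mono H.le, ?_, ?_⟩
  · rintro _ ⟨z, hz, rfl⟩ _ ⟨g, hg, rfl⟩
    rw [← map_mul, ← map_mul, H.cen z hz g hg]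
  · rintro _ ⟨a, ha, rfl⟩ _ ⟨b, hb, rfl⟩
    exact ⟨_, H.com a ha b hb, by rw [map_commutatorElement]⟩

/-- `Q_r` and `Q_{-r}` generate. -/
theorem sup_QQ_eq_top {R : RGD cs h p T n X} {r : I → ℤ} [Finite W] [Finite Y] (H : Hs R r)
    (hs : IsSimpleGroup Y) (hG1 : Cfsg.Agent.Nodes.RGDLib.G1 cs h X = ⊤) :
    QQ cs h X r ⊔ QQ cs h X (-r) = ⊤ := by
  have hr := H.L.root
  obtain ⟨m, hm, hmX⟩ := exists_refl R hr
  have hcjQ := cj_QQ (R := R) hr hmX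
  have hX2 : ∀ s, IsRoot cs h s → s ∈ Gt cs h r ∨ cpr cs h s r = 0 ∨ s ∈ Gt cs h (-r) := by
    intro s hs
    rcases lt_trichotomy (cpr cs h s r) 0 with h0 | h0 | h0
    · exact Or.inr (Or.inr ⟨hs, by rw [cpr_neg_right cs h _ hr]; omega⟩)
    · exact Or.inr (Or.inl h0)
    · exact Or.inl ⟨hs, h0⟩
  rw [← hcjQ]
  set K := QQ cs h X r ⊔ cj m (QQ cs h X r) with hK
  have hnorm : K.Normal := by
    have h1 : Cfsg.Agent.Nodes.RGDLib.G1 cs h X ≤ Subgroup.normalizer (K : Set Y) := by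
      refine RGD.Sup_le fun s hs => ?_
      rcases hX2 s hs with h0 | h0 | h0
      · exact ((H.X_le h0).trans le_sup_left).trans Subgroup.le_normalizer
      · intro a ha
        have haL : a ∈ L0 cs h X r := RGD.le_Sup (S := {s | IsRoot cs h s ∧ cpr cs h s r = 0}) ⟨hs, h0⟩ ha
        have ham : a * m = m * a := L0_comm H haL hm
        have h2 := L0_norm H haL
        refine norm_iff.2 ?_
        have h3 : K ≤ K.comap (MulAut.conj a).toMonoidHom := by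
          refine sup_le (fun y hy => Subgroup.mem_sup_left (h2 y hy)) ?_
          rintro _ ⟨y, hy, rfl⟩
          show a * (m * y * m⁻¹) * a⁻¹ ∈ K
          have h4 : a * (m * y * m⁻¹) * a⁻¹ = m * (a * y * a⁻¹) * m⁻¹ := by
            calc a * (m * y * m⁻¹) * a⁻¹ = (a * m) * y * (a * m)⁻¹ := by group
              _ = (m * a) * y * (m * a)⁻¹ := by rw [ham]
              _ = _ := by group
          rw [h4]
          exact Subgroup.mem_sup_right (conj_mem_cj.2 (h2 y hy))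
        exact fun y hy => h3 hy
      · have h1 : X s ≤ cj m (QQ cs h X r) := by
          rw [hcjQ]
          exact RGD.le_Sup h0
        exact (h1.trans le_sup_right).trans Subgroup.le_normalizer
    rw [hG1, top_le_iff] at h1
    exact Subgroup.normalizer_eq_top_iff.1 h1
  rcases hs.eq_bot_or_eq_top_of_normal K hnorm with h1 | h1
  · exfalso
    have h2 : X r ≤ K := H.X_le_QQ.trans le_sup_left
    rw [h1, le_bot_iff] at h2
    exact X_ne_bot R hr h2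
  · exact h1

/-- fixed point free action on `Q` from the root groups -/
theorem freeOn_of_roots {R : RGD cs h p T n X} [Finite W] [Finite Y] {r : I → ℤ}
    (hc : C2 (X r) (QQ cs h X r)) (hr : r ∈ Gt cs h r) {x : Y}
    (nor : ∀ s ∈ Gt cs h r, ∀ u ∈ X s, x * u * x⁻¹ ∈ X s)
    (fr : ∀ s ∈ Gt cs h r, ∀ u ∈ X s, x * u * x⁻¹ = u → u = 1) : FreeOn x (QQ cs h X r) := by
  have hQ : ∀ y ∈ QQ cs h X r, x * y * x⁻¹ ∈ QQ cs h X r := by
    have h1 : QQ cs h X r ≤ (QQ cs h X r).comap (MulAut.conj x).toMonoidHom :=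
      RGD.Sup_le fun t ht v hv => RGD.le_Sup (S := Gt cs h r) ht (nor t ht v hv)
    exact fun y hy => h1 hy
  have hZ : ∀ y ∈ X r, x * y * x⁻¹ ∈ X r := nor r hr
  have hsur : ∀ s ∈ Gt cs h r, ∀ u ∈ X s, ∃ u' ∈ X s, ⁅x, u'⁆ = u := by
    intro s hs
    let L : X s → X s := fun u => ⟨⁅x, (u : Y)⁆, by
      rw [commutatorElement_def]; exact mul_mem (nor s hs u u.2) (inv_mem u.2)⟩
    have hinj : Function.Injective L := by
      intro a b hab
      have h1 : ⁅x, (a : Y)⁆ = ⁅x, (b : Y)⁆ := congrArg Subtype.val hab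
      rw [commutatorElement_def, commutatorElement_def] at h1
      have h2 := fr s hs _ (mul_mem (inv_mem b.2) a.2) (by
        have h3 : x * ((b : Y)⁻¹ * a) * x⁻¹ = (x * b * x⁻¹)⁻¹ * (x * a * x⁻¹ * (a : Y)⁻¹) * a := by group
        rw [h3, h1]; group)
      exact Subtype.ext (inv_mul_eq_one.1 h2).symm
    intro u hu
    obtain ⟨v, hv⟩ := (Finite.injective_iff_surjective.1 hinj) ⟨u, hu⟩
    exact ⟨v, v.2, congrArg Subtype.val hv⟩
  have key := free_of_surj hc hQ hZ (fun s : {s // s ∈ Gt cs h r} => X s.1)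
    (fun s => RGD.le_Sup (S := Gt cs h r) s.2) (RGD.Sup_le fun s hs =>
      (le_iSup (fun s : {s // s ∈ Gt cs h r} => X s.1) ⟨s, hs⟩).trans le_sup_right) (by
      rintro ⟨s, hs⟩ u hu
      obtain ⟨u', hu', h1⟩ := hsur s hs u hu
      exact ⟨u', RGD.le_Sup (S := Gt cs h r) hs hu', h1⟩)
  refine ⟨norm_iff.2 fun y hy => hQ y hy, ?_⟩
  intro v hv hxv
  have h1 : v ∈ X r := by
    apply key v hv
    rw [commutatorElement_def, hxv, mul_inv_cancel]
    exact one_mem _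
  exact fr r hr v h1 hxv

theorem FreeOn.commFull [Finite Y] {x : Y} {Q : Subgroup Y} (h : FreeOn x Q) : CommFull Q x := by
  intro R1 hR1 hR
  have hc : ∀ s : Q, x * s * x⁻¹ * (s : Y)⁻¹ ∈ Q := fun s =>
    mul_mem ((Subgroup.mem_normalizer_iff.1 h.norm _).1 s.2) (inv_mem s.2)
  let L : Q → Q := fun s => ⟨x * s * x⁻¹ * (s : Y)⁻¹, hc s⟩
  have hinj : Function.Injective L := by
    intro a b hab
    have h1 : x * a * x⁻¹ * (a : Y)⁻¹ = x * b * x⁻¹ * (b : Y)⁻¹ := congrArg Subtype.val hab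
    have h2 := h.free _ (mul_mem (inv_mem b.2) a.2) (by
      have h3 : x * ((b : Y)⁻¹ * a) * x⁻¹ = (x * b * x⁻¹)⁻¹ * (x * a * x⁻¹ * (a : Y)⁻¹) * a := by group
      rw [h3, h1]; group)
    exact Subtype.ext (inv_mul_eq_one.1 h2).symm
  apply hR1.not_ge
  intro u hu
  obtain ⟨v, hv⟩ := (Finite.injective_iff_surjective.1 hinj) ⟨u, hu⟩
  have h1 := hR v v.2
  have h2 : x * v * x⁻¹ * (v : Y)⁻¹ = u := congrArg Subtype.val hv
  rwa [h2] at h1

/-- Torus elements acting freely on `X s` act freely on `X (-s)`, simple roots. -/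
theorem fr_neg_simple (R : RGD cs h p T n X) [Finite W] [Finite Y] {x : Y} (hx : x ∈ T) {i : I}
    (fr : ∀ u ∈ X (sr i), x * u * x⁻¹ = u → u = 1) : ∀ u ∈ X (-sr i), x * u * x⁻¹ = u → u = 1 := by
  intro u hu hxu
  by_contra hu1
  have hsr := isRoot_sr cs h i
  obtain ⟨a, ha, t, ht, b, hb, e⟩ := R.rk1 i u hu hu1
  have hnT : ∀ y ∈ T, n i * y * (n i)⁻¹ ∈ T := fun y hy => (Subgroup.mem_normalizer_iff.1 (R.nsys.norm i) y).1 hy
  have hXx : ∀ v ∈ X (sr i), x * v * x⁻¹ ∈ X (sr i) := by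
    intro v hv
    have h1 := R.tor _ hsr x hx
    rw [← h1]
    exact conj_mem_cj.2 hv
  set y' := n i * x * (n i)⁻¹ with hy'
  have hy'T : y' ∈ T := hnT x hx
  set a' := x * a * x⁻¹ with ha'
  set b' := x * b * x⁻¹ with hb'
  set t' := x * t * y'⁻¹ with ht'
  have ht'T : t' ∈ T := mul_mem (mul_mem hx ht) (inv_mem hy'T)
  have e1 : a' * t' * n i * b' = a * t * n i * b := by
    rw [← e, ← hxu, e, ha', hb', ht', hy']
    group
  have hcj : cj (n i) (X (sr i)) = X (-sr i) := by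
    rw [R.conj i _ hsr, rep_simple_sr]
  have e2 : t'⁻¹ * (a'⁻¹ * a) * t = n i * (b' * b⁻¹) * (n i)⁻¹ := by
    have h1 : a * t = a' * t' * n i * b' * b⁻¹ * (n i)⁻¹ := by rw [e1]; group
    calc t'⁻¹ * (a'⁻¹ * a) * t = t'⁻¹ * a'⁻¹ * (a * t) := by group
      _ = _ := by rw [h1]; group
  have hm1 : t'⁻¹ * (a'⁻¹ * a) * t ∈ X (-sr i) := by
    rw [e2, ← hcj]
    exact conj_mem_cj.2 (mul_mem (hXx b hb) (inv_mem hb))
  have hm2 : t'⁻¹ * (a'⁻¹ * a) * t ∈ RGD.B cs h T X :=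
    mul_mem (mul_mem (RGD.T_le_B (inv_mem ht'T)) (RGD.X_le_B hsr (sr_nonneg i) (mul_mem (inv_mem (hXx a ha)) ha))) (RGD.T_le_B ht)
  have h1 : t'⁻¹ * (a'⁻¹ * a) * t = 1 := by
    rw [← Subgroup.mem_bot, ← Cfsg.Agent.Nodes.Unique.neg_inf_B R i]
    exact ⟨hm1, hm2⟩
  have hb1 : b' = b := by
    rw [h1] at e2
    have h2 : b' * b⁻¹ = 1 := by
      have h3 : b' * b⁻¹ = (n i)⁻¹ * (n i * (b' * b⁻¹) * (n i)⁻¹) * n i := by group
      rw [h3, ← e2]; group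
    exact mul_inv_eq_one.1 h2
  have ha1 : a' = a := by
    have h2 : a'⁻¹ * a = t' * t⁻¹ := by
      have h3 : a'⁻¹ * a = t' * (t'⁻¹ * (a'⁻¹ * a) * t) * t⁻¹ := by group
      rw [h3, h1]; group
    have h3 : a'⁻¹ * a ∈ X (sr i) ⊓ T := ⟨(X (sr i)).mul_mem ((X (sr i)).inv_mem (hXx a ha)) ha, by
      rw [h2]; exact T.mul_mem ht'T (T.inv_mem ht)⟩
    rw [X_inf_T R hsr, Subgroup.mem_bot] at h3
    exact inv_mul_eq_one.1 h3
  have ha2 : a = 1 := fr a ha ha1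
  have hb2 : b = 1 := fr b hb hb1
  rw [ha2, hb2, one_mul, mul_one] at e
  -- `u = t n`
  have h2 : cj u (X (-sr i)) = X (sr i) := by
    rw [e, cj_mul, R.conj i _ hsr.neg, map_neg, rep_simple_sr, neg_neg, R.tor _ hsr t ht]
  have h3 : cj u (X (-sr i)) = X (-sr i) := by
    apply le_antisymm
    · rintro _ ⟨v, hv, rfl⟩
      exact mul_mem (mul_mem hu hv) (inv_mem hu)
    · intro v hv
      have : v = u * (u⁻¹ * v * u) * u⁻¹ := by group
      rw [this]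
      exact conj_mem_cj.2 (mul_mem (mul_mem (inv_mem hu) hv) hu)
  have h4 : X (sr i) ⊓ X (-sr i) = ⊥ := X_inf_X R hsr hsr.neg (fun h0 => hsr.ne_zero (by
    have h5 := congrArg (fun z => z + sr i) h0
    simp only [neg_add_cancel] at h5
    have h6 : (2 : ℤ) • (sr i : I → ℤ) = 0 := by rw [two_smul]; exact h5
    exact (smul_eq_zero.1 h6).resolve_left (by norm_num)))
  rw [← h2, h3, inf_idem] at h4
  rw [h4, Subgroup.mem_bot] at hu
  exact hu1 hu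

/-- Torus elements acting freely on `X s` act freely on `X (-s)`. -/
theorem fr_neg (R : RGD cs h p T n X) [Finite W] [Finite Y] {x : Y} (hx : x ∈ T) {s : I → ℤ} (hs : IsRoot cs h s)
    (fr : ∀ u ∈ X s, x * u * x⁻¹ = u → u = 1) : ∀ u ∈ X (-s), x * u * x⁻¹ = u → u = 1 := by
  obtain ⟨w, i, rfl⟩ := hs
  obtain ⟨g, hg⟩ := exists_rp cs R.nsys w
  have hsr := isRoot_sr cs h i
  have hgN : g⁻¹ * x * g ∈ T := by
    have h1 := (Subgroup.mem_normalizer_iff.1 hg.inv.1 x).1 hx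
    rwa [inv_inv] at h1
  have h1 : ∀ u ∈ X (-sr i), (g⁻¹ * x * g) * u * (g⁻¹ * x * g)⁻¹ = u → u = 1 := by
    refine fr_neg_simple R hgN fun u hu hxu => ?_
    have h2 := fr (g * u * g⁻¹) (R.conj_mem hg hsr hu) (by
      calc x * (g * u * g⁻¹) * x⁻¹ = g * ((g⁻¹ * x * g) * u * (g⁻¹ * x * g)⁻¹) * g⁻¹ := by group
        _ = g * u * g⁻¹ := by rw [hxu])
    have h3 : u = g⁻¹ * (g * u * g⁻¹) * g := by group
    rw [h3, h2]; group
  intro u hu hxu
  have hu' : g⁻¹ * u * g ∈ X (-sr i) := by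
    have h2 := R.conj_mem hg.inv ((hsr.act w).neg) hu
    rw [inv_inv, map_neg, ← rep_mul_apply, inv_mul_cancel, map_one, Module.End.one_apply] at h2
    exact h2
  have h2 := h1 _ hu' (by
    calc (g⁻¹ * x * g) * (g⁻¹ * u * g) * (g⁻¹ * x * g)⁻¹ = g⁻¹ * (x * u * x⁻¹) * g := by group
      _ = g⁻¹ * u * g := by rw [hxu])
  have h3 : u = g * (g⁻¹ * u * g) * g⁻¹ := by group
  rw [h3, h2]; group

/-- **`e = 1`.** An `ℓ`-element `x` (in the torus of `⟨X r, X (-r)⟩`) without fixed points on `Q_{± r}` has fixed point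
ratio at most `1 / M'`. -/
theorem one_rgd {R : RGD cs h p T n X} {r : I → ℤ} [Finite W] [Finite Y] [Fact p.Prime] (H : Hs R r)
    (hs : IsSimpleGroup Y) (hG1 : Cfsg.Agent.Nodes.RGDLib.G1 cs h X = ⊤) {ℓ k M' : ℕ}
    (hℓ : ℓ.Prime) {x : Y} (hxk : x ^ ℓ ^ k = 1)
    (nor : ∀ s, IsRoot cs h s → cpr cs h s r ≠ 0 → ∀ u ∈ X s, x * u * x⁻¹ ∈ X s)
    (fr : ∀ s, IsRoot cs h s → cpr cs h s r ≠ 0 → ∀ u ∈ X s, x * u * x⁻¹ = u → u = 1)
    (hQp : IsPGroup p (QQ cs h X r)) (hrk : ∃ s ∈ Gt cs h r, s ≠ r)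
    (hM : ∀ t : ℕ, t ≠ 0 → p ^ t ≡ 1 [MOD ℓ] → M' ≤ p ^ t) (hMr : M' ≤ Nat.card (X r)) :
    UGood 1 M' x := by
  have hp : p.Prime := Fact.out
  have hr := H.L.root
  have H' := Hs.neg H
  have hc1 := c2_of_hs H
  have hc2 := c2_of_hs H'
  have hneg : ∀ s, s ∈ Gt cs h (-r) → IsRoot cs h s ∧ cpr cs h s r ≠ 0 := by
    intro s hs
    have := hs.2
    rw [cpr_neg_right cs h _ hr] at this
    exact ⟨hs.1, by omega⟩
  have f1 : FreeOn x (QQ cs h X r) := freeOn_of_roots (R := R) hc1 H.mem_Gt (fun s hs => nor s hs.1 hs.2.ne')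
    (fun s hs => fr s hs.1 hs.2.ne')
  have f2 : FreeOn x (QQ cs h X (-r)) := freeOn_of_roots (R := R) hc2 H'.mem_Gt
    (fun s hs => nor s (hneg s hs).1 (hneg s hs).2) (fun s hs => fr s (hneg s hs).1 (hneg s hs).2)
  obtain ⟨m, hm, hmX⟩ := exists_refl R hr
  have hcjQ := cj_QQ (R := R) hr hmX
  have hcj : cj m (X r) = X (-r) := by
    rw [hmX r hr, cpr_self cs h hr]
    congr 1
    rw [two_smul]; abel
  have hQp' : IsPGroup p (QQ cs h X (-r)) := by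
    rw [← hcjQ]
    exact hQp.map _
  have hcardr : Nat.card (X (-r)) = Nat.card (X r) := by
    rw [← hcj]
    exact (Nat.card_congr (Subgroup.equivMapOfInjective (X r) (MulAut.conj m).toMonoidHom
      (MulAut.conj m).injective).toEquiv).symm
  have hgen := sup_QQ_eq_top H hs hG1
  have hna : ∀ {r' : I → ℤ} (H : Hs R r'), (∃ s ∈ Gt cs h r', s ≠ r') →
      ¬ ∀ a ∈ QQ cs h X r', ∀ b ∈ QQ cs h X r', a * b = b * a := by
    rintro r' H ⟨s, hs, hsr⟩ hab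
    obtain ⟨u, hu, hu1⟩ := (Subgroup.bot_or_exists_ne_one (X s)).resolve_left (X_ne_bot R hs.1)
    obtain ⟨w, hw, hw1⟩ := (Subgroup.bot_or_exists_ne_one (X r')).resolve_left (X_ne_bot R H.L.root)
    obtain ⟨v, hv, hvw⟩ := H.sur s hs hsr u hu hu1 w hw
    apply hw1
    rw [← hvw, commutatorElement_eq_one_iff_mul_comm]
    exact hab _ (H.X_le hs hu) _ (H.X_le (H.sub s hs hsr) hv)
  refine Cfsg.Agent.H398.FPR.heis_uGood f1 f2
    (PairM.of_pGroup hℓ hp hxk hQp f1.norm (FreeOn.commFull f1) hM)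
    (PairM.of_pGroup hℓ hp hxk hQp' f2.norm (FreeOn.commFull f2) hM) H.X_le_QQ H'.X_le_QQ
    hc1.cen hc2.cen ?_ ?_ (hna H hrk) (hna H' ?_) hMr (by rw [hcardr]; exact hMr) ?_ ?_
  · intro a ha b hb
    exact hc1.com a ha b hb
  · intro a ha b hb
    exact hc2.com a ha b hb
  · obtain ⟨s, hs, hsr⟩ := hrk
    refine ⟨-s, ⟨hs.1.neg, ?_⟩, fun h0 => hsr (neg_injective h0)⟩
    rw [cpr_neg_right cs h _ hr, ← neg_one_smul ℤ s, cpr_smul cs h _ _ hr]
    have := hs.2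
    omega
  · intro K hK z hz hz1 hzK
    obtain ⟨m, hm, hmX⟩ := exists_refl_elt R hr hz hz1
    have hmK : m ∈ K := (sup_le (H.X_le_QQ.trans hK) (by rwa [Subgroup.zpowers_le])) hm
    rw [← top_le_iff, ← hgen, ← cj_QQ (R := R) hr hmX]
    exact sup_le hK (cc_le hmK hK)
  · intro K hK z hz hz1 hzK
    have hz' : z ∈ X (-(-r)) := by rwa [neg_neg]
    obtain ⟨m, hm, hmX⟩ := exists_refl_elt R hr.neg hz' hz1
    have hmK : m ∈ K := (sup_le (H'.X_le_QQ.trans hK) (by rwa [Subgroup.zpowers_le])) hm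
    have h1 := cj_QQ (R := R) hr.neg hmX
    rw [neg_neg] at h1
    rw [← top_le_iff, ← hgen, ← h1]
    exact sup_le (cc_le hmK hK) hK

/-- `e = 1`, torus elements: only the action on the `X s`, `s ∈ Gt r`, is needed. -/
theorem one_rgd_T {R : RGD cs h p T n X} {r : I → ℤ} [Finite W] [Finite Y] [Fact p.Prime] (H : Hs R r)
    (hs : IsSimpleGroup Y) (hG1 : Cfsg.Agent.Nodes.RGDLib.G1 cs h X = ⊤) {ℓ k M' : ℕ}
    (hℓ : ℓ.Prime) {x : Y} (hxT : x ∈ T) (hxk : x ^ ℓ ^ k = 1)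
    (fr : ∀ s ∈ Gt cs h r, ∀ u ∈ X s, x * u * x⁻¹ = u → u = 1)
    (hQp : IsPGroup p (QQ cs h X r)) (hrk : ∃ s ∈ Gt cs h r, s ≠ r)
    (hM : ∀ t : ℕ, t ≠ 0 → p ^ t ≡ 1 [MOD ℓ] → M' ≤ p ^ t) (hMr : M' ≤ Nat.card (X r)) :
    UGood 1 M' x := by
  refine one_rgd H hs hG1 hℓ hxk ?_ ?_ hQp hrk hM hMr
  · intro s hs _ u hu
    rw [← R.tor s hs x hxT]
    exact conj_mem_cj.2 hu
  · intro s hs hc
    rcases lt_or_gt_of_ne hc with h0 | h0
    · have h1 := fr_neg R hxT (s := -s) hs.neg (fr (-s) ⟨hs.neg, by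
        rw [← neg_one_smul ℤ s, cpr_smul cs h _ _ H.L.root]; omega⟩)
      rwa [neg_neg] at h1
    · exact fr s ⟨hs, h0⟩

/-! ### Parametrised root groups with a scalar action -/

/-- `g` acts on `V` as multiplication by `t`. -/
def SPar {K : Type*} [Field K] (V : Subgroup Y) (g : Y) (t : K) : Prop :=
  ∃ (F : Subfield K) (x : K → Y), t ∈ F ∧ (∀ u, u ∈ V ↔ ∃ a ∈ F, x a = u) ∧
    (∀ a ∈ F, ∀ b ∈ F, x (a + b) = x a * x b) ∧ (∀ a ∈ F, ∀ b ∈ F, x a = x b → a = b) ∧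
    ∀ a ∈ F, g * x a * g⁻¹ = x (t * a)

section SPar

variable {K : Type*} [Field K] {V : Subgroup Y} {g : Y} {t : K}

theorem SPar.nor (H : SPar V g t) : ∀ u ∈ V, g * u * g⁻¹ ∈ V := by
  obtain ⟨F, x, ht, hV, hadd, hinj, hg⟩ := H
  intro u hu
  obtain ⟨a, ha, rfl⟩ := (hV u).1 hu
  rw [hg a ha]
  exact (hV _).2 ⟨_, mul_mem ht ha, rfl⟩

theorem SPar.pow (H : SPar V g t) (i : ℕ) : SPar V (g ^ i) (t ^ i) := by
  obtain ⟨F, x, ht, hV, hadd, hinj, hg⟩ := H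
  refine ⟨F, x, pow_mem ht i, hV, hadd, hinj, ?_⟩
  induction i with
  | zero => intro a ha; simp
  | succ i ih =>
    intro a ha
    have h2 := ih (t * a) (mul_mem ht ha)
    rw [pow_succ, pow_succ, mul_assoc (t ^ i), ← h2, ← hg a ha]
    group

theorem SPar.fr (H : SPar V g t) (h1 : t ≠ 1) : ∀ u ∈ V, g * u * g⁻¹ = u → u = 1 := by
  obtain ⟨F, x, ht, hV, hadd, hinj, hg⟩ := H
  intro u hu hgu
  obtain ⟨a, ha, rfl⟩ := (hV u).1 hu
  rw [hg a ha] at hgu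
  have h2 := hinj _ (mul_mem ht ha) _ ha hgu
  have h3 : (t - 1) * a = 0 := by rw [sub_mul, one_mul, h2, sub_self]
  rcases mul_eq_zero.1 h3 with h4 | h4
  · exact absurd (sub_eq_zero.1 h4) h1
  · rw [h4]
    have := hadd 0 (zero_mem F) 0 (zero_mem F)
    rw [add_zero] at this
    exact left_eq_mul.1 this

theorem SPar.sur (H : SPar V g t) {i : ℕ} (hi : t ^ i ≠ 1) : ∀ u ∈ V, ∃ u' ∈ V, ⁅g ^ i, u'⁆ = u := by
  obtain ⟨F, x, ht, hV, hadd, hinj, hg⟩ := H.pow i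
  intro u hu
  obtain ⟨a, ha, rfl⟩ := (hV u).1 hu
  have h0 : x 0 = 1 := by
    have := hadd 0 (zero_mem F) 0 (zero_mem F)
    rw [add_zero] at this
    exact left_eq_mul.1 this
  have hd : t ^ i - 1 ≠ 0 := sub_ne_zero.2 hi
  have hb : (t ^ i - 1)⁻¹ * a ∈ F := mul_mem (inv_mem (sub_mem ht (one_mem F))) ha
  refine ⟨_, (hV _).2 ⟨_, hb, rfl⟩, ?_⟩
  set b := (t ^ i - 1)⁻¹ * a with hb'
  have hneg : x (-b) = (x b)⁻¹ := by
    have := hadd (-b) (neg_mem hb) b hb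
    rw [neg_add_cancel, h0] at this
    exact eq_inv_of_mul_eq_one_left this.symm
  rw [commutatorElement_def, hg b hb, ← hneg, ← hadd _ (mul_mem ht hb) _ (neg_mem hb)]
  congr 1
  rw [hb']
  field_simp
  ring

end SPar

theorem scR_of_par {K : Type*} [Field K] {R : RGD cs h p T n X} {r : I → ℤ} {q : ℕ} {g : Y} {t : K} (hq : 2 < q)
    (hg : g ∈ X r ⊔ X (-r)) (h1 : ∀ s ∈ Gt cs h r, s ≠ r → SPar (X s) g t) (h2 : SPar (X r) g (t ^ 2))
    (ht : ∀ i : ℕ, 0 < i → i + 1 < q → t ^ i ≠ 1) : ScR R r q g := by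
  refine ⟨hq, hg, ?_, fun i hi hiq s hs hsr => (h1 s hs hsr).sur (ht i hi hiq)⟩
  intro s hs
  by_cases hsr : s = r
  · subst hsr; exact h2.nor
  · exact (h1 s hs hsr).nor

/-- **`e = 1`.** -/
theorem one_of_par {K : Type*} [Field K] {R : RGD cs h p T n X} {r : I → ℤ} [Finite W] [Finite Y] [Fact p.Prime]
    (H : Hs R r) (hs : IsSimpleGroup Y) (hG1 : Cfsg.Agent.Nodes.RGDLib.G1 cs h X = ⊤) {ℓ k M' : ℕ}
    (hℓ : ℓ.Prime) {x : Y} {t : K} (hxT : x ∈ T) (hxk : x ^ ℓ ^ k = 1) (ht : t ^ 2 ≠ 1)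
    (h1 : ∀ s ∈ Gt cs h r, s ≠ r → SPar (X s) x t) (h2 : SPar (X r) x (t ^ 2))
    (hQp : IsPGroup p (QQ cs h X r)) (hrk : ∃ s ∈ Gt cs h r, s ≠ r)
    (hM : ∀ t : ℕ, t ≠ 0 → p ^ t ≡ 1 [MOD ℓ] → M' ≤ p ^ t) (hMr : M' ≤ Nat.card (X r)) :
    UGood 1 M' x := by
  refine one_rgd_T H hs hG1 hℓ hxT hxk ?_ hQp hrk hM hMr
  intro s hs
  by_cases hsr : s = r
  · subst hsr; exact h2.fr ht
  · exact (h1 s hs hsr).fr (fun h0 => ht (by rw [h0, one_pow]))

end Cfsg.Agent.H400.Fpr
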