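import Cfsg.Agent.H400.FprOne

/-!
# Fixed point ratios of `p`-elements: `e = 1`, weak Heisenberg structure (helper400, TEAM FPR)

`Hw R r`: `Q_r` has commutators in `X r`, `X r` is central, `Q_r` is not abelian (`F₄(2ᵃ)` is allowed).
-/

set_option autoImplicit false
set_option linter.unusedSectionVars false
set_option linter.unusedVariables false

namespace Cfsg.Agent.H400.Fpr

open CoxeterSystem Cfsg.Agent.ChevalleyStructure.CoxeterGeom Cfsg.Agent.Tits.Roots Cfsg.Agent.Tits.Core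
  Cfsg.Agent.Tits.Exchange Cfsg.Agent.Nodes.Reps Cfsg.Agent.Nodes.BNOf Cfsg.Agent.Nodes.StabComb
  Cfsg.Agent.Nodes.Bruhat Cfsg.Agent.Nodes.OppDec Cfsg.Agent.Nodes.PosPair Cfsg.Agent.Nodes.Coroot
  Cfsg.Agent.KFacts.RgdPar Cfsg.Agent.KFacts.RgdSL Cfsg.Agent.KFacts.RgdTI Cfsg.Agent.Nodes.LeviDec
open Cfsg.Agent.H400.TwoExc
open Cfsg.Agent.H398.FPR (CommFull UGood Pair FreeOn heis_uGood)
open Cfsg.Agent.H435.Fpr (PairM)
open scoped commutatorElement

variable {I W Y : Type*} [Fintype I] [DecidableEq I] [Group W] [Group Y] {M : CoxeterMatrix I}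
  {cs : CoxeterSystem M W} {A : I → I → ℤ} {h : IsCartan M A} {p : ℕ} {T : Subgroup Y} {n : I → Y}
  {X : (I → ℤ) → Subgroup Y}

structure Hw (R : RGD cs h p T n X) (r : I → ℤ) : Prop where
  L : LR R r
  com : ∀ s ∈ Gt cs h r, ∀ t ∈ Gt cs h r, ∀ u ∈ X s, ∀ v ∈ X t, ⁅u, v⁆ ∈ X r
  nab : ∃ s ∈ Gt cs h r, ∃ t ∈ Gt cs h r, ∃ u ∈ X s, ∃ v ∈ X t, u * v ≠ v * u

theorem mem_Gt_self [Finite W] {r : I → ℤ} (hr : IsRoot cs h r) : r ∈ Gt cs h r :=
  ⟨hr, by rw [cpr_self cs h hr]; norm_num⟩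

theorem Hs.hw {R : RGD cs h p T n X} {r : I → ℤ} [Finite W] (H : Hs R r) (hrk : ∃ s ∈ Gt cs h r, s ≠ r) :
    Hw R r where
  L := H.L
  com s hs t ht u hu v hv := H.comm_mem (H.X_le hs hu) (H.X_le ht hv)
  nab := by
    obtain ⟨s, hs, hsr⟩ := hrk
    obtain ⟨u, hu, hu1⟩ := (Subgroup.bot_or_exists_ne_one (X s)).resolve_left (X_ne_bot R hs.1)
    obtain ⟨w, hw, hw1⟩ := (Subgroup.bot_or_exists_ne_one (X r)).resolve_left (X_ne_bot R H.L.root)
    obtain ⟨v, hv, hvw⟩ := H.sur s hs hsr u hu hu1 w hw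
    refine ⟨s, hs, _, H.sub s hs hsr, u, hu, v, hv, fun h0 => hw1 ?_⟩
    rw [← hvw, commutatorElement_eq_one_iff_mul_comm]
    exact h0

theorem Hw.act {R : RGD cs h p T n X} {r : I → ℤ} [Finite W] (H : Hw R r) (w : W) : Hw R (rep cs h w r) := by
  have hr := H.L.root
  obtain ⟨g, hg⟩ := exists_rp cs R.nsys w
  have hback : ∀ s : I → ℤ, IsRoot cs h s → ∀ u ∈ X s, g⁻¹ * u * g ∈ X (rep cs h w⁻¹ s) := by
    intro s hs u hu
    have := R.conj_mem hg.inv hs hu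
    rwa [inv_inv] at this
  have hww : ∀ s : I → ℤ, rep cs h w (rep cs h w⁻¹ s) = s := by
    intro s
    rw [← rep_mul_apply, mul_inv_cancel, map_one, Module.End.one_apply]
  have hGt : ∀ s, s ∈ Gt cs h (rep cs h w r) → rep cs h w⁻¹ s ∈ Gt cs h r := by
    intro s hs
    refine ⟨hs.1.act _, ?_⟩
    have h1 := hs.2
    rwa [← hww s, cpr_rep cs h w _ hr] at h1
  have hGt' : ∀ s, s ∈ Gt cs h r → rep cs h w s ∈ Gt cs h (rep cs h w r) := by
    intro s hs
    refine ⟨hs.1.act _, ?_⟩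
    rw [cpr_rep cs h w _ hr]
    exact hs.2
  refine ⟨H.L.act w, ?_, ?_⟩
  · intro s hs t ht u hu v hv
    have h1 := H.com _ (hGt s hs) _ (hGt t ht) _ (hback s hs.1 u hu) _ (hback t ht.1 v hv)
    have h2 := R.conj_mem hg hr h1
    have h3 : g * ⁅g⁻¹ * u * g, g⁻¹ * v * g⁆ * g⁻¹ = ⁅u, v⁆ := by
      simp only [commutatorElement_def]; group
    rwa [h3] at h2
  · obtain ⟨s, hs, t, ht, u, hu, v, hv, huv⟩ := H.nab
    refine ⟨_, hGt' s hs, _, hGt' t ht, _, R.conj_mem hg hs.1 hu, _, R.conj_mem hg ht.1 hv, fun h0 => huv ?_⟩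
    calc u * v = g⁻¹ * ((g * u * g⁻¹) * (g * v * g⁻¹)) * g := by group
      _ = g⁻¹ * ((g * v * g⁻¹) * (g * u * g⁻¹)) * g := by rw [h0]
      _ = v * u := by group

theorem exists_neg_act [Finite W] {r : I → ℤ} (hr : IsRoot cs h r) : ∃ w : W, rep cs h w r = -r := by
  obtain ⟨v, i, rfl⟩ := hr
  refine ⟨Cfsg.Agent.Nodes.SubComb.rfl' cs v i, ?_⟩
  rw [rep_rfl'_eq, cpr_self cs h ((isRoot_sr cs h i).act v)]
  rw [two_smul]; abel

theorem Hw.neg {R : RGD cs h p T n X} {r : I → ℤ} [Finite W] (H : Hw R r) : Hw R (-r) := by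
  obtain ⟨w, hw⟩ := exists_neg_act (cs := cs) (h := h) H.L.root
  rw [← hw]
  exact H.act w

theorem c2_of_hw {R : RGD cs h p T n X} {r : I → ℤ} [Finite W] (H : Hw R r) : C2 (X r) (QQ cs h X r) := by
  have hr := H.L.root
  refine ⟨RGD.le_Sup (mem_Gt_self hr), ?_, ?_⟩
  · intro z hz g hg
    exact (H.L.comm' (RGD.Sup_mono (S' := Ge cs h r) (fun s hs => ⟨hs.1, hs.2.le⟩) hg) hz).symm
  · intro a ha b hb
    refine comm_mem_of_gen (fun s : Gt cs h r => X s.1)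
      (fun z hz s v hv => (H.L.comm s.1 s.2.1 s.2.2.le v hv z hz).symm) ?_ a ha b hb
    rintro ⟨s, hs⟩ ⟨t, ht⟩ u hu v hv
    exact H.com s hs t ht u hu v hv

theorem Lw_comm {R : RGD cs h p T n X} {r : I → ℤ} [Finite W] (L : LR R r) {x : Y} (hx : x ∈ L0 cs h X r) {z : Y}
    (hz : z ∈ X r ⊔ X (-r)) : x * z = z * x := by
  have hr := L.root
  obtain ⟨w, hw⟩ := exists_neg_act (cs := cs) (h := h) hr
  have H' : LR R (-r) := by rw [← hw]; exact L.act w
  have h1 : X r ⊔ X (-r) ≤ Subgroup.centralizer (L0 cs h X r : Set Y) := by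
    refine sup_le ?_ ?_
    · intro z hz
      rw [Subgroup.mem_centralizer_iff]
      intro y hy
      exact L.comm' (RGD.Sup_mono (S' := Ge cs h r) (fun s hs => ⟨hs.1, hs.2.ge⟩) hy) hz
    · intro z hz
      rw [Subgroup.mem_centralizer_iff]
      intro y hy
      refine H'.comm' (RGD.Sup_mono (S' := Ge cs h (-r)) (fun s hs => ⟨hs.1, ?_⟩) hy) hz
      rw [cpr_neg_right cs h _ hr, hs.2, neg_zero]
  exact Subgroup.mem_centralizer_iff.1 (h1 hz) x hx

theorem X_norm_QQ' {R : RGD cs h p T n X} {r : I → ℤ} (hr : IsRoot cs h r) [Finite W] {s : I → ℤ}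
    (hs : IsRoot cs h s) (h0 : 0 ≤ cpr cs h s r) {a b : Y} (ha : a ∈ X s) (hb : b ∈ QQ cs h X r) :
    a * b * a⁻¹ ∈ QQ cs h X r := by
  have hX : ∀ {t : I → ℤ}, t ∈ Gt cs h r → X t ≤ QQ cs h X r := fun ht => RGD.le_Sup (S := Gt cs h r) ht
  have h1 : QQ cs h X r ≤ (QQ cs h X r).comap (MulAut.conj a).toMonoidHom := by
    refine RGD.Sup_le fun t ht v hv => ?_
    show a * v * a⁻¹ ∈ QQ cs h X r
    by_cases hst : s = t
    · subst hst
      exact mul_mem (mul_mem (hX ht ha) (hX ht hv)) (inv_mem (hX ht ha))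
    by_cases hst' : s = -t
    · exfalso
      rw [hst', ← neg_one_smul ℤ t, cpr_smul cs h _ _ hr] at h0
      have := ht.2
      omega
    have h2 : a * v * a⁻¹ = ⁅a, v⁆ * v := by rw [commutatorElement_def]; group
    rw [h2]
    refine mul_mem ?_ (hX ht hv)
    refine (iSup_le ?_ : btw cs h X s t ≤ QQ cs h X r) (R.comm s t hs ht.1 hst hst' a ha v hv)
    rintro ⟨z, hz⟩
    obtain ⟨hz1, m, u, v, hm, hu, hv, he⟩ := hz
    refine hX ⟨hz1, ?_⟩
    have h3 := congrArg (fun y => cpr cs h y r) he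
    simp only [cpr_smul cs h _ _ hr, cpr_add cs h _ _ hr] at h3
    have h4 : 0 < v * cpr cs h t r := mul_pos hv ht.2
    have h5 : 0 ≤ u * cpr cs h s r := mul_nonneg hu.le h0
    by_contra h6
    push Not at h6
    have h7 : m * cpr cs h z r ≤ 0 := mul_nonpos_of_nonneg_of_nonpos hm.le h6
    omega
  exact h1 hb

theorem Lw_norm {R : RGD cs h p T n X} {r : I → ℤ} [Finite W] [Finite Y] (hr : IsRoot cs h r) {x : Y}
    (hx : x ∈ L0 cs h X r) : ∀ y ∈ QQ cs h X r, x * y * x⁻¹ ∈ QQ cs h X r := by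
  have h1 : L0 cs h X r ≤ Subgroup.normalizer (QQ cs h X r : Set Y) := by
    refine RGD.Sup_le fun s hs a ha => norm_iff.2 fun b hb => X_norm_QQ' (R := R) hr hs.1 hs.2.ge ha hb
  exact fun y hy => norm_iff.1 (h1 hx) y hy

/-- `Q_r` and `Q_{-r}` generate. -/
theorem sup_QQ_eq_top' {R : RGD cs h p T n X} {r : I → ℤ} [Finite W] [Finite Y] (L : LR R r)
    (hs : IsSimpleGroup Y) (hG1 : Cfsg.Agent.Nodes.RGDLib.G1 cs h X = ⊤) :
    QQ cs h X r ⊔ QQ cs h X (-r) = ⊤ := by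
  have hr := L.root
  obtain ⟨m, hm, hmX⟩ := exists_refl R hr
  have hcjQ := cj_QQ (R := R) hr hmX
  have hX2 : ∀ s, IsRoot cs h s → s ∈ Gt cs h r ∨ cpr cs h s r = 0 ∨ s ∈ Gt cs h (-r) := by
    intro s hs
    rcases lt_trichotomy (cpr cs h s r) 0 with h0 | h0 | h0
    · exact Or.inr (Or.inr ⟨hs, by rw [cpr_neg_right cs h _ hr]; omega⟩)
    · exact Or.inr (Or.inl h0)
    · exact Or.inl ⟨hs, h0⟩
  rw [← hcjQ]
  set K := QQ cs h X r ⊔ cj m (QQ cs h X r) with hK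
  have hnorm : K.Normal := by
    have h1 : Cfsg.Agent.Nodes.RGDLib.G1 cs h X ≤ Subgroup.normalizer (K : Set Y) := by
      refine RGD.Sup_le fun s hs => ?_
      rcases hX2 s hs with h0 | h0 | h0
      · exact ((RGD.le_Sup (S := Gt cs h r) h0).trans le_sup_left).trans Subgroup.le_normalizer
      · intro a ha
        have haL : a ∈ L0 cs h X r := RGD.le_Sup (S := {s | IsRoot cs h s ∧ cpr cs h s r = 0}) ⟨hs, h0⟩ ha
        have ham : a * m = m * a := Lw_comm L haL hm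
        have h2 := Lw_norm (R := R) hr haL
        refine norm_iff.2 ?_
        have h3 : K ≤ K.comap (MulAut.conj a).toMonoidHom := by
          refine sup_le (fun y hy => Subgroup.mem_sup_left (h2 y hy)) ?_
          rintro _ ⟨y, hy, rfl⟩
          show a * (m * y * m⁻¹) * a⁻¹ ∈ K
          have h4 : a * (m * y * m⁻¹) * a⁻¹ = m * (a * y * a⁻¹) * m⁻¹ := by
            calc a * (m * y * m⁻¹) * a⁻¹ = (a * m) * y * (a * m)⁻¹ := by group
              _ = (m * a) * y * (m * a)⁻¹ := by rw [ham]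
              _ = _ := by group
          rw [h4]
          exact Subgroup.mem_sup_right (conj_mem_cj.2 (h2 y hy))
        exact fun y hy => h3 hy
      · have h1 : X s ≤ cj m (QQ cs h X r) := by
          rw [hcjQ]
          exact RGD.le_Sup h0
        exact (h1.trans le_sup_right).trans Subgroup.le_normalizer
    rw [hG1, top_le_iff] at h1
    exact Subgroup.normalizer_eq_top_iff.1 h1
  rcases hs.eq_bot_or_eq_top_of_normal K hnorm with h1 | h1
  · exfalso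
    have h2 : X r ≤ K := (RGD.le_Sup (S := Gt cs h r) (mem_Gt_self hr)).trans le_sup_left
    rw [h1, le_bot_iff] at h2
    exact X_ne_bot R hr h2
  · exact h1

/-- **`e = 1`**, weak structure. -/
theorem one_hw {R : RGD cs h p T n X} {r : I → ℤ} [Finite W] [Finite Y] [Fact p.Prime] (H : Hw R r)
    (hs : IsSimpleGroup Y) (hG1 : Cfsg.Agent.Nodes.RGDLib.G1 cs h X = ⊤) {ℓ k M' : ℕ}
    (hℓ : ℓ.Prime) {x : Y} (hxT : x ∈ T) (hxk : x ^ ℓ ^ k = 1)
    (fr : ∀ s ∈ Gt cs h r, ∀ u ∈ X s, x * u * x⁻¹ = u → u = 1)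
    (hQp : IsPGroup p (QQ cs h X r))
    (hM : ∀ t : ℕ, t ≠ 0 → p ^ t ≡ 1 [MOD ℓ] → M' ≤ p ^ t) (hMr : M' ≤ Nat.card (X r)) :
    UGood 1 M' x := by
  have hp : p.Prime := Fact.out
  have hr := H.L.root
  have H' := H.neg
  have hc1 := c2_of_hw H
  have hc2 := c2_of_hw H'
  have nor : ∀ s, IsRoot cs h s → ∀ u ∈ X s, x * u * x⁻¹ ∈ X s := by
    intro s hs u hu
    rw [← R.tor s hs x hxT]
    exact conj_mem_cj.2 hu
  have hneg : ∀ s, s ∈ Gt cs h (-r) → -s ∈ Gt cs h r := by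
    intro s hs
    have := hs.2
    rw [cpr_neg_right cs h _ hr] at this
    exact ⟨hs.1.neg, by rw [← neg_one_smul ℤ s, cpr_smul cs h _ _ hr]; omega⟩
  have f1 : FreeOn x (QQ cs h X r) := freeOn_of_roots (R := R) hc1 (mem_Gt_self hr) (fun s hs => nor s hs.1) fr
  have f2 : FreeOn x (QQ cs h X (-r)) := freeOn_of_roots (R := R) hc2 (mem_Gt_self hr.neg)
    (fun s hs => nor s hs.1) (fun s hs => by
      have h1 := fr_neg R hxT (s := -s) hs.1.neg (fr (-s) (hneg s hs))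
      rwa [neg_neg] at h1)
  obtain ⟨m, hm, hmX⟩ := exists_refl R hr
  have hcjQ := cj_QQ (R := R) hr hmX
  have hcj : cj m (X r) = X (-r) := by
    rw [hmX r hr, cpr_self cs h hr]
    congr 1
    rw [two_smul]; abel
  have hQp' : IsPGroup p (QQ cs h X (-r)) := by
    rw [← hcjQ]
    exact hQp.map _
  have hcardr : Nat.card (X (-r)) = Nat.card (X r) := by
    rw [← hcj]
    exact (Nat.card_congr (Subgroup.equivMapOfInjective (X r) (MulAut.conj m).toMonoidHom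
      (MulAut.conj m).injective).toEquiv).symm
  have hgen := sup_QQ_eq_top' H.L hs hG1
  have hna : ∀ {r' : I → ℤ} (H : Hw R r'), ¬ ∀ a ∈ QQ cs h X r', ∀ b ∈ QQ cs h X r', a * b = b * a := by
    intro r' H hab
    obtain ⟨s, hs, t, ht, u, hu, v, hv, huv⟩ := H.nab
    exact huv (hab _ (RGD.le_Sup (S := Gt cs h r') hs hu) _ (RGD.le_Sup (S := Gt cs h r') ht hv))
  refine Cfsg.Agent.H398.FPR.heis_uGood f1 f2
    (PairM.of_pGroup hℓ hp hxk hQp f1.norm (FreeOn.commFull f1) hM)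
    (PairM.of_pGroup hℓ hp hxk hQp' f2.norm (FreeOn.commFull f2) hM) hc1.le hc2.le
    hc1.cen hc2.cen ?_ ?_ (hna H) (hna H') hMr (by rw [hcardr]; exact hMr) ?_ ?_
  · intro a ha b hb
    exact hc1.com a ha b hb
  · intro a ha b hb
    exact hc2.com a ha b hb
  · intro K hK z hz hz1 hzK
    obtain ⟨m, hm, hmX⟩ := exists_refl_elt R hr hz hz1
    have hmK : m ∈ K := (sup_le (hc1.le.trans hK) (by rwa [Subgroup.zpowers_le])) hm
    rw [← top_le_iff, ← hgen, ← cj_QQ (R := R) hr hmX]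
    exact sup_le hK (cc_le hmK hK)
  · intro K hK z hz hz1 hzK
    have hz' : z ∈ X (-(-r)) := by rwa [neg_neg]
    obtain ⟨m, hm, hmX⟩ := exists_refl_elt R hr.neg hz' hz1
    have hmK : m ∈ K := (sup_le (hc2.le.trans hK) (by rwa [Subgroup.zpowers_le])) hm
    have h1 := cj_QQ (R := R) hr.neg hmX
    rw [neg_neg] at h1
    rw [← top_le_iff, ← hgen, ← h1]
    exact sup_le (cc_le hmK hK) hK

end Cfsg.Agent.H400.Fpr
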